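import Cfsg.Agent.PMinLie36.PolarMain
import Cfsg.Agent.SylowOvergroup.BN

/-!
The maximal overgroups of the split part of a (B, N)-pair.
-/

set_option autoImplicit false

namespace CfsgLib.PMinLie36

open CfsgLib.BNPair CfsgLib.SylowOvergroup

variable {G : Type*} [Group G] {P : Cfsg.BNPair G} {p : ℕ}

theorem mem_parabolic_of_word {K : Set G} (L : List P.S) (hL : ∀ t ∈ L, t.1 ∈ K)
    (d : Split P p) {g : G} (hg : g ∈ cell P (wordProd P L)) : g ∈ P.parabolic K := by
  induction L generalizing g with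
  | nil =>
    rw [wordProd_nil, cell_one] at hg
    exact Subgroup.mem_sup_left hg
  | cons t L ih =>
    obtain ⟨a, c, ha, hc, rfl⟩ := exists_mem_cell_gen_mul P t (wordProd_cons P t L ▸ hg)
    refine mul_mem ?_ (ih (fun x hx => hL x (List.mem_cons_of_mem _ hx)) hc)
    obtain ⟨u, hu, b, hb, rfl⟩ := d.exists_left (P.subset t.2) ha
    exact mul_mem (mul_mem (Subgroup.mem_sup_left (d.U_le hu))
      (Subgroup.mem_sup_right (Subgroup.subset_closure (hL t (List.mem_cons_self ..)))))
      (Subgroup.mem_sup_left hb)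

/-- A maximal standard parabolic subgroup. -/
def maxP (s : P.S) : Subgroup G := P.parabolic (P.S \ {s.1})

theorem borel_eq (d : Split P p) : P.B = Subgroup.normalizer (d.U : Set G) :=
  le_antisymm (fun b hb => Subgroup.mem_normalizer_iff.2 fun u => ⟨fun hu => d.U_norm b hb u hu,
    fun hu => by simpa [mul_assoc] using d.U_norm b⁻¹ (inv_mem hb) _ hu⟩) d.normalizer_le

theorem exists_maxP (d : Split P p) [IsSimpleGroup G] {Y : Subgroup G} (hUY : d.U ≤ Y)
    (hY : Y ≠ ⊤) : ∃ s, Y ≤ maxP (P := P) s := by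
  obtain ⟨s, hs⟩ : ∃ s : P.S, s ∉ d.met Y := by
    by_contra h
    push Not at h
    exact hY (d.eq_top_of_met hUY h)
  refine ⟨s, fun m hm => ?_⟩
  obtain ⟨n, hn, hmn⟩ := exists_mem_dc P m
  have hw := (mem_cell_toW P (closure_le_N P subset_rfl hn)).2 hmn
  obtain ⟨L, hL, hLw⟩ := d.inJ_met hUY hm hw
  exact mem_parabolic_of_word (K := P.S \ {s.1}) L (fun t ht => ⟨t.2, fun h => hs (Subtype.ext h ▸ hL t ht)⟩) d
    (hLw ▸ hw)

/-- The maximal overgroups. -/
noncomputable def splitParab (d : Split P p) [IsSimpleGroup G] : Parab d.U P.S where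
  P := maxP
  le _ := d.U_le.trans le_sup_left
  cover _ hUY hY := exists_maxP d hUY hY
  indep s := ⟨s.1, fun h => (mem_of_mem_parabolic P Set.sdiff_subset s.2 h).2 rfl,
    fun t ht => Subgroup.mem_sup_right (Subgroup.subset_closure
      ⟨s.2, fun h => ht (Subtype.ext h).symm⟩)⟩

theorem rankOne_of_split [Finite G] [Fact p.Prime] [IsSimpleGroup G] (d : Split P p)
    (hS : ∀ s t : P.S, s = t) : RankOne p G := by
  refine RankOne.of_one d.U_p d.U_idx fun Y hUY hY => ?_
  obtain ⟨s, hs⟩ := exists_maxP d hUY hY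
  refine hs.trans ?_
  rw [← borel_eq d, maxP, show P.S \ {s.1} = ∅ from Set.eq_empty_iff_forall_notMem.2
    fun x hx => hx.2 (congrArg Subtype.val (hS ⟨x, hx.1⟩ s)), Cfsg.BNPair.parabolic,
    Subgroup.closure_empty, sup_bot_eq]

theorem iInf_maxP (s : P.S) :
    (⨅ t ∈ {t : P.S | t ≠ s}, maxP t) = P.parabolic {s.1} := by
  rw [eq_parabolic P (⨅ t ∈ {t : P.S | t ≠ s}, maxP t) (le_iInf₂ fun t _ => le_sup_left)]
  congr 1
  ext g
  simp only [Set.mem_ofPred_eq, Subgroup.mem_iInf, Set.mem_singleton_iff]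
  refine ⟨fun ⟨hg, h⟩ => ?_, ?_⟩
  · by_contra hne
    exact (mem_of_mem_parabolic P Set.sdiff_subset hg
      (h ⟨g, hg⟩ fun e => hne (congrArg Subtype.val e))).2 rfl
  · rintro rfl
    exact ⟨s.2, fun t ht => Subgroup.mem_sup_right (Subgroup.subset_closure
      ⟨s.2, fun h => ht (Subtype.ext h).symm⟩)⟩

/-- Two subgroups permute. -/
def PermComm (X Y : Subgroup G) : Prop :=
  ∀ x ∈ X, ∀ y ∈ Y, ∃ y' ∈ Y, ∃ x' ∈ X, x * y = y' * x'

theorem PermComm.map {X Y : Subgroup G} (h : PermComm X Y) (e : G ≃* G) :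
    PermComm (X.map e.toMonoidHom) (Y.map e.toMonoidHom) := by
  rintro _ ⟨x, hx, rfl⟩ _ ⟨y, hy, rfl⟩
  obtain ⟨y', hy', x', hx', he⟩ := h x hx y hy
  exact ⟨e y', ⟨y', hy', rfl⟩, e x', ⟨x', hx', rfl⟩,
    by simp only [MulEquiv.coe_toMonoidHom, ← map_mul, he]⟩

theorem mem_single (s : P.S) {g : G} :
    g ∈ P.parabolic {s.1} → g ∈ P.B ∨ g ∈ cell P (gen P s) := by
  intro hg
  have hs : ({s.1} : Set G) ⊆ P.S := Set.singleton_subset_iff.2 s.2
  obtain ⟨n, hn, hgn⟩ := (mem_parabolic_iff P hs g).1 hg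
  obtain ⟨L, hL, hLn⟩ := exists_word_of_mem_closure P hs hn
  have hw := (mem_cell_toW P (closure_le_N P hs hn)).2 hgn
  rw [← hLn] at hw
  have : wordProd P L = 1 ∨ wordProd P L = gen P s := by
    clear hw hLn
    induction L with
    | nil => exact Or.inl (wordProd_nil P)
    | cons t L ih =>
      obtain rfl : t = s := Subtype.ext (hL t (List.mem_cons_self ..))
      rcases ih fun x hx => hL x (List.mem_cons_of_mem _ hx) with h | h
      · exact Or.inr (by rw [wordProd_cons, h, mul_one])
      · exact Or.inl (by rw [wordProd_cons, h, gen_mul_self])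
  rcases this with h | h
  · exact Or.inl (by rw [h, cell_one] at hw; exact hw)
  · exact Or.inr (h ▸ hw)

theorem cell_le_single (d : Split P p) (s : P.S) {g : G} (hg : g ∈ cell P (gen P s)) :
    g ∈ P.parabolic {s.1} :=
  mem_parabolic_of_word [s] (by simp) d (by simpa [wordProd] using hg)

theorem permComm_of_commute (d : Split P p) {s t : P.S} (h : Commute (gen P s) (gen P t)) :
    PermComm (P.parabolic {s.1}) (P.parabolic {t.1}) := by
  intro x hx y hy
  rcases mem_single t hy with hyB | hyt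
  · exact ⟨1, one_mem _, x * y, mul_mem hx (Subgroup.mem_sup_left hyB), (one_mul _).symm⟩
  rcases mem_single s hx with hxB | hxs
  · exact ⟨x * y, mul_mem (Subgroup.mem_sup_left hxB) hy, 1, one_mem _, (mul_one _).symm⟩
  rcases cell_gen_mul P s hxs hyt with hz | hz
  · rw [h.eq] at hz
    obtain ⟨a, c, ha, hc, e⟩ := exists_mem_cell_gen_mul P t hz
    exact ⟨a, cell_le_single d t ha, c, cell_le_single d s hc, e⟩
  · exact ⟨x * y, cell_le_single d t hz, 1, one_mem _, (mul_one _).symm⟩

theorem commute_of_permComm (d : Split P p) {s t : P.S}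
    (h : PermComm (P.parabolic {s.1}) (P.parabolic {t.1})) : Commute (gen P s) (gen P t) := by
  by_cases hst : s = t
  · subst hst; exact Commute.refl _
  obtain ⟨y', hy', x', hx', e⟩ := h s.1 (cell_le_single d s (self_mem_cell_gen P s)) t.1
    (cell_le_single d t (self_mem_cell_gen P t))
  have hm : s.1 * t.1 ∈ cell P (gen P s * gen P t) := by
    rw [gen, gen, ← toW_mul P (P.subset s.2) (P.subset t.2)]
    exact self_mem_cell P _
  rw [e] at hm
  rcases mem_single t hy' with hyB | hyt <;> rcases mem_single s hx' with hxB | hxs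
  · have := eq_of_mem_cell P hm (show y' * x' ∈ cell P 1 by rw [cell_one]; exact mul_mem hyB hxB)
    exact absurd (gen_injective P (by rw [mul_eq_one_iff_eq_inv, gen_inv] at this; exact this)) hst
  · have := eq_of_mem_cell P hm (cell_mul_left P hyB hxs)
    exact absurd (mul_eq_left.1 this) (gen_ne_one P t)
  · have := eq_of_mem_cell P hm (cell_mul_right P hxB hyt)
    exact absurd (mul_eq_right.1 this) (gen_ne_one P s)
  · rcases cell_gen_mul P t hyt hxs with hz | hz
    · exact eq_of_mem_cell P hm hz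
    · exact absurd (mul_eq_left.1 (eq_of_mem_cell P hm hz)) (gen_ne_one P t)

/-- An automorphism fixing `U` respects the diagram, so it cannot move a node with two neighbours to a node
with at most one. -/
theorem never_of_node [Finite G] [Fact p.Prime] [IsSimpleGroup G] (d : Split P p) {i j a b : P.S}
    (hab : a ≠ b) (ha : ¬ Commute (gen P i) (gen P a)) (hb : ¬ Commute (gen P i) (gen P b))
    (hj : ∀ x y : P.S, ¬ Commute (gen P j) (gen P x) → ¬ Commute (gen P j) (gen P y) → x = y) :
    Never p G := by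
  haveI : Finite P.S := Subtype.finite
  let D := splitParab d
  refine D.never_of_ne (i := i) (j := j) d.U_p d.U_idx fun α hα e => ?_
  choose π hπ using fun k => D.exists_image hα k
  have hinj : Function.Injective π := fun k l hkl => D.eq_of_le (le_of_eq
    (Subgroup.map_injective (f := α.toMonoidHom) α.injective ((hπ k).trans (hkl ▸ (hπ l).symm))))
  have hi : π i = j := D.eq_of_le (le_of_eq ((hπ i).symm.trans e))
  have hQ : ∀ s : P.S, (P.parabolic {s.1}).map α.toMonoidHom = P.parabolic {(π s).1} := by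
    intro s
    rw [← iInf_maxP s, ← iInf_maxP (π s)]
    ext y
    obtain ⟨x, rfl⟩ := α.surjective y
    rw [show α x = α.toMonoidHom x from rfl, Subgroup.mem_map_iff_mem α.injective]
    simp only [Subgroup.mem_iInf, Set.mem_ofPred_eq]
    have hk : ∀ k, α.toMonoidHom x ∈ maxP (π k) ↔ x ∈ maxP k := fun k => by
      have := hπ k
      change (maxP k).map α.toMonoidHom = maxP (π k) at this
      rw [← this, Subgroup.mem_map_iff_mem α.injective]
    refine ⟨fun h t ht => ?_, fun h k hk' => (hk k).1 (h _ fun e => hk' (hinj e))⟩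
    obtain ⟨k, rfl⟩ := (Finite.injective_iff_surjective.1 hinj) t
    exact (hk k).2 (h k fun e => ht (congrArg π e))
  have hnc : ∀ x, ¬ Commute (gen P i) (gen P x) → ¬ Commute (gen P (π i)) (gen P (π x)) := by
    intro x hx hc
    have h1 := (permComm_of_commute d hc).map α.symm
    have back : ∀ X : Subgroup G, (X.map α.toMonoidHom).map α.symm.toMonoidHom = X := fun X => by
      rw [Subgroup.map_map]; exact (congrArg X.map (MonoidHom.ext α.symm_apply_apply)).trans X.map_id
    rw [← hQ i, ← hQ x] at h1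
    erw [back, back] at h1
    exact hx (commute_of_permComm d h1)
  exact hab (hinj (hj _ _ (hi ▸ hnc a ha) (hi ▸ hnc b hb)))

theorem card_single [Finite G] [Fact p.Prime] (d : Split P p) (s : P.S) {X : Type*} (f : X → G)
    (hf : ∀ x, f x ∈ d.U) (hcov : ∀ u ∈ d.U, ∃ x, s.1⁻¹ * ((f x)⁻¹ * u) * s.1 ∈ P.B)
    (hinj : ∀ x y, s.1⁻¹ * ((f x)⁻¹ * f y) * s.1 ∈ P.B → x = y) :
    Nat.card ↥(P.parabolic {s.1}) = (Nat.card X + 1) * Nat.card ↥P.B := by
  have hB : P.B ≤ P.parabolic {s.1} := le_sup_left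
  let φ : ↥(P.parabolic {s.1}) → G ⧸ P.B := fun q => ((q : G) : G ⧸ P.B)
  rw [card_eq_mul_of_fibres (P.B.subgroupOf (P.parabolic {s.1})) φ fun g g' => by
    rw [QuotientGroup.eq, Subgroup.mem_subgroupOf, Subgroup.coe_mul, Subgroup.coe_inv],
    Nat.card_congr (Subgroup.subgroupOfEquivOfLe hB).toEquiv]
  congr 1
  let ψ : Option X → G ⧸ P.B
    | none => ((1 : G) : G ⧸ P.B)
    | some x => ((f x * s.1 : G) : G ⧸ P.B)
  have hout : ∀ x, (f x * s.1 : G) ∉ P.B := fun x h =>
    not_mem_B P s (by simpa using mul_mem (inv_mem (d.U_le (hf x))) h)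
  have hψ : Function.Injective ψ := by
    rintro (_ | x) (_ | y) h
    · rfl
    · simp only [ψ, QuotientGroup.eq, inv_one, one_mul] at h
      exact absurd h (hout y)
    · simp only [ψ, QuotientGroup.eq, mul_one, inv_mem_iff] at h
      exact absurd h (hout x)
    · simp only [ψ, QuotientGroup.eq] at h
      exact congrArg some (hinj x y (by convert h using 1; group))
  have hr : Set.range φ = Set.range ψ := by
    refine Set.Subset.antisymm ?_ ?_
    · rintro _ ⟨⟨q, hq⟩, rfl⟩
      rcases mem_single s hq with hqB | hqs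
      · exact ⟨none, QuotientGroup.eq.2 (by simpa using hqB)⟩
      · obtain ⟨u, hu, b, hb, rfl⟩ := d.exists_left (P.subset s.2) hqs
        obtain ⟨x, hx⟩ := hcov u hu
        refine ⟨some x, QuotientGroup.eq.2 ?_⟩
        have := mul_mem hx hb
        convert this using 1
        simp only [mul_inv_rev]
        group
    · rintro _ ⟨o, rfl⟩
      rcases o with _ | x
      · exact ⟨1, rfl⟩
      · exact ⟨⟨f x * s.1, mul_mem (hB (d.U_le (hf x)))
          (cell_le_single d s (self_mem_cell_gen P s))⟩, rfl⟩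
  haveI : Finite (Option X) := Finite.of_injective ψ hψ
  haveI : Finite X := Finite.of_injective _ (Option.some_injective X)
  rw [hr, ← Finite.card_option]
  exact (Nat.card_range_of_injective hψ)

theorem maxP_eq_single {s t : P.S} (hst : s ≠ t) (h : ∀ k, k = s ∨ k = t) :
    maxP s = P.parabolic {t.1} := by
  rw [maxP, show P.S \ {s.1} = {t.1} from Set.ext fun x => ⟨fun ⟨hx, hxs⟩ => by
    rcases h ⟨x, hx⟩ with e | e
    · exact absurd (congrArg Subtype.val e) hxs
    · exact congrArg Subtype.val e, fun e => ⟨(e : x = t.1) ▸ t.2, fun hxs => hst (Subtype.ext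
      ((hxs : x = s.1).symm.trans e))⟩⟩]

end CfsgLib.PMinLie36
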