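import Cfsg.Agent.PMinLie36.PolarMain
import Cfsg.Agent.SylowOvergroup.Classical

/-!
The symplectic, unitary and orthogonal groups.
-/

set_option autoImplicit false

namespace CfsgLib.PMinLie36

open Matrix CfsgLib.LinAlg.Witt CfsgLib.OrthGeo CfsgLib.PolarCycle Cfsg.Geo Module
  CfsgLib.SylowOvergroup

variable {F : Type*} [Field F] {m : ℕ} (p : ℕ) [Fact p.Prime] [CharP F p]

theorem orth_never [Finite F] {ι : Type} [Fintype ι] [DecidableEq ι] {Q : (ι → F) → F}
    {P : Polar (RingHom.id F) (ι → F) F m} (h : IsOrthPolar Q P) (hm : 3 ≤ m)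
    (hgood : ¬ P.Thin ∨ 4 ≤ m)
    (hUN : P.U ≤ h.omega) (hmid : P.MidTrivial p h.omega) (hfam : P.FamFixed h.omega)
    [IsSimpleGroup (Cfsg.POmega F Q)] : Never p (Cfsg.POmega F Q) :=
  P.never_of_three (N := h.omega) p ((QuotientGroup.mk' _).comp
      ((Cfsg.Omega F Q).equivMapOfInjective h.equiv.toMonoidHom h.equiv.injective).symm.toMonoidHom)
    hUN hmid hfam ((QuotientGroup.mk'_surjective _).comp (MulEquiv.surjective _))
    (ker_comp_le_center _) hm hgood

theorem psp_cases [Finite F] (hm : 2 ≤ m) [IsSimpleGroup (Cfsg.PSp m F)] :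
    (m = 2 → Two p (Cfsg.PSp m F)) ∧ (3 ≤ m → Never p (Cfsg.PSp m F)) := by
  set f := (QuotientGroup.mk' (Subgroup.center (Matrix.symplecticGroup (Fin m) F))).comp
    ((sympEquiv (m := m) (F := F)).trans Subgroup.topEquiv.symm).symm.toMonoidHom
  have hf : Function.Surjective f := (QuotientGroup.mk'_surjective _).comp (MulEquiv.surjective _)
  have hker : f.ker ≤ Subgroup.center _ := ker_comp_le_center _
  have hmid : (sympPolar m F).MidTrivial p ⊤ := (sympPolar m F).midTrivial_of_span p _ 0 fun x => by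
    rw [sympPolar_mid]; exact Submodule.zero_mem _
  have hfam : (sympPolar m F).FamFixed ⊤ := (sympPolar m F).famFixed_of_ker _ one_ne_zero rfl
  have hthin : ¬ (sympPolar m F).Thin := fun h => one_ne_zero (h.1 1 rfl)
  exact ⟨fun h => (sympPolar m F).two p f le_top hmid hfam hf hker h hthin,
    fun h => (sympPolar m F).never_of_three p f le_top hmid hfam hf hker h (Or.inl hthin)⟩

theorem psu_cases [Fintype F] {n q : ℕ} (hn : 3 ≤ n) (hF : Fintype.card F = q ^ 2)
    [IsSimpleGroup (Cfsg.PSU n F q)] :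
    (n = 3 → RankOne p (Cfsg.PSU n F q)) ∧ (4 ≤ n → Never p (Cfsg.PSU n F q)) := by
  classical
  obtain ⟨σ, hσ, hf⟩ := exists_isUnitaryForm_hermForm (n := n) hF
  have hσ' : (σ : F →+* F) ≠ RingHom.id F := fun h =>
    hf.ne_refl (RingEquiv.ext (RingHom.congr_fun h))
  obtain ⟨c, hc⟩ := CfsgLib.LinAlg.Witt.exists_norm_eq (σ : F →+* F) hσ' hf.involutive (r := -1) (by simp)
  obtain ⟨x, hx⟩ : ∃ x, σ x ≠ x := by
    by_contra h; push Not at h; exact hf.ne_refl (RingEquiv.ext h)
  have hx0 : x ≠ 0 := fun h => hx (by simp [h])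
  have hc' : σ (c * (σ x / x)) * (c * (σ x / x)) = -1 := by
    rw [map_mul, map_div₀, hf.involutive, mul_mul_mul_comm]
    change σ c * c = -1 at hc
    rw [hc]
    have : σ x ≠ 0 := by simpa using hx0
    field_simp
  have hne : c * (σ x / x) ≠ c := by
    intro h
    have hc0 : c ≠ 0 := fun h0 => by simp [h0] at hc
    rw [mul_eq_left₀ hc0, div_eq_one_iff_eq hx0] at h
    exact hx h
  let P := unitaryPolar hσ hf c (c * (σ x / x)) hc hc' hne
  let N : Subgroup P.isoGrp := ((LinearEquiv.det).comp P.isoGrp.subtype).ker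
  have hN : ∀ g : P.isoGrp, g ∈ N ↔
      LinearMap.det ((g : (Fin n → F) ≃ₗ[F] (Fin n → F)) : (Fin n → F) →ₗ[F] (Fin n → F)) = 1 := by
    intro g
    rw [MonoidHom.mem_ker, Units.ext_iff, MonoidHom.comp_apply, LinearEquiv.coe_det]
    rfl
  have hUN : P.U ≤ N := by
    intro u hu
    obtain ⟨k, hk⟩ := P.U_isPGroup p ⟨u, hu⟩
    rw [hN]
    have h1 : ((LinearEquiv.det).comp P.isoGrp.subtype u) ^ p ^ k = 1 := by
      rw [← map_pow, show u ^ p ^ k = 1 from congrArg Subtype.val hk, map_one]
    have h2 := congrArg Units.val h1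
    rw [Units.val_pow_eq_pow_val, Units.val_one, MonoidHom.comp_apply, LinearEquiv.coe_det] at h2
    haveI : ExpChar F p := ExpChar.prime Fact.out
    refine sub_eq_zero.1 (eq_zero_of_pow_eq_zero (n := p ^ k) ?_)
    rw [sub_pow_char_pow, one_pow]
    exact sub_eq_zero.2 h2
  let z : Fin n → F := fun j => if (j : ℕ) = 2 * (n / 2) then 1 else 0
  have hzeven : ∀ (y : Fin n → F) (j : Fin n), (j : ℕ) ≠ 2 * (n / 2) → P.mid y j = 0 := by
      intro y j hj
      set w := P.mid y with hw
      let i : Fin (n / 2) := ⟨(j : ℕ) / 2, by omega⟩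
      have hs : ∀ d, sesqOfFun hf (uVec n d i) w =
          w ⟨2 * (i : ℕ), by omega⟩ + σ d * w ⟨2 * (i : ℕ) + 1, by omega⟩ := fun d => by
        have hB : ∀ (a b : Fin n → F), sesqOfFun hf a b = ∑ k, b k * σ (a k) := fun a b => by
          rw [sesqOfFun_apply, Cfsg.hermForm]
          exact Finset.sum_congr rfl fun k _ => by rw [hσ]
        rw [hB]
        simp [uVec, Pi.single_apply, apply_ite σ, add_mul, mul_add, Finset.sum_add_distrib, mul_comm]
      have h1 : sesqOfFun hf (uVec n c i) w = 0 := P.B_e_mid i y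
      have h2 : sesqOfFun hf ((1 + σ c * (c * (σ x / x)))⁻¹ • uVec n (c * (σ x / x)) i) w = 0 :=
        P.B_f_mid i y
      have hA : (1 : F) + σ c * (c * (σ x / x)) ≠ 0 := fun h => by
        have : (σ x / x : F) = 1 := by
          change σ c * c = -1 at hc
          linear_combination -h + (σ x / x) * hc
        exact hne (by rw [this, mul_one])
      rw [hs] at h1
      rw [LinearMap.map_smulₛₗ, LinearMap.smul_apply, hs, smul_eq_mul, mul_eq_zero] at h2
      have h2' := h2.resolve_left fun h0 => hA (inv_eq_zero.1 ((map_eq_zero_iff σ σ.injective).1 h0))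
      have h3 : (σ (c * (σ x / x)) - σ c) * w ⟨2 * (i : ℕ) + 1, by omega⟩ = 0 := by
        linear_combination h2' - h1
      have h4 := (mul_eq_zero.1 h3).resolve_left (sub_ne_zero.2 (σ.injective.ne hne))
      rcases Nat.mod_two_eq_zero_or_one (j : ℕ) with h | h
      · rw [show j = (⟨2 * (i : ℕ), by omega⟩ : Fin n) from Fin.ext (by simp only [i]; omega)]
        linear_combination h1 - σ c * h4
      · rw [show j = (⟨2 * (i : ℕ) + 1, by omega⟩ : Fin n) from Fin.ext (by simp only [i]; omega)]
        exact h4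
  have hmid : P.MidTrivial p N := by
    refine P.midTrivial_of_span p N z fun y => Submodule.mem_span_singleton.2 ?_
    set w := P.mid y with hw
    have hz : ∀ j : Fin n, (j : ℕ) ≠ 2 * (n / 2) → w j = 0 := hzeven y
    by_cases hodd : 2 * (n / 2) < n
    · refine ⟨w ⟨_, hodd⟩, funext fun j => ?_⟩
      by_cases hj : (j : ℕ) = 2 * (n / 2)
      · simp [z, hj, show j = (⟨_, hodd⟩ : Fin n) from Fin.ext hj]
      · simp [z, hj, hz j hj]
    · refine ⟨0, funext fun j => ?_⟩
      rw [zero_smul, Pi.zero_apply, hz j (by omega)]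
  have hfam : P.FamFixed N := P.famFixed_of_ker N (a := x - σ x) (sub_ne_zero.2 (Ne.symm hx)) (by
    show (x - σ x) + σ (x - σ x) = 0
    rw [map_sub, hf.involutive]; ring)
  let φ : Cfsg.SU n F q →* N :=
    { toFun := fun A => ⟨⟨Matrix.toLin'OfInv
            (M := ((A.1⁻¹ : Matrix.SpecialLinearGroup (Fin n) F) : Matrix (Fin n) (Fin n) F))
            (M' := (A.1 : Matrix (Fin n) (Fin n) F))
            (by rw [← Matrix.SpecialLinearGroup.coe_mul, inv_mul_cancel,
              Matrix.SpecialLinearGroup.coe_one])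
            (by rw [← Matrix.SpecialLinearGroup.coe_mul, mul_inv_cancel,
              Matrix.SpecialLinearGroup.coe_one]),
          fun u v => A.2 v u, fun v => A.2 v v⟩, by
          rw [hN]
          show LinearMap.det (Matrix.toLin' (A.1 : Matrix (Fin n) (Fin n) F)) = 1
          rw [LinearMap.det_toLin', A.1.2]⟩
      map_one' := Subtype.ext (Subtype.ext (LinearEquiv.ext fun y => Matrix.one_mulVec y))
      map_mul' := fun A B => Subtype.ext (Subtype.ext (LinearEquiv.ext fun y => (Matrix.mulVec_mulVec y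
        (A.1 : Matrix (Fin n) (Fin n) F) _).symm)) }
  haveI : N.Normal := MonoidHom.normal_ker _
  have hφ : Function.Bijective φ := by
    refine ⟨fun A B h => ?_, fun g => ?_⟩
    · refine Subtype.ext (Subtype.ext (Matrix.ext_of_mulVec_single fun i => ?_))
      exact congrArg (fun g : N => ((g : P.isoGrp) : (Fin n → F) ≃ₗ[F] (Fin n → F)) (Pi.single i 1)) h
    · let A : Matrix.SpecialLinearGroup (Fin n) F :=
        ⟨LinearMap.toMatrix' ((g : P.isoGrp) : (Fin n → F) ≃ₗ[F] (Fin n → F)).toLinearMap,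
          (LinearMap.det_toMatrix' _).trans ((hN g.1).1 g.2)⟩
      have hA : ∀ y, (A : Matrix (Fin n) (Fin n) F) *ᵥ y =
          ((g : P.isoGrp) : (Fin n → F) ≃ₗ[F] (Fin n → F)) y := fun y =>
        LinearMap.toMatrix'_mulVec _ _
      refine ⟨⟨A, fun u v => ?_⟩, Subtype.ext (Subtype.ext (LinearEquiv.ext fun y => hA y))⟩
      show Cfsg.hermForm n F q ((A : Matrix (Fin n) (Fin n) F) *ᵥ u) _ = _
      rw [hA]
      erw [hA]
      exact g.1.2.1 v u
  set f := (QuotientGroup.mk' (Subgroup.center (Cfsg.SU n F q))).comp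
      (MulEquiv.ofBijective φ hφ).symm.toMonoidHom with hfdef
  have hf' : Function.Surjective f :=
    (QuotientGroup.mk'_surjective _).comp (MulEquiv.surjective _)
  have hker : f.ker ≤ Subgroup.center N := ker_comp_le_center _
  have hπ : ∃ a, a ≠ 0 ∧ P.π a = 0 := ⟨x - σ x, sub_ne_zero.2 (Ne.symm hx), by
    show (x - σ x) + σ (x - σ x) = 0
    rw [map_sub, hf.involutive]; ring⟩
  have hthin : ¬ P.Thin := fun h => by
    obtain ⟨a, ha, hπa⟩ := hπ
    exact ha (h.1 a hπa)
  have hc3 : n = 3 → RankOne p (Cfsg.PSU n F q) := fun h =>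
    P.rankOne p f hUN hmid hfam hf' hker (by omega) hπ
  refine ⟨hc3, fun h4 => ?_⟩
  rcases Nat.lt_or_ge n 6 with h6 | h6
  swap
  · exact P.never_of_three p f hUN hmid hfam hf' hker (by omega) (Or.inl hthin)
  rcases Nat.lt_or_ge n 5 with h5 | h5
  · -- dimension four
    refine P.never_of_few p f hUN hmid hfam hf' hker (by omega) hπ (fun y => funext fun j => ?_) ?_
    · have h := hzeven y j
      exact h (by omega)
    · have hle : Nat.card {a : F // P.π ((σ : F →+* F) a) = 0} ≤ q := by
        have hq1 : 1 < q := by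
          rcases q with _ | _ | q
          · simp at hF
          · have := Fintype.one_lt_card (α := F); simp at hF; omega
          · omega
        classical
        rw [Nat.card_eq_fintype_card, Fintype.card_subtype]
        refine le_trans (Finset.card_le_card fun a ha => ?_)
          ((Multiset.toFinset_card_le _).trans (Polynomial.card_roots'
            (Polynomial.X ^ q + Polynomial.X : Polynomial F)) |>.trans
            (le_of_eq (by
              rw [Polynomial.natDegree_add_eq_left_of_natDegree_lt] <;> simp [hq1])))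
        simp only [Finset.mem_filter, Finset.mem_univ, true_and] at ha
        change σ a + σ (σ a) = 0 at ha
        rw [hf.involutive, hσ] at ha
        rw [Multiset.mem_toFinset, Polynomial.mem_roots]
        · simpa using ha
        · intro h0
          have := congrArg (fun P : Polynomial F => P.coeff 1) h0
          simp [Polynomial.coeff_X_pow, hq1.ne] at this
      rw [Nat.card_eq_fintype_card (α := F), hF]
      have h2 : 2 ≤ q := by
        rcases q with _ | _ | q
        · simp at hF
        · have := Fintype.one_lt_card (α := F); simp at hF; omega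
        · omega
      nlinarith
  · -- dimension five
    refine P.never_of_mid p f hUN hmid hfam hf' hker (by omega) hπ ?_
    by_contra h0
    push Not at h0
    let zz : Fin n → F := Pi.single ⟨n - 1, by omega⟩ 1
    have hz' : ∀ i, P.B (P.e i) zz = 0 ∧ P.B (P.f i) zz = 0 := fun i => by
      have hB : ∀ (a b : Fin n → F), sesqOfFun hf a b = ∑ k, b k * σ (a k) := fun a b => by
        rw [sesqOfFun_apply, Cfsg.hermForm]
        exact Finset.sum_congr rfl fun k _ => by rw [hσ]
      have hi : ∀ d : F, uVec n d i ⟨n - 1, by omega⟩ = 0 := fun d => by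
        have := i.2
        simp only [uVec, Pi.add_apply, Pi.single_apply, Fin.mk.injEq]
        rw [if_neg (by omega), if_neg (by omega), add_zero]
      refine ⟨?_, ?_⟩
      · show sesqOfFun hf (uVec n c i) zz = 0
        rw [hB]; simp [zz, Pi.single_apply, hi]
      · show sesqOfFun hf ((1 + σ c * (c * (σ x / x)))⁻¹ • uVec n (c * (σ x / x)) i) zz = 0
        rw [hB]; simp [zz, Pi.single_apply, hi]
    have hd := P.decomp zz
    have hcF : ∀ i, P.cF i zz = 0 := fun i => (hz' i).1
    have hcE : ∀ i, P.cE i zz = 0 := fun i => (P.cE_eq_zero_iff i zz).2 (hz' i).2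
    simp only [h0, hcF, hcE, zero_smul, Finset.sum_const_zero, add_zero] at hd
    have := congrFun hd ⟨n - 1, by omega⟩
    simp [zz] at this

theorem odd_never [Finite F] (hodd : Odd (Nat.card F)) (hm : 3 ≤ m)
    [IsSimpleGroup (Cfsg.POmega F (Cfsg.quadFormOdd m F))] :
    Never p (Cfsg.POmega F (Cfsg.quadFormOdd m F)) := by
  classical
  haveI := Fintype.ofFinite F
  have h2 : (2 : F) ≠ 0 := Ring.two_ne_zero fun h => by
    have := FiniteField.even_card_of_char_two h
    rw [Nat.card_eq_fintype_card, Nat.odd_iff] at hodd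
    omega
  have hQ : IsNondegenerateQuadraticForm (Cfsg.quadFormOdd m F) := by
    refine ⟨fun c v => ?_, ⟨fun x y v => ?_, fun c x v => ?_, fun v x y => ?_, fun c v x => ?_⟩,
      fun v hv => ?_⟩
    · simp only [Cfsg.quadFormOdd, Pi.smul_apply, smul_eq_mul, mul_add, Finset.mul_sum]
      rw [mul_pow]
      congr 1
      exact Finset.sum_congr rfl fun i _ => by ring
    · simp only [polar_odd, Pi.add_apply, add_mul, mul_add, Finset.sum_add_distrib]; ring
    · simp only [polar_odd, Pi.smul_apply, smul_eq_mul, mul_add, Finset.mul_sum]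
      congr 1 <;> [ring; exact Finset.sum_congr rfl fun i _ => by ring]
    · simp only [polar_odd, Pi.add_apply, add_mul, mul_add, Finset.sum_add_distrib]; ring
    · simp only [polar_odd, Pi.smul_apply, smul_eq_mul, mul_add, Finset.mul_sum]
      congr 1 <;> [ring; exact Finset.sum_congr rfl fun i _ => by ring]
    · refine ⟨?_, ?_⟩ <;>
      · obtain ⟨j, hj⟩ := Function.ne_iff.1 hv
        rcases j with u | j | j
        · exact ⟨Pi.single (.inl ()) 1, by simpa [polar_odd, h2] using hj⟩
        · exact ⟨Pi.single (.inr (.inr j)) 1, by simpa [polar_odd, Pi.single_apply] using hj⟩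
        · exact ⟨Pi.single (.inr (.inl j)) 1, by simpa [polar_odd, Pi.single_apply] using hj⟩
  let e : Fin m → Unit ⊕ (Fin m ⊕ Fin m) → F := fun i => Pi.single (.inr (.inl i)) 1
  let f : Fin m → Unit ⊕ (Fin m ⊕ Fin m) → F := fun i => Pi.single (.inr (.inr i)) 1
  have hFe : ∀ (i : Fin m) v, QuadraticMap.polar (Cfsg.quadFormOdd m F) (e i) v = v (.inr (.inr i)) := by
    intro i v; simp [polar_odd, e, Pi.single_apply]
  have hFf : ∀ (i : Fin m) v, QuadraticMap.polar (Cfsg.quadFormOdd m F) (f i) v = v (.inr (.inl i)) := by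
    intro i v; simp [polar_odd, f, Pi.single_apply]
  have hcoord : ∀ v : Unit ⊕ (Fin m ⊕ Fin m) → F, (∀ i, QuadraticMap.polar (Cfsg.quadFormOdd m F) (e i) v = 0) →
      (∀ i, QuadraticMap.polar (Cfsg.quadFormOdd m F) (f i) v = 0) →
      v = v (.inl ()) • (Pi.single (.inl ()) 1 : Unit ⊕ (Fin m ⊕ Fin m) → F) := by
    intro v he hf
    funext j
    rcases j with u | j | j
    · simp
    · simpa [hFf] using hf j
    · simpa [hFe] using he j
  let P := orthPolar hQ e f (fun i j => by rw [hFe]; simp [e]) (fun i j => by rw [hFf]; simp [f])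
    (fun i j => by rw [hFe]; simp [f, Pi.single_apply]) (fun i => by simp [e, Cfsg.quadFormOdd])
    (fun i => by simp [f, Cfsg.quadFormOdd]) (fun v he hf hv => by
      have hs : v (.inl ()) = 0 := by
        have hz1 : ∀ i, v (.inr (.inl i)) = 0 := fun i => (hFf i v).symm.trans (hf i)
        simpa [Cfsg.quadFormOdd, hz1] using hv
      rw [hcoord v he hf, hs, zero_smul])
  have h : IsOrthPolar (Cfsg.quadFormOdd m F) P := isOrthPolar hQ e f _ _ _ _ _ _
  have hq : 2 < Nat.card F := by
    have h1 := Finite.one_lt_card (α := F)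
    rw [Nat.odd_iff] at hodd
    omega
  have hmz : P.mid (Pi.single (.inl ()) 1) ≠ 0 := ?_
  refine orth_never p h hm (Or.inl fun ht => hmz (ht.2 _)) (h.U_le_omega fun _ => Or.inl hq)
    (P.midTrivial_of_span p _ (Pi.single (.inl ()) 1) fun x => Submodule.mem_span_singleton.2
      ⟨_, (hcoord (P.mid x) (fun i => P.B_e_mid i x) (fun i => P.B_f_mid i x)).symm⟩)
    (P.famFixed_of_mid _ (z := Pi.single (.inl ()) 1) hmz)
  rw [P.mid_apply]
  have h1 : ∀ i, P.cE i (Pi.single (.inl ()) 1) = 0 := fun i => by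
    rw [P.cE_eq_zero_iff]
    exact (hFf i _).trans (by simp)
  have h2 : ∀ i, P.cF i (Pi.single (.inl ()) 1) = 0 := fun i => (hFe i _).trans (by simp)
  simp [h1, h2]

theorem plus_never [Finite F] (hm : 4 ≤ m)
    [IsSimpleGroup (Cfsg.POmega F (Cfsg.quadFormPlus m F))] :
    Never p (Cfsg.POmega F (Cfsg.quadFormPlus m F)) := by
  classical
  have hQ : IsNondegenerateQuadraticForm (Cfsg.quadFormPlus m F) :=
    isNondegenerateQuadraticForm_quadFormPlus m
  let e : Fin m → Fin m ⊕ Fin m → F := fun i => Pi.single (.inl i) 1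
  let f : Fin m → Fin m ⊕ Fin m → F := fun i => Pi.single (.inr i) 1
  have hFe : ∀ (i : Fin m) v, QuadraticMap.polar (Cfsg.quadFormPlus m F) (e i) v = v (.inr i) := by
    intro i v; simp [polar_plus, e, Pi.single_apply]
  have hFf : ∀ (i : Fin m) v, QuadraticMap.polar (Cfsg.quadFormPlus m F) (f i) v = v (.inl i) := by
    intro i v; simp [polar_plus, f, Pi.single_apply]
  have hcoord : ∀ v : Fin m ⊕ Fin m → F, (∀ i, QuadraticMap.polar (Cfsg.quadFormPlus m F) (e i) v = 0) →
      (∀ i, QuadraticMap.polar (Cfsg.quadFormPlus m F) (f i) v = 0) → v = 0 := by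
    intro v he hf
    funext j
    rcases j with j | j
    · simpa [hFf] using hf j
    · simpa [hFe] using he j
  let P := orthPolar hQ e f (fun i j => by rw [hFe]; simp [e]) (fun i j => by rw [hFf]; simp [f])
    (fun i j => by rw [hFe]; simp [f, Pi.single_apply]) (fun i => by simp [e, Cfsg.quadFormPlus])
    (fun i => by simp [f, Cfsg.quadFormPlus]) (fun v he hf _ => hcoord v he hf)
  have h : IsOrthPolar (Cfsg.quadFormPlus m F) P := isOrthPolar hQ e f _ _ _ _ _ _
  have hmid : ∀ x, P.mid x = 0 := fun x =>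
    hcoord _ (fun i => P.B_e_mid i x) (fun i => P.B_f_mid i x)
  have hMax : IsMaxTS (Cfsg.quadFormPlus m F) (P.low m) :=
    ⟨fun x hx => (P.isTS_low m x hx).1,
      by rw [P.finrank_low le_rfl, Fintype.card_sum, Fintype.card_fin]; ring⟩
  refine orth_never p h (by omega) (Or.inr hm) (h.U_le_omega fun k => Or.inr (Or.inl (by
      rw [Fintype.card_sum, Fintype.card_fin]; omega)))
    (P.midTrivial_of_span p _ 0 fun x => by rw [hmid]; exact Submodule.zero_mem _) ?_
  rintro - - g ⟨g₀, hg₀, rfl⟩ hfix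
  by_contra hne
  rcases Nat.eq_zero_or_pos m with hm | hm
  · subst hm
    exact hne (by rw [Polar.low, Polar.first_zero]; exact Submodule.map_bot _)
  have hg : ((g₀ : GL (Fin m ⊕ Fin m) F)) ∈ omegaGL (Cfsg.quadFormPlus m F) := ⟨g₀, hg₀, rfl⟩
  have hev := omega_preserves_class hQ hMax hg
  have himg : imgSub (g₀ : GL (Fin m ⊕ Fin m) F) (P.low m) = P.mapSub (h.equiv g₀) (P.low m) := by
    ext x
    rw [mem_imgSub]
    exact ⟨fun ⟨y, hy, hyx⟩ => ⟨y, hy, hyx⟩, fun ⟨y, hy, hyx⟩ => ⟨y, hy, hyx⟩⟩
  rw [himg] at hev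
  set W := P.mapSub (h.equiv g₀) (P.low m) with hW
  have hlow : P.low (m - 1) ≤ P.low m ⊓ W := by
    refine le_inf (Polar.first_mono _ (Nat.sub_le m 1)) ?_
    rw [← hfix]
    exact Submodule.map_mono (Polar.first_mono _ (Nat.sub_le m 1))
  have hlt : P.low m ⊓ W < P.low m := lt_of_le_of_ne inf_le_left fun heq => hne
    (Submodule.eq_of_le_of_finrank_eq (inf_eq_left.1 heq)
      (LinearEquiv.finrank_map_eq _ _).symm).symm
  have h1 := Submodule.finrank_mono hlow
  have h2 := Submodule.finrank_lt_finrank_of_lt hlt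
  rw [P.finrank_low (Nat.sub_le m 1)] at h1
  rw [P.finrank_low le_rfl] at h2 hev
  rw [Nat.even_iff] at hev
  omega

theorem minus_never [Finite F] (hm : 3 ≤ m) (a b : F)
    (hab : ∀ z₁ z₂ : F, z₁ ^ 2 + a * z₁ * z₂ + b * z₂ ^ 2 = 0 → z₁ = 0 ∧ z₂ = 0)
    [IsSimpleGroup (Cfsg.POmega F (Cfsg.quadFormMinus m F a b))] :
    Never p (Cfsg.POmega F (Cfsg.quadFormMinus m F a b)) := by
  classical
  haveI := Fintype.ofFinite F
  have hQ : IsNondegenerateQuadraticForm (Cfsg.quadFormMinus m F a b) :=
    isNondegenerateQuadraticForm_quadFormMinus m a b (discr_ne_zero_of_anisotropic a b hab)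
  let e : Fin m → (Fin m ⊕ Fin m) ⊕ Fin 2 → F := fun i => Pi.single (.inl (.inl i)) 1
  let f : Fin m → (Fin m ⊕ Fin m) ⊕ Fin 2 → F := fun i => Pi.single (.inl (.inr i)) 1
  let z : Fin 2 → (Fin m ⊕ Fin m) ⊕ Fin 2 → F := fun i => Pi.single (.inr i) 1
  have hFe : ∀ (i : Fin m) v,
      QuadraticMap.polar (Cfsg.quadFormMinus m F a b) (e i) v = v (.inl (.inr i)) := by
    intro i v; simp [polar_minus, e, Pi.single_apply]
  have hFf : ∀ (i : Fin m) v,
      QuadraticMap.polar (Cfsg.quadFormMinus m F a b) (f i) v = v (.inl (.inl i)) := by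
    intro i v; simp [polar_minus, f, Pi.single_apply]
  let P := orthPolar hQ e f (fun i j => by rw [hFe]; simp [e]) (fun i j => by rw [hFf]; simp [f])
    (fun i j => by rw [hFe]; simp [f, Pi.single_apply]) (fun i => by simp [e, Cfsg.quadFormMinus])
    (fun i => by simp [f, Cfsg.quadFormMinus]) (fun v he hf hv => by
      have hz1 : ∀ i, v (.inl (.inl i)) = 0 := fun i => (hFf i v).symm.trans (hf i)
      have hz2 : ∀ i, v (.inl (.inr i)) = 0 := fun i => (hFe i v).symm.trans (he i)
      have h3 := hab (v (.inr 0)) (v (.inr 1)) (by simpa [Cfsg.quadFormMinus, hz1] using hv)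
      funext j
      rcases j with (j | j) | j
      · exact hz1 j
      · exact hz2 j
      · fin_cases j
        · exact h3.1
        · exact h3.2)
  have h : IsOrthPolar (Cfsg.quadFormMinus m F a b) P := isOrthPolar hQ e f _ _ _ _ _ _
  have hz0 : ∀ k, P.mid (z k) = z k := fun k => by
    rw [P.mid_apply]
    have h1 : ∀ i, P.cE i (z k) = 0 := fun i => by
      rw [P.cE_eq_zero_iff]; exact (hFf i _).trans (by simp [z])
    have h2 : ∀ i, P.cF i (z k) = 0 := fun i => (hFe i _).trans (by simp [z])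
    simp [h1, h2]
  have hM : finrank F (LinearMap.range P.mid) ≤ 2 := by
    have hle : LinearMap.range P.mid ≤ Submodule.span F (Set.range z) := by
      rintro _ ⟨x, rfl⟩
      refine (Submodule.mem_span_range_iff_exists_fun F).2
        ⟨fun k => P.mid x (.inr k), funext fun j => ?_⟩
      rcases j with (j | j) | j
      · have := (hFf j (P.mid x)).symm.trans (P.B_f_mid j x)
        simp [z, this]
      · have := (hFe j (P.mid x)).symm.trans (P.B_e_mid j x)
        simp [z, this]
      · simp [z, Pi.single_apply]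
    exact (Submodule.finrank_mono hle).trans ((finrank_range_le_card z).trans (by simp))
  have hmz : P.mid (z 0) ≠ 0 := ?_
  refine orth_never p h hm (Or.inl fun ht => hmz (ht.2 _)) (h.U_le_omega fun k => Or.inr (Or.inl (by
      simp only [Fintype.card_sum, Fintype.card_fin]; omega))) ?_
    (P.famFixed_of_mid _ (z := z 0) hmz)
  swap
  · rw [hz0]; exact fun h0 => one_ne_zero (α := F) (by simpa [z] using congrFun h0 (.inr 0))
  by_cases h2 : (2 : F) ≠ 0
  · exact midTrivial_plane h p hM (Or.inl h2)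
  push Not at h2
  have hexc : ¬ (Nat.card F = 2 ∧ Fintype.card ((Fin m ⊕ Fin m) ⊕ Fin 2) = 4) := by
    simp only [Fintype.card_sum, Fintype.card_fin]; omega
  refine midTrivial_plane h p hM (Or.inr ?_)
  rintro g ⟨g₀, hg₀, rfl⟩ h1
  have hev := (CfsgLib.Classical.Orth.mem_omega_iff_even hQ h2 hexc g₀).1 hg₀
  have hr : CfsgLib.Classical.Orth.residual (g₀ : GL _ F) =
      LinearMap.range (P.lin (h.equiv g₀) - LinearMap.id) := by
    rw [← LinearMap.range_neg]
    refine congrArg LinearMap.range (LinearMap.ext fun x => ?_)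
    simp [Matrix.sub_mulVec, h.equiv_apply]
  rw [hr] at hev
  change finrank F (LinearMap.range (P.lin (h.equiv g₀) - LinearMap.id)) = 1 at h1
  erw [h1] at hev
  exact Nat.not_even_one hev

end CfsgLib.PMinLie36
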