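import Cfsg.Agent.SylowOvergroup.Basic
import Cfsg.Agent.SmallSimple.Basic
import Cfsg.Agent.Constrained.Basic

/-!
A `p`-group `Γ` of automorphisms of a finite simple group fixing a Sylow `p`-subgroup `U`, and the largest
proper `Γ`-invariant overgroup `R` of `U`: what the lattice of overgroups of `U` says about them.
-/

set_option autoImplicit false

namespace CfsgLib.PMinLie36

open Cfsg CfsgLib.SylowOvergroup CfsgLib

variable {G H : Type*} [Group G] [Group H] {p : ℕ}

/-- `R` is the largest proper `Γ`-invariant overgroup of the Sylow subgroup `U`. -/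
structure Sit (p : ℕ) (U : Subgroup G) (Γ : Subgroup (MulAut G)) (R : Subgroup G) : Prop where
  pgroup : IsPGroup p Γ
  U_p : IsPGroup p U
  U_idx : ¬ p ∣ U.index
  fix : ∀ γ ∈ Γ, U.map γ.toMonoidHom = U
  inner : ∀ u ∈ U, MulAut.conj u ∈ Γ
  le : U ≤ R
  ne_top : R ≠ ⊤
  inv : ∀ γ ∈ Γ, R.map γ.toMonoidHom = R
  largest : ∀ Y : Subgroup G, U ≤ Y → Y ≠ ⊤ → (∀ γ ∈ Γ, Y.map γ.toMonoidHom ≤ Y) → Y ≤ R

/-- Every proper overgroup of a Sylow subgroup normalises it. -/
def RankOne (p : ℕ) (G : Type*) [Group G] : Prop :=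
  ∀ U : Subgroup G, IsPGroup p U → ¬ p ∣ U.index → ∀ Y : Subgroup G, U ≤ Y → Y ≠ ⊤ →
    Y ≤ Subgroup.normalizer (U : Set G)

/-- The configuration does not occur. -/
def Never (p : ℕ) (G : Type*) [Group G] : Prop :=
  ∀ (U : Subgroup G) (Γ : Subgroup (MulAut G)) (R : Subgroup G), Sit p U Γ R → False

/-- The configuration needs an outer automorphism and `p = 2`. -/
def Two (p : ℕ) (G : Type*) [Group G] : Prop :=
  ∀ (U : Subgroup G) (Γ : Subgroup (MulAut G)) (R : Subgroup G), Sit p U Γ R →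
    p = 2 ∧ R ≤ Subgroup.normalizer (U : Set G) ∧ ¬ Γ ≤ U.map MulAut.conj

theorem Sit.map {U R : Subgroup G} {Γ : Subgroup (MulAut G)} (h : Sit p U Γ R) (e : G ≃* H) :
    Sit p (U.map e.toMonoidHom) (Γ.map (MulAut.congr e).toMonoidHom) (R.map e.toMonoidHom) := by
  have key : ∀ (γ : MulAut G) (X : Subgroup G),
      (X.map e.toMonoidHom).map ((MulAut.congr e) γ).toMonoidHom =
        (X.map γ.toMonoidHom).map e.toMonoidHom := by
    intro γ X
    rw [Subgroup.map_map, Subgroup.map_map]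
    congr 1
    ext x
    simp [MulAut.congr]
  refine ⟨h.pgroup.map _, h.U_p.map _, ?_, ?_, ?_, Subgroup.map_mono h.le, ?_, ?_, ?_⟩
  · rw [Subgroup.index_map_of_bijective e.bijective]
    exact h.U_idx
  · rintro _ ⟨γ, hγ, rfl⟩
    rw [MulEquiv.coe_toMonoidHom, key, h.fix γ hγ]
  · rintro _ ⟨u, hu, rfl⟩
    refine ⟨MulAut.conj u, h.inner u hu, ?_⟩
    ext x
    simp [MulAut.congr]
  · exact fun ht => h.ne_top (Subgroup.map_injective (f := e.toMonoidHom) e.injective
      (ht.trans (Subgroup.map_top_of_surjective _ e.surjective).symm))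
  · rintro _ ⟨γ, hγ, rfl⟩
    rw [MulEquiv.coe_toMonoidHom, key, h.inv γ hγ]
  · intro Y hUY hY hinv
    obtain ⟨Z, rfl⟩ : ∃ Z : Subgroup G, Y = Z.map e.toMonoidHom :=
      ⟨Y.comap e.toMonoidHom, (Subgroup.map_comap_eq_self_of_surjective e.surjective Y).symm⟩
    refine Subgroup.map_mono (h.largest Z ((Subgroup.map_le_map_iff_of_injective e.injective).1 hUY)
      (fun ht => hY (by rw [ht]; exact Subgroup.map_top_of_surjective _ e.surjective)) fun γ hγ => ?_)
    have := hinv _ ⟨γ, hγ, rfl⟩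
    rw [MulEquiv.coe_toMonoidHom, key] at this
    exact (Subgroup.map_le_map_iff_of_injective e.injective).1 this

theorem exists_conj_map [Finite G] [Fact p.Prime] {U U₀ : Subgroup G} (hU : IsPGroup p U)
    (hi : ¬ p ∣ U.index) (hU₀ : IsPGroup p U₀) (hi₀ : ¬ p ∣ U₀.index) :
    ∃ g : G, U.map (MulAut.conj g).toMonoidHom = U₀ := by
  obtain ⟨g, hg⟩ := MulAction.exists_smul_eq G (hU.toSylow hi) (hU₀.toSylow hi₀)
  exact ⟨g, congrArg (fun S : Sylow p G => (S : Subgroup G)) hg⟩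

theorem map_normalizer (e : G ≃* H) (U : Subgroup G) :
    (Subgroup.normalizer (U : Set G)).map e.toMonoidHom =
      Subgroup.normalizer ((U.map e.toMonoidHom : Subgroup H) : Set H) := by
  exact Subgroup.map_equiv_normalizer_eq U e

theorem RankOne.of_one [Finite G] [Fact p.Prime] {U₀ : Subgroup G} (hU₀ : IsPGroup p U₀)
    (hi₀ : ¬ p ∣ U₀.index)
    (h : ∀ Y : Subgroup G, U₀ ≤ Y → Y ≠ ⊤ → Y ≤ Subgroup.normalizer (U₀ : Set G)) :
    RankOne p G := by
  intro U hU hi Y hUY hY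
  obtain ⟨g, hg⟩ := exists_conj_map hU hi hU₀ hi₀
  set e := MulAut.conj g
  have h1 := h (Y.map e.toMonoidHom) (hg ▸ Subgroup.map_mono hUY) fun ht =>
    hY (Subgroup.map_injective (f := e.toMonoidHom) e.injective
      (ht.trans (Subgroup.map_top_of_surjective _ e.surjective).symm))
  rw [← hg, ← map_normalizer] at h1
  exact (Subgroup.map_le_map_iff_of_injective e.injective).1 h1

theorem RankOne.of_mulEquiv (h : RankOne p G) (e : G ≃* H) : RankOne p H := by
  intro U hU hi Y hUY hY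
  have hsur := e.symm.surjective
  have h1 := h (U.map e.symm.toMonoidHom) (hU.map _)
    (by rw [Subgroup.index_map_of_bijective e.symm.bijective]; exact hi)
    (Y.map e.symm.toMonoidHom) (Subgroup.map_mono hUY) fun ht =>
      hY (Subgroup.map_injective (f := e.symm.toMonoidHom) e.symm.injective
        (ht.trans (Subgroup.map_top_of_surjective _ hsur).symm))
  rw [← map_normalizer] at h1
  exact (Subgroup.map_le_map_iff_of_injective e.symm.injective).1 h1

theorem Never.of_mulEquiv (h : Never p G) (e : G ≃* H) : Never p H :=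
  fun _ _ _ s => h _ _ _ (s.map e.symm)

theorem Never.of_one [Finite G] [Fact p.Prime] {U₀ : Subgroup G} (hU₀ : IsPGroup p U₀)
    (hi₀ : ¬ p ∣ U₀.index) (h : ∀ Γ R, Sit p U₀ Γ R → False) : Never p G := by
  intro U Γ R s
  obtain ⟨g, hg⟩ := exists_conj_map s.U_p s.U_idx hU₀ hi₀
  exact h _ _ (hg ▸ s.map (MulAut.conj g))

theorem inner_le_map (e : G ≃* H) {U : Subgroup G} {Γ : Subgroup (MulAut G)}
    (h : Γ ≤ U.map MulAut.conj) :
    Γ.map (MulAut.congr e).toMonoidHom ≤ (U.map e.toMonoidHom).map MulAut.conj := by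
  rintro _ ⟨γ, hγ, rfl⟩
  obtain ⟨u, hu, rfl⟩ := h hγ
  refine ⟨e u, ⟨u, hu, rfl⟩, ?_⟩
  ext x
  simp [MulAut.congr]

theorem Two.transfer {U R : Subgroup G} {Γ : Subgroup (MulAut G)} (e : G ≃* H)
    (h : p = 2 ∧ R.map e.toMonoidHom ≤
        Subgroup.normalizer ((U.map e.toMonoidHom : Subgroup H) : Set H) ∧
      ¬ Γ.map (MulAut.congr e).toMonoidHom ≤ (U.map e.toMonoidHom).map MulAut.conj) :
    p = 2 ∧ R ≤ Subgroup.normalizer (U : Set G) ∧ ¬ Γ ≤ U.map MulAut.conj := by
  obtain ⟨h1, h2, h3⟩ := h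
  rw [← map_normalizer] at h2
  exact ⟨h1, (Subgroup.map_le_map_iff_of_injective e.injective).1 h2,
    fun hle => h3 (inner_le_map e hle)⟩

theorem Two.of_mulEquiv (h : Two p G) (e : G ≃* H) : Two p H :=
  fun _ _ _ s => Two.transfer e.symm (h _ _ _ (s.map e.symm))

theorem Two.of_one [Finite G] [Fact p.Prime] {U₀ : Subgroup G} (hU₀ : IsPGroup p U₀)
    (hi₀ : ¬ p ∣ U₀.index)
    (h : ∀ Γ R, Sit p U₀ Γ R →
      p = 2 ∧ R ≤ Subgroup.normalizer (U₀ : Set G) ∧ ¬ Γ ≤ U₀.map MulAut.conj) : Two p G := by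
  intro U Γ R s
  obtain ⟨g, hg⟩ := exists_conj_map s.U_p s.U_idx hU₀ hi₀
  subst hg
  exact Two.transfer (MulAut.conj g) (h _ _ (s.map (MulAut.conj g)))

/-- The maximal overgroups of `U`. -/
structure Parab (U : Subgroup G) (ι : Type*) where
  /-- the members -/
  P : ι → Subgroup G
  le : ∀ i, U ≤ P i
  cover : ∀ Y : Subgroup G, U ≤ Y → Y ≠ ⊤ → ∃ i, Y ≤ P i
  indep : ∀ i, ∃ g, g ∉ P i ∧ ∀ j, j ≠ i → g ∈ P j

namespace Parab

variable {U R : Subgroup G} {Γ : Subgroup (MulAut G)} {ι : Type*} (D : Parab U ι)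

theorem eq_of_le {i j : ι} (h : D.P i ≤ D.P j) : i = j := by
  by_contra hne
  obtain ⟨g, hg, hg'⟩ := D.indep j
  exact hg (h (hg' i hne))

theorem ne_top (i : ι) : D.P i ≠ ⊤ := by
  obtain ⟨g, hg, -⟩ := D.indep i
  exact fun h => hg (h ▸ Subgroup.mem_top g)

/-- An automorphism fixing `U` permutes the maximal overgroups. -/
theorem exists_image {α : MulAut G} (hα : U.map α.toMonoidHom = U) (i : ι) :
    ∃ j, (D.P i).map α.toMonoidHom = D.P j := by
  have step : ∀ β : MulAut G, U.map β.toMonoidHom = U → ∀ k, ∃ j, (D.P k).map β.toMonoidHom ≤ D.P j :=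
    fun β hβ k => D.cover _ (hβ.ge.trans (Subgroup.map_mono (D.le k))) fun ht =>
      D.ne_top k (Subgroup.map_injective (f := β.toMonoidHom) β.injective
        (ht.trans (Subgroup.map_top_of_surjective _ β.surjective).symm))
  have hsymm : ∀ X : Subgroup G, (X.map α.toMonoidHom).map α.symm.toMonoidHom = X := fun X => by
    rw [Subgroup.map_map]; exact (congrArg X.map (MonoidHom.ext α.symm_apply_apply)).trans X.map_id
  obtain ⟨j, hj⟩ := step α hα i
  obtain ⟨k, hk⟩ := step α.symm (by conv_lhs => rw [← hα]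
                                    exact hsymm U) j
  have hik : D.P i ≤ D.P k := by
    rw [← hsymm (D.P i)]
    exact (Subgroup.map_mono hj).trans hk
  refine ⟨j, le_antisymm hj ?_⟩
  rw [← D.eq_of_le hik] at hk
  have := Subgroup.map_mono (f := α.toMonoidHom) hk
  rwa [Subgroup.map_map,
    (congrArg (D.P j).map (MonoidHom.ext α.apply_symm_apply)).trans (D.P j).map_id] at this

theorem orbit_step (s : Sit p U Γ R) {γ : MulAut G} (hγ : γ ∈ Γ) {i j k : ι}
    (hij : ∃ δ ∈ Γ, (D.P i).map δ.toMonoidHom = D.P j)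
    (h : (D.P j).map γ.toMonoidHom = D.P k) : ∃ δ ∈ Γ, (D.P i).map δ.toMonoidHom = D.P k := by
  obtain ⟨δ, hδ, e⟩ := hij
  refine ⟨γ * δ, Γ.mul_mem hγ hδ, ?_⟩
  rw [show (γ * δ).toMonoidHom = γ.toMonoidHom.comp δ.toMonoidHom from rfl, ← Subgroup.map_map, e, h]

/-- `Γ` is transitive on the maximal overgroups and `R` lies in all of them. -/
theorem trans (s : Sit p U Γ R) :
    (∀ i j, ∃ γ ∈ Γ, (D.P i).map γ.toMonoidHom = D.P j) ∧ ∀ i, R ≤ D.P i := by
  obtain ⟨i₀, hi₀⟩ := D.cover R s.le s.ne_top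
  have htr : ∀ j, ∃ γ ∈ Γ, (D.P i₀).map γ.toMonoidHom = D.P j := by
    intro j₀
    by_contra hno
    let O : Set ι := {k | ∃ γ ∈ Γ, (D.P j₀).map γ.toMonoidHom = D.P k}
    have hi₀O : i₀ ∉ O := by
      rintro ⟨γ, hγ, e⟩
      refine hno ⟨γ⁻¹, inv_mem hγ, ?_⟩
      rw [← e, Subgroup.map_map]
      exact (congrArg (D.P j₀).map (MonoidHom.ext γ.symm_apply_apply)).trans (D.P j₀).map_id
    have hj₀ : j₀ ∈ O := ⟨1, Γ.one_mem, (D.P j₀).map_id⟩
    let Q : Subgroup G := ⨅ k ∈ O, D.P k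
    have hQ : Q ≤ R := by
      refine s.largest Q (le_iInf₂ fun k _ => D.le k)
        (fun h => D.ne_top j₀ (top_le_iff.1 (h ▸ iInf₂_le j₀ hj₀))) fun γ hγ => le_iInf₂ fun k hk => ?_
      obtain ⟨l, hl⟩ := D.exists_image (s.fix γ⁻¹ (inv_mem hγ)) k
      have hlO : l ∈ O := D.orbit_step s (inv_mem hγ) hk hl
      refine (Subgroup.map_mono (iInf₂_le l hlO)).trans (le_of_eq ?_)
      rw [← hl, Subgroup.map_map]
      exact (congrArg (D.P k).map (MonoidHom.ext γ.apply_symm_apply)).trans (D.P k).map_id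
    obtain ⟨g, hg, hg'⟩ := D.indep i₀
    refine hg (hi₀ (hQ ?_))
    simp only [Q, Subgroup.mem_iInf]
    exact fun k hk => hg' k fun e => hi₀O (e ▸ hk)
  refine ⟨fun i j => ?_, fun i => ?_⟩
  · obtain ⟨γ, hγ, e⟩ := htr i
    obtain ⟨δ, hδ, e'⟩ := htr j
    refine ⟨δ * γ⁻¹, Γ.mul_mem hδ (inv_mem hγ), ?_⟩
    rw [← e, show (δ * γ⁻¹).toMonoidHom = δ.toMonoidHom.comp (γ⁻¹).toMonoidHom from rfl,
      ← Subgroup.map_map]
    rw [show ((D.P i₀).map γ.toMonoidHom).map (γ⁻¹).toMonoidHom = D.P i₀ by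
      rw [Subgroup.map_map]
      exact (congrArg (D.P i₀).map (MonoidHom.ext γ.symm_apply_apply)).trans (D.P i₀).map_id, e']
  · obtain ⟨γ, hγ, e⟩ := htr i
    rw [← e, ← s.inv γ hγ]
    exact Subgroup.map_mono hi₀

include D in
/-- Two maximal overgroups that no automorphism fixing `U` exchanges. -/
theorem never_of_ne [Finite G] [Fact p.Prime] (hU : IsPGroup p U) (hi : ¬ p ∣ U.index) {i j : ι}
    (h : ∀ α : MulAut G, U.map α.toMonoidHom = U → (D.P i).map α.toMonoidHom ≠ D.P j) :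
    Never p G :=
  Never.of_one hU hi fun Γ R s => by
    obtain ⟨γ, hγ, e⟩ := (D.trans s).1 i j
    exact h γ (s.fix γ hγ) e

include D in
theorem never_of_card [Finite G] [Fact p.Prime] (hU : IsPGroup p U) (hi : ¬ p ∣ U.index) {i j : ι}
    (h : Nat.card (D.P i) ≠ Nat.card (D.P j)) : Never p G :=
  D.never_of_ne (i := i) (j := j) hU hi fun α _ e => h (by
    rw [← e]
    exact Nat.card_congr ((D.P i).equivMapOfInjective α.toMonoidHom α.injective).toEquiv)

theorem swap {a b : ι} (hι : ∀ k, k = a ∨ k = b) {γ : MulAut G}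
    (hγ : U.map γ.toMonoidHom = U) (h : (D.P a).map γ.toMonoidHom = D.P b) :
    (D.P b).map γ.toMonoidHom = D.P a := by
  obtain ⟨j, hj⟩ := D.exists_image hγ b
  rcases hι j with rfl | rfl
  · exact hj
  · have e := Subgroup.map_injective (f := γ.toMonoidHom) γ.injective (h.trans hj.symm)
    rw [e]; exact e ▸ hj

include D in
/-- An element of odd order cannot exchange two maximal overgroups. -/
theorem two_eq [Fact p.Prime] (s : Sit p U Γ R) {a b : ι} (hab : a ≠ b) (hι : ∀ k, k = a ∨ k = b) :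
    p = 2 := by
  obtain ⟨γ, hγ, e⟩ := (D.trans s).1 a b
  by_contra hp
  obtain ⟨k, hk⟩ := s.pgroup ⟨γ, hγ⟩
  have hpow : ∀ n : ℕ, (D.P a).map (γ ^ n).toMonoidHom = if Even n then D.P a else D.P b := by
    intro n
    induction n with
    | zero => rw [if_pos Even.zero, pow_zero]; exact (D.P a).map_id
    | succ n ih =>
      rw [pow_succ', show (γ * γ ^ n).toMonoidHom = γ.toMonoidHom.comp (γ ^ n).toMonoidHom from rfl,
        ← Subgroup.map_map, ih]
      by_cases hn : Even n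
      · rw [if_pos hn, if_neg (by simp [Nat.even_add_one, hn]), e]
      · rw [if_neg hn, if_pos (by simp [Nat.even_add_one, hn]), D.swap hι (s.fix γ hγ) e]
  have h1 := hpow (p ^ k)
  rw [show γ ^ p ^ k = 1 from congrArg Subtype.val hk, if_neg (by
    rw [Nat.even_pow]
    exact fun h => hp ((Fact.out : p.Prime).even_iff.1 h.1))] at h1
  exact hab (D.eq_of_le (le_of_eq ((D.P a).map_id.symm.trans h1)))

include D in
theorem never_of_odd [Finite G] [Fact p.Prime] (hU : IsPGroup p U) (hi : ¬ p ∣ U.index) {a b : ι}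
    (hab : a ≠ b) (hι : ∀ k, k = a ∨ k = b) (hp : p ≠ 2) : Never p G :=
  Never.of_one hU hi fun _ _ s => hp (D.two_eq s hab hι)

include D in
theorem two_of_inf [Finite G] [Fact p.Prime] (hU : IsPGroup p U) (hi : ¬ p ∣ U.index) {a b : ι}
    (hab : a ≠ b) (hι : ∀ k, k = a ∨ k = b)
    (hinf : D.P a ⊓ D.P b ≤ Subgroup.normalizer (U : Set G)) : Two p G := by
  refine Two.of_one hU hi fun Γ R s => ⟨D.two_eq s hab hι, ?_, fun hle => ?_⟩
  · exact (le_inf ((D.trans s).2 a) ((D.trans s).2 b)).trans hinf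
  · obtain ⟨γ, hγ, e⟩ := (D.trans s).1 a b
    obtain ⟨u, hu, rfl⟩ := hle hγ
    refine hab (D.eq_of_le (le_of_eq (Eq.trans ?_ e)))
    refine le_antisymm (fun x hx => ?_) ?_
    · exact ⟨u⁻¹ * x * u, mul_mem (mul_mem (inv_mem (D.le a hu)) hx) (D.le a hu), by simp [mul_assoc]⟩
    · rintro _ ⟨x, hx, rfl⟩
      simpa using mul_mem (mul_mem (D.le a hu) hx) (inv_mem (D.le a hu))

end Parab

theorem pCore_subtype_le {p : ℕ} [Fact p.Prime] [Finite G] {U R : Subgroup G} (hU : IsPGroup p U)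
    (hi : ¬ p ∣ U.index) (hUR : U ≤ R) : (pCore p ↥R).map R.subtype ≤ U := by
  have hQ : IsPGroup p ((pCore p ↥R).map R.subtype) := (Constrained.isPGroup_pCore (p := p) (G := ↥R)).map _
  have hn : U ≤ Subgroup.normalizer (((pCore p ↥R).map R.subtype : Subgroup G) : Set G) := by
    refine hUR.trans ((Subgroup.normal_subgroupOf_iff_le_normalizer (Subgroup.map_subtype_le _)).1 ?_)
    rw [Subgroup.subgroupOf, Subgroup.comap_map_eq_self_of_injective R.subtype_injective]
    infer_instance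
  have h := (hU.toSylow hi).is_maximal' (IsPGroup.to_sup_of_normal_right' hU hQ hn) le_sup_left
  exact le_sup_right.trans h.le

/-- Two canonical subgroups with no common invariant part. -/
theorem never_of_canonical [Finite G] [IsSimpleGroup G] [Fact p.Prime] (hov : Overgroup p G)
    {U : Subgroup G} (hU : IsPGroup p U) (hi : ¬ p ∣ U.index) {ι : Type*} (A : ι → Subgroup G)
    (hA : ∀ i, ∀ α : MulAut G, U.map α.toMonoidHom = U → (A i).map α.toMonoidHom = A i)
    (hne : ∀ i, A i ≠ ⊥ ∧ A i ≠ ⊤)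
    (h : ∀ Q : Subgroup G, Q ≠ ⊥ → Q ≤ U →
      (∀ i, Subgroup.normalizer (A i : Set G) ≤ Subgroup.normalizer (Q : Set G)) → False) :
    Never p G :=
  Never.of_one hU hi fun Γ R s => by
    have hUN : ∀ i, U ≤ Subgroup.normalizer (A i : Set G) := fun i u hu => by
      have e := hA i (MulAut.conj u) (s.fix _ (s.inner u hu))
      rw [Subgroup.mem_normalizer_iff]
      intro x
      conv_rhs => rw [← e]
      exact (Subgroup.mem_map_iff_mem (MulAut.conj u).injective).symm
    have hNR : ∀ i, Subgroup.normalizer (A i : Set G) ≤ R := fun i => by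
      refine s.largest _ (hUN i) (fun ht => ?_) fun γ hγ => le_of_eq ?_
      · haveI := Subgroup.normalizer_eq_top_iff.1 ht
        exact (Subgroup.Normal.eq_bot_or_eq_top (H := A i) inferInstance).elim (hne i).1 (hne i).2
      · rw [map_normalizer, hA i γ (s.fix γ hγ)]
    have hidx : ¬ p ∣ R.index := fun hd => hi (hd.trans (Subgroup.index_dvd_of_le s.le))
    refine h ((pCore p ↥R).map R.subtype) (fun h0 => ?_) (pCore_subtype_le hU hi s.le) fun i => ?_
    · exact s.ne_top (hov R hidx ((Subgroup.map_eq_bot_iff_of_injective _ R.subtype_injective).1 h0))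
    · refine (hNR i).trans ((Subgroup.normal_subgroupOf_iff_le_normalizer (Subgroup.map_subtype_le _)).1 ?_)
      rw [Subgroup.subgroupOf, Subgroup.comap_map_eq_self_of_injective R.subtype_injective]
      infer_instance

end CfsgLib.PMinLie36
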