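import Cfsg.Agent.PMinLie36.BN
import Cfsg.Agent.SylowOvergroup.Chev
import Cfsg.Agent.Chevalley.AutData

/-!
The groups of type G2: no automorphism of 2-power order exchanges the two maximal parabolic subgroups.
-/

set_option autoImplicit false

namespace CfsgLib.PMinLie36

open Cfsg Cfsg.Lie CfsgLib.Chevalley CfsgLib.BNPair CfsgLib.SylowOvergroup

variable {F : Type*} [Field F] [Fintype F]

/-- In characteristic other than three an automorphism fixing `U` and `V` fixes both nodes. -/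
theorem g2_pos {θ : ↥(chevG2.group F) ≃* ↥(chevG2.group F)} (hθ : sysG2.FixesUV θ)
    (h3 : ringChar F ≠ 3) : ∀ i : Fin chevG2.rank, ∃ g : F → F,
      (∀ t, θ (sysG2.xS F i t) = sysG2.xS F i (g t)) ∧
        ∀ t, ∃ u, θ (sysG2.xN F i t) = sysG2.xN F i u := by
  classical
  have hS := supportEq_of_chk checkedG2 chkSupp_G2
  obtain ⟨π, f₀, h₀⟩ := sysG2.exists_rootAction F hS hθ
  have hne : ∀ i, f₀ i 1 ≠ 0 := fun i e =>
    one_ne_zero ((h₀.bij i).1 (e.trans (Sys.RootAction.map_zero sysG2 h₀ i).symm))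
  obtain ⟨d, -, hdx⟩ := sysG2.exists_diag F fun m => Units.mk0 _ (hne (π.symm m))
  set f₁ : Fin chevG2.rank → F → F := fun i t => (f₀ i 1)⁻¹ * f₀ i t with hf₁
  have h₁ : sysG2.RootAction F (θ.trans d.symm) π f₁ := by
    refine ⟨fun i t u => by simp only [hf₁, h₀.add, mul_add], fun i => ?_, fun i t => ?_,
      fun i t => ?_⟩
    · exact (mulLeft_bijective₀ _ (inv_ne_zero (hne i))).comp (h₀.bij i)
    · rw [MulEquiv.trans_apply, h₀.pos, MulEquiv.symm_apply_eq, (hdx (π i) _).1]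
      simp only [hf₁, Units.val_mk0, Equiv.symm_apply_apply, ← mul_assoc,
        mul_inv_cancel₀ (hne i), one_mul]
    · rw [MulEquiv.trans_apply, h₀.neg, MulEquiv.symm_apply_eq, (hdx (π i) _).2]
      simp only [hf₁, Units.val_mk0, Equiv.symm_apply_apply, mul_inv_rev, inv_inv]
      congr 1
      rw [mul_comm (f₀ i t⁻¹)⁻¹, ← mul_assoc, inv_mul_cancel₀ (hne i), one_mul]
  have h11 : ∀ i, f₁ i 1 = 1 := fun i => inv_mul_cancel₀ (hne i)
  have hπ : π = 1 := by
    by_contra hne1
    have hsw : ∀ i : Fin chevG2.rank, ([1, 0] : List ℕ).getD i 0 = (π i : ℕ) := by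
      have key : ∀ σ : Equiv.Perm (Fin chevG2.rank), σ ≠ 1 →
          ∀ i : Fin chevG2.rank, ([1, 0] : List ℕ).getD i 0 = (σ i : ℕ) := by decide +kernel
      exact key π hne1
    exact h3 (Sys.RootAction.ringChar_eq sysG2 h₁ h11 hsw (by norm_num)
      (w := ([], 1, [1, 0], 1)) (by decide +kernel))
  intro i
  refine ⟨f₀ i, fun t => ?_, fun t => ⟨(f₀ i t⁻¹)⁻¹, ?_⟩⟩
  · rw [h₀.pos, hπ]; rfl
  · rw [h₀.neg, hπ]; rfl

theorem chevG2_never (p : ℕ) [Fact p.Prime] [CharP F p] [IsSimpleGroup ↥(chevG2.group F)] :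
    Never p ↥(chevG2.group F) := by
  classical
  set S := sysG2
  set d := chevSplit S F p (by decide) with hd
  have hinj := (SteinbergChar.simpleGen_bijective S F).injective
  have hab : SteinbergChar.simpleGen S F ⟨0, by decide⟩ ≠ SteinbergChar.simpleGen S F ⟨1, by decide⟩ :=
    hinj.ne (by decide)
  have hall : ∀ k, k = SteinbergChar.simpleGen S F ⟨0, by decide⟩ ∨
      k = SteinbergChar.simpleGen S F ⟨1, by decide⟩ := fun k => by
    obtain ⟨i, rfl⟩ := (SteinbergChar.simpleGen_bijective S F).surjective k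
    exact ((by decide : ∀ i : Fin chevG2.rank, i = ⟨0, by decide⟩ ∨ i = ⟨1, by decide⟩) i).imp
      (congrArg _) (congrArg _)
  by_cases hp : p = 2
  swap
  · exact (splitParab d).never_of_odd d.U_p d.U_idx hab hall hp
  have h3 : ringChar F ≠ 3 := by
    rw [ringChar.eq F p, hp]; norm_num
  refine (splitParab d).never_of_ne (i := SteinbergChar.simpleGen S F ⟨0, by decide⟩)
    (j := SteinbergChar.simpleGen S F ⟨1, by decide⟩) d.U_p d.U_idx fun α hα e => ?_
  obtain ⟨x, θ, hθ, hx⟩ := S.exists_fixesUV F (supportEq_of_chk checkedG2 chkSupp_G2) α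
  have hU : ∀ g, θ g ∈ d.U ↔ g ∈ d.U := fun g => hθ.1 g
  have hαU : ∀ g, α g ∈ d.U ↔ g ∈ d.U := fun g => by
    conv_lhs => rw [← hα]
    exact Subgroup.mem_map_iff_mem (f := α.toMonoidHom) α.injective
  have hxB : x ∈ (S.bnPair F).B := by
    rw [borel_eq d, Subgroup.mem_normalizer_iff]
    intro y
    obtain ⟨g, rfl⟩ := θ.surjective y
    rw [← hx, hU, hαU]
  have hθB : ∀ b ∈ (S.bnPair F).B, θ b ∈ (S.bnPair F).B := fun b hb =>
    (S.borel_iff F (supportEq_of_chk checkedG2 chkSupp_G2) hθ b).2 hb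
  -- `θ` keeps each minimal parabolic subgroup
  have hpar : ∀ i, ((S.bnPair F).parabolic {(SteinbergChar.simpleGen S F i).1}).map α.toMonoidHom ≤
      (S.bnPair F).parabolic {(SteinbergChar.simpleGen S F i).1} := by
    intro i
    set M := (S.bnPair F).parabolic {(SteinbergChar.simpleGen S F i).1} with hM
    have hBM : (S.bnPair F).B ≤ M := le_sup_left
    have hsM : (SteinbergChar.simpleGen S F i).1 ∈ M :=
      Subgroup.mem_sup_right (Subgroup.subset_closure rfl)
    have hl := S.wf.simple_lt i i.isLt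
    have hxS : ∀ t, S.xS F i t ∈ M := fun t => hBM (by
      rw [S.bnPair_B, Subgroup.mem_subgroupOf]
      exact S.xG_mem_borel F (S.simple_pos i i.isLt) hl t)
    have hxN : ∀ t, S.xN F i t ∈ M := by
      intro t
      by_cases ht : t = 0
      · rw [ht, S.xN_zero]; exact one_mem _
      let a : Fˣ := Units.mk0 (-t⁻¹) (neg_ne_zero.mpr (inv_ne_zero ht))
      have htor : tor chevG2 F (Pi.mulSingle (i : ℕ) a) ∈ chevG2.group F :=
        S.diagonal_le_group F (by rw [S.diagonal_eq]; exact ⟨_, rfl⟩)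
      have hT : (⟨_, htor⟩ : ↥(chevG2.group F)) ∈ M := hBM (by
        rw [S.bnPair_B, Subgroup.mem_subgroupOf]
        exact Subgroup.mem_sup_right (by rw [S.diagonal_eq]; exact ⟨_, rfl⟩))
      have heq : S.xN F i t = S.xS F i t⁻¹ * (⟨_, htor⟩ * (SteinbergChar.simpleGen S F i).1) *
          S.xS F i t⁻¹ := Subtype.ext (by
        simp only [Subgroup.coe_mul, Sys.xS_val, Sys.xN_val, SteinbergChar.simpleGen_coe]
        rw [← SteinbergChar.nG_eq_tor_mul S F i.isLt a, S.xN_eq F i ht]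
        rfl)
      rw [heq]
      exact mul_mem (mul_mem (hxS _) (mul_mem hT hsM)) (hxS _)
    have hM' : M ≤ M.comap θ.toMonoidHom := by
      obtain ⟨g, hg, hgN⟩ := g2_pos hθ h3 i
      refine sup_le (fun b hb => hBM (hθB b hb)) ((Subgroup.closure_le _).2 ?_)
      rintro _ rfl
      have heq : (SteinbergChar.simpleGen S F i).1 =
          S.xS F i 1 * S.xN F i (-1⁻¹) * S.xS F i 1 := Subtype.ext (by
        simp only [Subgroup.coe_mul, Sys.xS_val, Sys.xN_val, SteinbergChar.simpleGen_coe]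
        exact S.nG_eq F (chevG2.simple i) 1)
      show θ.toMonoidHom _ ∈ M
      rw [heq, map_mul, map_mul]
      obtain ⟨u, hu⟩ := hgN (-1⁻¹)
      show θ (S.xS F i 1) * θ (S.xN F i (-1⁻¹)) * θ (S.xS F i 1) ∈ M
      rw [hg, hu]
      exact mul_mem (mul_mem (hxS _) (hxN _)) (hxS _)
    rintro _ ⟨y, hy, rfl⟩
    show α y ∈ M
    rw [hx]
    exact mul_mem (mul_mem (hBM hxB) (hM' hy)) (inv_mem (hBM hxB))
  have h1 := hpar ⟨1, by decide⟩
  rw [← maxP_eq_single hab hall] at h1
  change (maxP (SteinbergChar.simpleGen S F ⟨0, by decide⟩)).map α.toMonoidHom = maxP _ at e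
  rw [e] at h1
  exact hab ((splitParab d).eq_of_le h1).symm

end CfsgLib.PMinLie36
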