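import Cfsg.Agent.PMinLie36.BN
import Cfsg.Agent.SylowOvergroup.Exceptional
import Cfsg.Agent.TwistedLie.CoxeterW

/-!
Exceptional Chevalley groups, twisted groups and Suzuki groups: overgroups of a Sylow subgroup.
-/

set_option autoImplicit false

namespace CfsgLib.PMinLie36

open Cfsg Cfsg.Lie CfsgLib.Chevalley CfsgLib.BNPair CfsgLib.SylowOvergroup CfsgLib.TwistedLie

section Chev

variable {F : Type*} [Field F] [Fintype F]

/-- The simple reflections `i`, `a` do not commute. -/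
abbrev Link (D : ChevalleyDatum) (i a : Fin D.rank) : Prop :=
  ∃ m : Fin D.rank, D.reflectRoot i (D.reflectRoot a (D.simple m)) ≠
    D.reflectRoot a (D.reflectRoot i (D.simple m))

theorem commute_gen_iff {D : ChevalleyDatum} (S : Sys D) (i a : Fin D.rank) :
    Commute (gen (S.bnPair F) (SteinbergChar.simpleGen S F i))
      (gen (S.bnPair F) (SteinbergChar.simpleGen S F a)) ↔ ¬ Link D i a := by
  rw [commute_iff_eq, ← (SteinbergChar.wPerm_injective S F).eq_iff, map_mul, map_mul,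
    SteinbergChar.wPerm_gen, SteinbergChar.wPerm_gen]
  constructor
  · rintro h ⟨m, hm⟩
    exact hm (congrArg Fin.val (congrArg (fun σ : Equiv.Perm (Fin D.nroots) => σ (S.simpleF m)) h))
  · intro h
    have e : ∀ b c : Fin D.rank, S.srefl b * S.srefl c = S.wperm [b, c] := fun b c => by
      simp [Sys.wperm]
    rw [e, e]
    refine wperm_ext S fun m => Fin.ext ?_
    rw [wperm_val, wperm_val]
    by_contra hne
    exact h ⟨m, hne⟩

theorem chev_never (p : ℕ) [Fact p.Prime] [CharP F p] {D : ChevalleyDatum}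
    (hD : D ∈ [chevG2, chevB2, chevD4, chevF4, chevE6, chevE7, chevE8]) (hrank : 0 < D.rank)
    [IsSimpleGroup ↥(D.group F)] {i j a b : Fin D.rank} (hab : a ≠ b) (ha : Link D i a)
    (hb : Link D i b) (hj : ∀ x y, Link D j x → Link D j y → x = y) :
    Never p ↥(D.group F) := by
  obtain ⟨S⟩ := CfsgLib.Chevalley.sys_of_mem hD
  have hinj := (SteinbergChar.simpleGen_bijective S F).injective
  refine never_of_node (chevSplit S F p hrank) (i := SteinbergChar.simpleGen S F i)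
    (j := SteinbergChar.simpleGen S F j) (hinj.ne hab)
    (fun h => (commute_gen_iff S i a).1 h ha) (fun h => (commute_gen_iff S i b).1 h hb) ?_
  intro x y hx hy
  obtain ⟨x, rfl⟩ := (SteinbergChar.simpleGen_bijective S F).surjective x
  obtain ⟨y, rfl⟩ := (SteinbergChar.simpleGen_bijective S F).surjective y
  rw [commute_gen_iff, not_not] at hx hy
  rw [hj x y hx hy]

theorem f4chev_never (p : ℕ) [Fact p.Prime] [CharP F p] [IsSimpleGroup ↥(chevF4.group F)] :
    Never p ↥(chevF4.group F) :=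
  chev_never p (by simp) (by decide) (i := ⟨1, by decide⟩) (j := ⟨0, by decide⟩)
    (a := ⟨0, by decide⟩) (b := ⟨2, by decide⟩) (by decide) (by decide +kernel) (by decide +kernel)
    (by decide +kernel)

theorem e6chev_never (p : ℕ) [Fact p.Prime] [CharP F p] [IsSimpleGroup ↥(chevE6.group F)] :
    Never p ↥(chevE6.group F) :=
  chev_never p (by simp) (by decide) (i := ⟨3, by decide⟩) (j := ⟨0, by decide⟩)
    (a := ⟨1, by decide⟩) (b := ⟨2, by decide⟩) (by decide) (by decide +kernel) (by decide +kernel)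
    (by decide +kernel)

theorem e7chev_never (p : ℕ) [Fact p.Prime] [CharP F p] [IsSimpleGroup ↥(chevE7.group F)] :
    Never p ↥(chevE7.group F) :=
  chev_never p (by simp) (by decide) (i := ⟨3, by decide⟩) (j := ⟨0, by decide⟩)
    (a := ⟨1, by decide⟩) (b := ⟨2, by decide⟩) (by decide) (by decide +kernel) (by decide +kernel)
    (by decide +kernel)

theorem e8chev_never (p : ℕ) [Fact p.Prime] [CharP F p] [IsSimpleGroup ↥(chevE8.group F)] :
    Never p ↥(chevE8.group F) :=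
  chev_never p (by simp) (by decide) (i := ⟨3, by decide⟩) (j := ⟨0, by decide⟩)
    (a := ⟨1, by decide⟩) (b := ⟨2, by decide⟩) (by decide) (by decide +kernel) (by decide +kernel)
    (by decide +kernel)

end Chev

section Twisted

variable {D : ChevalleyDatum} {S : Sys D} {F : Type*} [Field F] {ι : Type} (E : Tw S F ι)

theorem tw_commute_iff {bl : ι → List ℕ}
    (hbl : ∀ i, (E.blk i).map (fun a : Fin D.rank => (a : ℕ)) = bl i) (i a : ι) :
    Commute (gen E.bnPair (E.sElem i)) (gen E.bnPair (E.sElem a)) ↔ SameW D bl [i, a, i, a] [] := by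
  rw [← E.wW_eq_one_iff hbl, ← E.wCls_eq_one_iff,
    show [i, a, i, a] = [i] ++ ([a] ++ ([i] ++ [a])) from rfl, E.wCls_append, E.wCls_append,
    E.wCls_append, E.wCls_single, E.wCls_single, commute_iff_eq, ← mul_assoc, mul_eq_one_iff_eq_inv,
    mul_inv_rev, gen_inv, gen_inv]

/-- The order of a minimal parabolic subgroup of a twisted group. -/
theorem tw_card_single [Finite F] (p : ℕ) [Fact p.Prime] (d : Split E.bnPair p)
    (hdU : d.U = (D.posUnipotent F ⊓ E.G).subgroupOf E.G) (k : ι) :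
    Nat.card ↥(E.bnPair.parabolic {(E.sElem k).1}) =
      (Nat.card (E.X k) + 1) * Nat.card ↥E.bnPair.B := by
  have hflip : ∀ x ∈ E.X k, x ∈ uSub D F (S.flipSet F (E.nW [k])) := fun x hx => by
    rw [E.flip_blk]; exact E.X_le k hx
  refine card_single d (E.sElem k) (fun x : E.X k => ⟨(x : GL D.Idx F), E.X_mem k x.2⟩)
    (fun x => by rw [hdU]; exact E.X_le_U k x.2) ?_ ?_
  · intro u hu
    rw [hdU] at hu
    obtain ⟨a, ha, x, hx, e, hconj⟩ := E.U_split k (inv_mem hu)
    refine ⟨⟨x⁻¹, inv_mem hx⟩, ?_⟩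
    rw [E.bnPair_B, Subgroup.mem_subgroupOf]
    refine ⟨?_, SetLike.coe_mem _⟩
    simp only [Subgroup.coe_mul, Subgroup.coe_inv, inv_inv]
    show (S.wN F (E.blk k) : GL D.Idx F)⁻¹ * (x * (u : GL D.Idx F)) *
      (S.wN F (E.blk k) : GL D.Idx F) ∈ D.borelSubgroup F
    set n : GL D.Idx F := (S.wN F (E.blk k) : GL D.Idx F)
    have hsq : n * n ∈ D.borelSubgroup F := Subgroup.mem_sup_right (E.T_le (E.n_sq k))
    have h1 := mul_mem (mul_mem (inv_mem hsq) (inv_mem (Subgroup.mem_sup_left hconj.1 :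
      n * a * n⁻¹ ∈ D.borelSubgroup F))) hsq
    convert h1 using 1
    rw [show (u : GL D.Idx F) = (a * x)⁻¹ by rw [← e, inv_inv]; rfl]
    group
  · intro x y h
    rw [E.bnPair_B, Subgroup.mem_subgroupOf] at h
    have h1 : (S.wN F (E.blk k) : GL D.Idx F)⁻¹ * ((x : GL D.Idx F)⁻¹ * y) *
        (S.wN F (E.blk k) : GL D.Idx F) ∈ D.borelSubgroup F := h.1
    have hxy : (x : GL D.Idx F)⁻¹ * y ∈ E.X k := mul_mem (inv_mem x.2) y.2
    have h2 := mem_outBlk_of_flip E k (E.X_le_U k hxy).1 h1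
    rw [← uSub_kept_eq] at h2
    have h3 : (x : GL D.Idx F)⁻¹ * y ∈
        uSub D F (S.keptSet F (E.nW [k])) ⊓ uSub D F (S.flipSet F (E.nW [k])) := ⟨h2, hflip _ hxy⟩
    rw [Tw.kept_inf_flip, Subgroup.mem_bot, inv_mul_eq_one] at h3
    exact Subtype.ext h3

/-- The two orbits of a twisted group of rank two have root subgroups of different orders. -/
theorem tw_never_of_card [Finite F] (p : ℕ) [Fact p.Prime] [IsSimpleGroup ↥E.G]
    (d : Split E.bnPair p) (hdU : d.U = (D.posUnipotent F ⊓ E.G).subgroupOf E.G) {i j : ι}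
    (hij : i ≠ j) (hι : ∀ k, k = i ∨ k = j) (hX : Nat.card (E.X i) ≠ Nat.card (E.X j)) :
    Never p ↥E.G := by
  have hall : ∀ k : E.bnPair.S, k = E.sElem i ∨ k = E.sElem j := fun k => by
    obtain ⟨l, rfl⟩ := E.sElem_bijective.surjective k
    rcases hι l with rfl | rfl
    · exact Or.inl rfl
    · exact Or.inr rfl
  have hc := tw_card_single E p d hdU
  have hne : E.sElem i ≠ E.sElem j := E.sElem_bijective.injective.ne hij
  refine (splitParab d).never_of_card (i := E.sElem i) (j := E.sElem j) d.U_p d.U_idx ?_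
  show Nat.card ↥(maxP (E.sElem i)) ≠ Nat.card ↥(maxP (E.sElem j))
  rw [maxP_eq_single hne hall, maxP_eq_single hne.symm fun k => (hall k).symm, hc, hc]
  intro h
  exact hX (by have := mul_right_cancel₀ Nat.card_pos.ne' h; omega)

end Twisted

section Instances

variable {K : Type*} [Field K] [Fintype K]

theorem e6_never (p : ℕ) [Fact p.Prime] [CharP K p] {q : ℕ}
    (hq : IsPrimePow q) (hK : Fintype.card K = q ^ 2) : Never p ↥(twistedE6 K q) := by
  obtain ⟨f, hf, hqf⟩ := prime_eq_of_charP (p := p) hq hK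
  have hd : p ∣ q := hqf ▸ dvd_pow_self p hf.ne'
  have h0 : 0 < q := hq.pos
  obtain ⟨hs, -⟩ := E6.simpleGroup hq hK
  obtain ⟨h1, h2⟩ := sylow_of_order (p := p) (A := (E6.tw hq hK).G)
    (U := chevE6.posUnipotent K ⊓ (E6.tw hq hK).G) inf_le_right (e := f * 36) (d := Nat.gcd 3 (q + 1))
    (B := (q ^ 2 - 1) * ((q ^ 5 + 1) * ((q ^ 6 - 1) * ((q ^ 8 - 1) * ((q ^ 9 + 1) * (q ^ 12 - 1))))))
    (by rw [E6.card_U hq hK, pow_mul, ← hqf])
    (not_dvd_mul' (not_dvd_sub hd h0 (by omega)) (not_dvd_mul'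
      (not_dvd_add hd (by omega)) (not_dvd_mul' (not_dvd_sub hd h0 (by omega))
      (not_dvd_mul' (not_dvd_sub hd h0 (by omega)) (not_dvd_mul'
      (not_dvd_add hd (by omega)) (not_dvd_sub hd h0 (by omega)))))))
    (by rw [E6.card_group hq hK, pow_mul, ← hqf]; simp only [mul_assoc])
  have S := twSplit (E6.tw hq hK) p (L₀ := E6.longWord) (fun s hs => by
    show (Sys.wperm sysE6 (E6.longWord.flatMap E6.blkF) s : ℕ) < _
    rw [E6.wperm_flat]
    exact E6.long_neg (s : ℕ) s.isLt hs) ⟨(0 : Fin 4)⟩ h1 h2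
  haveI := hs
  haveI : IsSimpleGroup ↥(twistedE6 K q) := hs
  have hc := tw_commute_iff (E6.tw hq hK) (bl := E6.blkN) E6.blkF_val
  have hinj := (E6.tw hq hK).sElem_bijective.injective
  refine never_of_node S (i := (E6.tw hq hK).sElem 1) (j := (E6.tw hq hK).sElem 0)
    (a := (E6.tw hq hK).sElem 0) (b := (E6.tw hq hK).sElem 2) (hinj.ne (by decide))
    (fun h => (by decide +kernel : ¬ SameW chevE6 E6.blkN [(1 : Fin 4), 0, 1, 0] []) ((hc 1 0).1 h))
    (fun h => (by decide +kernel : ¬ SameW chevE6 E6.blkN [(1 : Fin 4), 2, 1, 2] []) ((hc 1 2).1 h))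
    fun x y hx hy => ?_
  obtain ⟨x, rfl⟩ := (E6.tw hq hK).sElem_bijective.surjective x
  obtain ⟨y, rfl⟩ := (E6.tw hq hK).sElem_bijective.surjective y
  have key : ∀ z : Fin 4, ¬ SameW chevE6 E6.blkN [(0 : Fin 4), z, 0, z] [] → z = 1 := by decide +kernel
  rw [key x fun h => hx ((hc 0 x).2 h), key y fun h => hy ((hc 0 y).2 h)]

theorem d4_never (p : ℕ) [Fact p.Prime] [CharP K p] {q : ℕ}
    (hq : IsPrimePow q) (hK : Fintype.card K = q ^ 3) : Never p ↥(twistedD4 K q) := by
  obtain ⟨f, hf, hqf⟩ := prime_eq_of_charP (p := p) hq hK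
  have hd : p ∣ q := hqf ▸ dvd_pow_self p hf.ne'
  have h0 : 0 < q := hq.pos
  obtain ⟨hs, -⟩ := D4.simpleGroup hq hK
  obtain ⟨h1, h2⟩ := sylow_of_order (p := p) (A := (D4.tw hq hK).G)
    (U := chevD4.posUnipotent K ⊓ (D4.tw hq hK).G) inf_le_right (e := f * 12) (d := 1)
    (B := (q ^ 2 - 1) * ((q ^ 6 - 1) * (q ^ 8 + q ^ 4 + 1)))
    (by rw [D4.card_U hq hK, pow_mul, ← hqf])
    (not_dvd_mul' (not_dvd_sub hd h0 (by omega)) (not_dvd_mul' (not_dvd_sub hd h0 (by omega))
      (fun h => (Fact.out (p := p.Prime)).not_dvd_one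
        ((Nat.dvd_add_right (dvd_add (dvd_pow hd (by omega)) (dvd_pow hd (by omega)))).1 h))))
    (by rw [one_mul, D4.card_group hq hK, pow_mul, ← hqf]; simp only [mul_assoc])
  let S := twSplit (D4.tw hq hK) p (L₀ := [0, 1, 0, 1, 0, 1]) (fun s hs => by
    show (Sys.wperm sysD4 (([0, 1, 0, 1, 0, 1] : List (Fin 2)).flatMap D4.blkF) s : ℕ) < _
    rw [D4.wperm_flat]
    exact (by decide +kernel : ∀ s : Fin chevD4.nroots, chevD4.nroots / 2 ≤ (s : ℕ) →
      wL chevD4 (D4.wdN [0, 1, 0, 1, 0, 1]) (s : ℕ) < chevD4.nroots / 2) s hs)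
    ⟨(0 : Fin 2)⟩ h1 h2
  haveI := hs
  refine tw_never_of_card (D4.tw hq hK) p S rfl (i := (0 : Fin 2)) (j := 1) (by decide)
    (fun k => by fin_cases k <;> simp) ?_
  rw [D4.card_X, D4.card_X]
  have hne : (invSet (Sys.wperm sysD4 ((D4.tw hq hK).blk 0))).card ≠
      (invSet (Sys.wperm sysD4 ((D4.tw hq hK).blk 1))).card := by
    have e : ∀ i : Fin 2, (invSet (Sys.wperm sysD4 (D4.blkF i))).card = ![3, 1] i := fun i => by
      have := D4.inv_card [i]
      rw [List.flatMap_singleton] at this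
      rw [this]
      revert i
      decide +kernel
    show (invSet (Sys.wperm sysD4 (D4.blkF 0))).card ≠ (invSet (Sys.wperm sysD4 (D4.blkF 1))).card
    rw [e, e]
    simp
  exact fun h => hne (Nat.pow_right_injective hq.two_le h)

theorem f4_never {m : ℕ} (hm : 1 ≤ m) (hK : Fintype.card K = 2 ^ (2 * m + 1)) :
    Never 2 ↥(twistedF4 K (2 ^ m)) := by
  haveI : Fact (Nat.Prime 2) := ⟨Nat.prime_two⟩
  have hd : 2 ∣ 2 ^ (2 * m + 1) := dvd_pow_self 2 (by omega)
  have h0 : 0 < 2 ^ (2 * m + 1) := pow_pos two_pos _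
  obtain ⟨hs, -⟩ := F4.simpleGroup hK hm
  set Q := 2 ^ (2 * m + 1) with hQ
  obtain ⟨h1, h2⟩ := sylow_of_order (p := 2) (A := (F4.tw hK).G)
    (U := chevF4.posUnipotent K ⊓ (F4.tw hK).G) inf_le_right (e := (2 * m + 1) * 12) (d := 1)
    (B := (Q - 1) * ((Q ^ 3 + 1) * ((Q ^ 4 - 1) * (Q ^ 6 + 1))))
    (by rw [F4.card_U hK, pow_mul])
    (not_dvd_mul' (pow_one Q ▸ not_dvd_sub hd h0 one_ne_zero)
      (not_dvd_mul' (not_dvd_add hd (by omega)) (not_dvd_mul'
        (not_dvd_sub hd h0 (by omega)) (not_dvd_add hd (by omega)))))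
    (by rw [one_mul, F4.card_group hK, pow_mul]; simp only [mul_assoc]; rfl)
  let S := twSplit (F4.tw hK) 2 (L₀ := F4.longWord) (fun s hs => by
    rw [(F4.tw hK).wW_val (F4.hbl hK)]
    exact (by decide +kernel : ∀ r < 48, 24 ≤ r →
      wlW chevF4 F4.blkN F4.longWord r < 24) _ s.isLt hs) ⟨(0 : Fin 2)⟩ h1 h2
  haveI := hs
  refine tw_never_of_card (F4.tw hK) 2 S rfl (i := (0 : Fin 2)) (j := 1) (by decide)
    (fun k => by fin_cases k <;> simp) fun h => ?_
  have h0 := F4.card_X_sq hK 0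
  have h1 := F4.card_X_sq hK 1
  rw [h, h1] at h0
  have e : ∀ i : Fin 2, (invSet (Sys.wperm sysF4 ((F4.tw hK).blk i))).card = ![4, 2] i := fun i => by
    have := F4.inv_card hK [i]
    rw [Tw.wW_single] at this
    rw [this]
    clear this
    revert i
    decide +kernel
  rw [e, e] at h0
  have := Nat.pow_right_injective (Nat.le_self_pow (by omega) 2) h0
  simp at this

section Ree

open CfsgLib.Ree

theorem ree_rankOne {L : Type*} [Field L] [CharP L 3] [Fintype L] {m : ℕ} (hm : 1 ≤ m)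
    (hK : Fintype.card L = 3 ^ (2 * m + 1)) : RankOne 3 ↥(twistedG2 L (3 ^ m)) := by
  haveI : Fact (Nat.Prime 3) := ⟨Nat.prime_three⟩
  obtain ⟨P, hP⟩ := exists_uSylow hK (m := m)
  haveI := (twisted_simple hm hK).1
  have heU : ∀ t u v : L, eU L m t u v ∈ twistedG2 L (3 ^ m) := fun t u v => eU_mem_twisted t u v
  have hne : uSub3 L m ≠ ⊥ := fun h => by
    have h1 := card_uSub3 hK (m := m)
    rw [h, Subgroup.card_bot] at h1
    have : 1 < (3 ^ (2 * m + 1)) ^ 3 := one_lt_pow₀ (one_lt_pow₀ (by norm_num) (by omega)) (by norm_num)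
    omega
  have hflip : ∀ u ∈ uSub3 L m, ((nE (K := L) (m := m))⁻¹ * u * nE) ∈ (bnPairRee hK).B → u = 1 := by
    intro u hu h
    have h1 : (n0 L)⁻¹ * (u : GL chevG2.Idx L) * n0 L ∈ chevG2.borelSubgroup L := h.1
    rw [n0_inv] at h1
    have h2 : n0 L * (u : GL chevG2.Idx L) * n0 L ∈ chevG2.negUnipotent L := n0_conj_neg hu
    have h3 : n0 L * (u : GL chevG2.Idx L) * n0 L ∈ chevG2.borelSubgroup L ⊓ chevG2.negUnipotent L :=
      ⟨h1, h2⟩
    rw [sysG2.borel_inf_neg L, Subgroup.mem_bot] at h3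
    refine Subtype.ext ?_
    calc (u : GL chevG2.Idx L) = n0 L * (n0 L * u * n0 L) * n0 L := by
          rw [show n0 L * (n0 L * (u : GL chevG2.Idx L) * n0 L) * n0 L =
            (n0 L * n0 L) * u * (n0 L * n0 L) by group, n0_mul_self, one_mul, mul_one]
      _ = 1 := by rw [h3, mul_one, n0_mul_self]
  have S : Split (bnPairRee hK) 3 :=
    { U := uSub3 L m
      n₀ := nE
      U_p := hP ▸ P.isPGroup'
      U_idx := hP ▸ P.not_dvd_index
      U_le := fun x hx => ⟨Subgroup.mem_sup_left hx, x.2⟩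
      U_norm := fun b hb u hu =>
        (Subgroup.mem_normalizer_iff.mp (borel_le_normalizer_uSub3 hb.1) u).mp hu
      B_eq := fun b hb => by
        obtain ⟨t, u, v, w, e⟩ := borel_fix (Q_of_card hK) hb.1
          (twistedG2_le_fixSub (Q_of_card hK) b.2)
        exact ⟨⟨_, heU t u v⟩, eU_pos t u v, ⟨_, hT_mem_twisted hK w⟩,
          ⟨⟨Subgroup.mem_sup_right (hT_mem_diagonal w), hT_mem_twisted hK w⟩,
            ⟨Subgroup.mem_sup_left (hT_mem_diagonal w), hT_mem_twisted hK w⟩⟩, Subtype.ext e⟩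
      n₀_mem := nE_mem_N hK
      opp := hflip
      U_ne := hne
      regular := fun s hs u hu h v _ => by
        rw [show s = nE from hs] at h ⊢
        rw [hflip u hu h, mul_one, inv_mul_cancel, mul_one, inv_mul_cancel]
        exact one_mem _ }
  exact rankOne_of_split S fun s t => Subtype.ext ((show s.1 = nE from s.2).trans (show t.1 = nE from t.2).symm)

end Ree

end Instances

section Suzuki

open CfsgLib.Suzuki

theorem suzuki_grp_rankOne {F : Type*} [Field F] [CharP F 2] [Finite F] {θ : F →+* F}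
    (hT : TitsEndo θ) : RankOne 2 ↥(grp θ) := by
  haveI : Fact (Nat.Prime 2) := ⟨Nat.prime_two⟩
  refine RankOne.of_one (isPGroup_uGrp hT) (not_two_dvd_index hT) fun Y hUY hY => ?_
  rw [normalizer_uGrp]
  by_contra h
  exact hY (eq_top_of_not_le hT hUY h)

theorem suzuki_rankOne {F : Type*} [Field F] [Fintype F] {m : ℕ} (hm : 1 ≤ m)
    (hF : Fintype.card F = 2 ^ (2 * m + 1)) : RankOne 2 ↥(Cfsg.Lie.Sz F (2 ^ (m + 1))) := by
  haveI := CfsgLib.Suzuki.charP_two hF
  have hT := CfsgLib.Suzuki.titsEndo_theta hm hF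
  have hg : RankOne 2 ↥(Cfsg.Sz F m) := by rw [CfsgLib.Suzuki.sz_eq]; exact suzuki_grp_rankOne hT
  exact hg.of_mulEquiv (CfsgLib.Suzuki.lieSzEquiv hm hF)

end Suzuki

end CfsgLib.PMinLie36
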