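import Cfsg.Agent.PMinLie36.PolarMain
import Cfsg.Agent.SylowOvergroup.Linear

/-!
The projective special linear groups: overgroups of the unitriangular group.
-/

set_option autoImplicit false

namespace CfsgLib.PMinLie36

open Matrix CfsgLib.SylowOvergroup CfsgLib.SylowOvergroup.Linear

variable {F : Type*} [Field F] {n : ℕ}

local notation "SL" => Matrix.SpecialLinearGroup (Fin n) F

/-- The vectors supported on the first `k` coordinates. -/
def pre (k : ℕ) : Submodule F (Fin n → F) where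
  carrier := {x | ∀ j : Fin n, k ≤ (j : ℕ) → x j = 0}
  add_mem' := fun {x y} hx hy j hj => by simp [hx j hj, hy j hj]
  zero_mem' := fun j _ => rfl
  smul_mem' := fun a x hx j hj => by simp [hx j hj]

theorem mem_pre {k : ℕ} {x : Fin n → F} : x ∈ pre k ↔ ∀ j : Fin n, k ≤ (j : ℕ) → x j = 0 := Iff.rfl

theorem E_mem_pre {k : ℕ} {j : Fin n} (h : (j : ℕ) < k) : (E j : Fin n → F) ∈ pre k := fun i hi => by
  simp [show i ≠ j from fun e => by subst e; omega]

theorem pre_le {k : ℕ} {W : Submodule F (Fin n → F)} (h : ∀ j : Fin n, (j : ℕ) < k → E j ∈ W) :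
    pre k ≤ W := fun x hx => by
  rw [pi_eq_sum_univ' x]
  refine W.sum_mem fun j _ => ?_
  rcases lt_or_ge (j : ℕ) k with hj | hj
  · exact W.smul_mem _ (h j hj)
  · rw [hx j hj, zero_smul]; exact W.zero_mem

variable [Fintype F] [DecidableEq F]

/-- The stabiliser of a coordinate prefix. -/
noncomputable def stPre (k : ℕ) : Subgroup SL :=
  Fus.LinearSimple.subgroupOfSubmonoid
    { carrier := {g | ∀ x ∈ pre k, ap g x ∈ pre k}
      one_mem' := fun x hx => by rwa [ap_one]
      mul_mem' := fun {a b} ha hb x hx => by rw [ap_mul]; exact ha _ (hb x hx) }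

theorem mem_stPre {k : ℕ} {g : SL} : g ∈ stPre k ↔ ∀ x ∈ pre k, ap g x ∈ pre k := Iff.rfl

theorem center_le_stPre (k : ℕ) : Subgroup.center SL ≤ stPre k := by
  intro z hz
  obtain ⟨r, -, hr⟩ := Matrix.SpecialLinearGroup.mem_center_iff.1 hz
  refine fun x hx => ?_
  have : ap z x = r • x := by
    show (z : Matrix (Fin n) (Fin n) F) *ᵥ x = _
    rw [← hr]; ext j; simp [Matrix.mulVec_diagonal]
  rw [this]
  exact (pre k).smul_mem r hx

theorem uni_le_stPre (k : ℕ) : Fus.LinearSimple.uniSL ≤ stPre (F := F) (n := n) k := by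
  intro g hg x hx j hj
  show ((g : Matrix (Fin n) (Fin n) F) *ᵥ x) j = 0
  simp only [Matrix.mulVec, dotProduct]
  refine Finset.sum_eq_zero fun l _ => ?_
  rcases lt_or_ge (l : ℕ) k with hl | hl
  · rw [show (g : Matrix (Fin n) (Fin n) F) j l = 0 from hg.1 j l (show (l : ℕ) < j by omega), zero_mul]
  · rw [hx l hl, mul_zero]

theorem tr_mem_uni {i j : Fin n} (hij : i < j) (h : (E j : Fin n → F) ⬝ᵥ E i = 0) :
    tr (E i) (E j) h ∈ Fus.LinearSimple.uniSL := by
  refine ⟨fun a b hab => ?_, fun a => ?_⟩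
  · show (tr (E i) (E j) h : Matrix (Fin n) (Fin n) F) a b = 0
    rw [← ent_eq, ap_tr]
    by_cases ha : a = i
    · subst ha
      simp [hab.ne', (hab.trans hij).ne']
    · simp [ha, hab.ne']
  · show (tr (E i) (E j) h : Matrix (Fin n) (Fin n) F) a a = 1
    rw [← ent_eq, ap_tr]
    by_cases ha : a = i
    · subst ha
      simp [hij.ne]
    · simp [ha]

/-- Subspaces invariant under the unitriangular group. -/
theorem eq_pre {W : Submodule F (Fin n → F)}
    (hinv : ∀ u ∈ (Fus.LinearSimple.uniSL : Subgroup SL), ∀ w ∈ W, ap u w ∈ W) :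
    ∃ k, k ≤ n ∧ W = pre k := by
  classical
  let S := Finset.univ.filter fun i : Fin n => ∃ w ∈ W, w i ≠ 0
  rcases S.eq_empty_or_nonempty with hS | hS
  · refine ⟨0, Nat.zero_le n, le_antisymm (fun w hw j _ => ?_) (pre_le fun j hj => absurd hj (Nat.not_lt_zero _))⟩
    by_contra h
    have : j ∈ S := Finset.mem_filter.2 ⟨Finset.mem_univ _, w, hw, h⟩
    rw [hS] at this
    exact absurd this (Finset.notMem_empty j)
  set i := S.max' hS with hi
  obtain ⟨w, hw, hwi⟩ := (Finset.mem_filter.1 (S.max'_mem hS)).2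
  rw [← hi] at hwi
  have hhigh : ∀ v ∈ W, ∀ j, i < j → v j = 0 := fun v hv j hj => by
    by_contra h
    exact absurd (S.le_max' j (Finset.mem_filter.2 ⟨Finset.mem_univ _, v, hv, h⟩)) (not_le.2 hj)
  have hlt : ∀ j, j < i → E j ∈ W := fun j hj => by
    have hb : (E i : Fin n → F) ⬝ᵥ E j = 0 := by simp [hj.ne']
    have h1 := W.sub_mem (hinv _ (tr_mem_uni hj hb) w hw) hw
    rw [ap_tr, add_sub_cancel_left, single_one_dotProduct] at h1
    exact (W.smul_mem_iff hwi).1 h1
  have hii : E i ∈ W := by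
    have e : w i • (E i : Fin n → F) = w - ∑ j ∈ Finset.univ.filter (· < i), w j • E j := by
      funext l
      rw [Pi.sub_apply, Finset.sum_apply]
      simp only [Pi.smul_apply, smul_eq_mul, Pi.single_apply, mul_ite, mul_one, mul_zero,
        Finset.sum_ite_eq, Finset.mem_filter, Finset.mem_univ, true_and]
      rcases lt_trichotomy l i with h | h | h
      · simp [h, h.ne]
      · subst h; simp
      · simp [h.ne', hhigh w hw l h, h.not_gt]
    refine (W.smul_mem_iff hwi).1 (e ▸ W.sub_mem hw (W.sum_mem fun j hj => ?_))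
    exact W.smul_mem _ (hlt j (Finset.mem_filter.1 hj).2)
  refine ⟨i + 1, i.2, le_antisymm (fun v hv j hj => hhigh v hv j (show (i : ℕ) < j by omega))
    (pre_le fun j hj => ?_)⟩
  rcases lt_or_eq_of_le (show j ≤ i from Nat.le_of_lt_succ hj) with h | h
  · exact hlt j h
  · exact h ▸ hii

theorem upper_of_stPre {g : SL} (h : ∀ k, 1 ≤ k → k < n → g ∈ stPre k) :
    g ∈ Fus.LinearSimple.upperSL := by
  intro a b hab
  show (g : Matrix (Fin n) (Fin n) F) a b = 0
  rw [← ent_eq]
  exact h (b + 1) (by omega) (by have := a.2; omega) _ (E_mem_pre (Nat.lt_succ_self _)) a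
    (show (b : ℕ) + 1 ≤ a by omega)

theorem conj_uni {g u : SL} (hg : g ∈ Fus.LinearSimple.upperSL) (hu : u ∈ Fus.LinearSimple.uniSL) :
    g * u * g⁻¹ ∈ Fus.LinearSimple.uniSL := by
  have hgi : Fus.LinearSimple.IsUpper g⁻¹ := Subgroup.inv_mem _ hg
  have hgu : Fus.LinearSimple.IsUpper (g * u) := Fus.LinearSimple.isUpper_mul hg hu.1
  refine ⟨Fus.LinearSimple.isUpper_mul hgu hgi, fun i => ?_⟩
  rw [Fus.LinearSimple.diag_mul hgu hgi, Fus.LinearSimple.diag_mul hg hu.1, hu.2, mul_one,
    ← Fus.LinearSimple.diag_mul hg hgi, mul_inv_cancel]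
  simp [Fus.LinearSimple.ent]

variable (p : ℕ) [Fact p.Prime] [CharP F p]

/-- The quotient map. -/
abbrev toPSL : SL →* Matrix.ProjectiveSpecialLinearGroup (Fin n) F :=
  QuotientGroup.mk' (Subgroup.center SL)

theorem ker_le_stPre (k : ℕ) : (toPSL (F := F) (n := n)).ker ≤ stPre k := by
  rw [QuotientGroup.ker_mk']; exact center_le_stPre k

theorem uni_sylow :
    IsPGroup p ((Fus.LinearSimple.uniSL : Subgroup SL).map toPSL) ∧
      ¬ p ∣ ((Fus.LinearSimple.uniSL : Subgroup SL).map toPSL).index :=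
  ⟨(Fus.LinearSimple.isPGroup_uniSL p).map _, fun h =>
    (Fus.LinearSimple.uniSylow (K := F) (n := n) p).not_dvd_index
      (h.trans (Subgroup.index_map_dvd _ (QuotientGroup.mk'_surjective _)))⟩

omit [CharP F p] [Fact p.Prime] in
/-- A proper overgroup stabilises a proper prefix. -/
theorem exists_stPre (hn : 2 ≤ n) {Y : Subgroup (Matrix.ProjectiveSpecialLinearGroup (Fin n) F)}
    (hUY : (Fus.LinearSimple.uniSL : Subgroup SL).map toPSL ≤ Y) (hY : Y ≠ ⊤) :
    ∃ k, 1 ≤ k ∧ k < n ∧ Y ≤ (stPre k).map toPSL := by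
  have hsur : Function.Surjective (toPSL (F := F) (n := n)) := QuotientGroup.mk'_surjective _
  set M := Y.comap (toPSL (F := F) (n := n))
  have hUM : Fus.LinearSimple.uniSL ≤ M := Subgroup.map_le_iff_le_comap.1 hUY
  have hM : M ≠ ⊤ := fun h => hY (by
    rw [← Subgroup.map_comap_eq_self_of_surjective hsur Y,
      show Y.comap (toPSL (F := F) (n := n)) = ⊤ from h]
    exact Subgroup.map_top_of_surjective _ hsur)
  let i : Fin n := ⟨0, by omega⟩
  let l : Fin n := ⟨n - 1, by omega⟩
  let W : Submodule F (Fin n → F) := Submodule.span F {v | ∃ g ∈ M, ap g (E i) = v}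
  have hWl : W ≤ LinearMap.ker (LinearMap.proj l) := by
    refine Submodule.span_le.2 ?_
    rintro _ ⟨g, hg, rfl⟩
    by_contra h
    exact hM (eq_top_of_move (i := i) (l := l) (fun _ => Nat.zero_le _)
      (fun j => Nat.le_sub_one_of_lt j.isLt) (fun e => by
        have := congrArg Fin.val e; simp [i, l] at this; omega) hUM hg h)
  have hinv : ∀ g ∈ M, ∀ w ∈ W, ap g w ∈ W := by
    intro g hg w hw
    induction hw using Submodule.span_induction with
    | mem v hv =>
      obtain ⟨a, ha, rfl⟩ := hv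
      exact Submodule.subset_span ⟨g * a, M.mul_mem hg ha, ap_mul g a _⟩
    | zero => simp [ap]
    | add a b _ _ ha hb => rw [ap_add]; exact W.add_mem ha hb
    | smul a b _ hb => rw [ap_smul]; exact W.smul_mem a hb
  obtain ⟨k, hk, hWk⟩ := eq_pre fun u hu => hinv u (hUM hu)
  have hiW : E i ∈ W := Submodule.subset_span ⟨1, one_mem _, ap_one _⟩
  have hk1 : 1 ≤ k := by
    by_contra h
    rw [hWk] at hiW
    have := hiW i (by omega)
    simp at this
  have hkn : k < n := by
    by_contra h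
    have h1 : (E l : Fin n → F) ∈ W := hWk ▸ E_mem_pre (by have := l.2; omega)
    simpa using hWl h1
  refine ⟨k, hk1, hkn, ?_⟩
  rw [← Subgroup.map_comap_eq_self_of_surjective hsur Y]
  refine Subgroup.map_mono fun g hg x hx => ?_
  rw [← hWk] at hx ⊢
  exact hinv g hg x hx

omit [CharP F p] [Fact p.Prime] in
theorem map_normalizes_uni {g : SL} (hg : g ∈ Fus.LinearSimple.upperSL) :
    toPSL g ∈ Subgroup.normalizer
      (((Fus.LinearSimple.uniSL : Subgroup SL).map toPSL : Subgroup _) : Set _) := by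
  refine Subgroup.le_normalizer_map _ ⟨g, ?_, rfl⟩
  refine Subgroup.mem_normalizer_iff.2 fun x => ⟨fun hx => conj_uni hg hx, fun hx => ?_⟩
  have := conj_uni (Subgroup.inv_mem _ hg) hx
  simpa [mul_assoc] using this

omit [CharP F p] [Fact p.Prime] in
theorem exists_parab_psl (hn : 2 ≤ n) :
    ∃ D : Parab ((Fus.LinearSimple.uniSL : Subgroup SL).map toPSL) (Fin (n - 1)),
      ∀ i, D.P i = (stPre ((i : ℕ) + 1)).map toPSL := by
  refine ⟨⟨fun i => (stPre ((i : ℕ) + 1)).map toPSL, fun i => Subgroup.map_mono (uni_le_stPre _),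
    fun Y hUY hY => ?_, fun i => ?_⟩, fun i => rfl⟩
  · obtain ⟨k, hk1, hkn, hle⟩ := exists_stPre hn hUY hY
    refine ⟨⟨k - 1, by omega⟩, ?_⟩
    simpa only [show k - 1 + 1 = k by omega] using hle
  · let a : Fin n := ⟨i, by have := i.2; omega⟩
    let b : Fin n := ⟨i + 1, by have := i.2; omega⟩
    have hab : a ≠ b := by simp [a, b]
    have hdot : (E a : Fin n → F) ⬝ᵥ E b = 0 := by simp [hab]
    set g := tr (F := F) (E b) (E a) hdot with hg
    have hgx : ∀ x, ap g x = x + x a • E b := fun x => by rw [hg, ap_tr, single_one_dotProduct]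
    refine ⟨toPSL g, fun h => ?_, fun j hj => ⟨g, fun x hx => ?_, rfl⟩⟩
    · have h' : g ∈ stPre ((i : ℕ) + 1) := by
        rw [← Subgroup.comap_map_eq_self (ker_le_stPre (F := F) (n := n) ((i : ℕ) + 1))]
        exact h
      have := h' (E a) (E_mem_pre (by simp [a])) b (by simp [b])
      simp [hgx, hab.symm] at this
    · rw [hgx]
      rcases lt_or_ge (i : ℕ) j with h | h
      · exact (pre _).add_mem hx ((pre _).smul_mem _ (E_mem_pre (by simp [b]; omega)))
      · have hne : (j : ℕ) ≠ i := fun e => hj (Fin.ext e)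
        rw [hx a (by simp [a]; omega), zero_smul, add_zero]
        exact hx

theorem psl_rankOne (hn : n = 2) : RankOne p (Matrix.ProjectiveSpecialLinearGroup (Fin n) F) := by
  obtain ⟨h1, h2⟩ := uni_sylow (F := F) (n := n) p
  refine RankOne.of_one h1 h2 fun Y hUY hY => ?_
  obtain ⟨k, hk1, hkn, hle⟩ := exists_stPre (by omega) hUY hY
  refine hle.trans ?_
  rintro _ ⟨g, hg, rfl⟩
  exact map_normalizes_uni (upper_of_stPre fun j h1 h2 => by rwa [show j = k by omega])

theorem psl_two (hn : n = 3) : Two p (Matrix.ProjectiveSpecialLinearGroup (Fin n) F) := by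
  obtain ⟨h1, h2⟩ := uni_sylow (F := F) (n := n) p
  obtain ⟨D, hD⟩ := exists_parab_psl (F := F) (n := n) (by omega)
  refine D.two_of_inf h1 h2 (a := ⟨0, by omega⟩) (b := ⟨1, by omega⟩) (by simp) (fun k => ?_) ?_
  · have := k.2
    rcases Nat.eq_zero_or_pos (k : ℕ) with h | h
    · exact Or.inl (Fin.ext h)
    · exact Or.inr (Fin.ext (show (k : ℕ) = 1 by omega))
  · rintro y ⟨hy0, hy1⟩
    rw [SetLike.mem_coe, hD] at hy0 hy1
    obtain ⟨g, hg, rfl⟩ := hy0
    have hg' : g ∈ stPre (1 + 1) := by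
      rw [← Subgroup.comap_map_eq_self (ker_le_stPre (F := F) (n := n) (1 + 1))]
      exact hy1
    refine map_normalizes_uni (upper_of_stPre fun j h1 h2 => ?_)
    rcases Nat.lt_or_eq_of_le h1 with h | h
    · rwa [show j = 1 + 1 by omega]
    · rw [← h]; exact hg

theorem psl_never (hn : 4 ≤ n) : Never p (Matrix.ProjectiveSpecialLinearGroup (Fin n) F) := by
  classical
  have hsur : Function.Surjective (toPSL (F := F) (n := n)) := QuotientGroup.mk'_surjective _
  obtain ⟨h1, h2⟩ := uni_sylow (F := F) (n := n) p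
  obtain ⟨D, hD⟩ := exists_parab_psl (F := F) (n := n) (by omega)
  refine D.never_of_card h1 h2 (i := ⟨0, by omega⟩) (j := ⟨1, by omega⟩) fun hcard => ?_
  set S₁ := stPre (F := F) (n := n) 1
  set S₂ := stPre (F := F) (n := n) 2
  have hS : Nat.card S₁ = Nat.card S₂ := by
    rw [hD, hD] at hcard
    have a₁ := (S₁.map toPSL).card_mul_index
    have a₂ := (S₂.map toPSL).card_mul_index
    change Nat.card (S₁.map toPSL) = Nat.card (S₂.map toPSL) at hcard
    rw [hcard, Subgroup.index_map_eq (H := S₁) (f := toPSL (F := F) (n := n)) hsur (ker_le_stPre 1)] at a₁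
    rw [Subgroup.index_map_eq (H := S₂) (f := toPSL (F := F) (n := n)) hsur (ker_le_stPre 2), ← a₁] at a₂
    have hidx := mul_left_cancel₀ Nat.card_pos.ne' a₂
    have b₁ := S₁.card_mul_index
    rw [← S₂.card_mul_index, hidx] at b₁
    exact mul_right_cancel₀ Subgroup.index_ne_zero_of_finite b₁
  let img : ℕ → SL → Set (Fin n → F) := fun k g => (fun x => ap g x) '' ((pre k : Submodule F (Fin n → F)) : Set (Fin n → F))
  have hfib : ∀ k g g', img k g = img k g' ↔ g⁻¹ * g' ∈ stPre k := by
    intro k g g'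
    constructor
    · intro h x hx
      have : ap g' x ∈ img k g := h ▸ ⟨x, hx, rfl⟩
      obtain ⟨y, hy, e⟩ := this
      rw [ap_mul, ← e, ap_inv_ap]
      exact hy
    · intro h
      ext v
      constructor
      · rintro ⟨x, hx, rfl⟩
        refine ⟨ap (g⁻¹ * g')⁻¹ x, Subgroup.inv_mem _ h x hx, ?_⟩
        show ap g' _ = ap g x
        rw [← ap_mul]; group
      · rintro ⟨x, hx, rfl⟩
        refine ⟨ap (g⁻¹ * g') x, h x hx, ?_⟩
        show ap g _ = ap g' x
        rw [← ap_mul, mul_inv_cancel_left]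
  have c₁ := card_eq_mul_of_fibres (S₂.subgroupOf S₁) (fun g : S₁ => img 2 g) fun g g' => hfib _ g.1 g'.1
  have c₂ := card_eq_mul_of_fibres (S₁.subgroupOf S₂) (fun g : S₂ => img 1 g) fun g g' => hfib _ g.1 g'.1
  have k₁ : Nat.card (S₂.subgroupOf S₁) = Nat.card ↥(S₁ ⊓ S₂) := by
    rw [← Subgroup.inf_subgroupOf_left]
    exact Nat.card_congr (Subgroup.subgroupOfEquivOfLe inf_le_left).toEquiv
  have k₂ : Nat.card (S₁.subgroupOf S₂) = Nat.card ↥(S₁ ⊓ S₂) := by
    rw [← Subgroup.inf_subgroupOf_right]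
    exact Nat.card_congr (Subgroup.subgroupOfEquivOfLe inf_le_right).toEquiv
  rw [k₁, hS] at c₁
  rw [k₂, c₁] at c₂
  have hab := mul_right_cancel₀ Nat.card_pos.ne' c₂
  -- many lines through the first point
  let i0 : Fin n := ⟨0, by omega⟩
  let i1 : Fin n := ⟨1, by omega⟩
  let i2 : Fin n := ⟨2, by omega⟩
  let i3 : Fin n := ⟨3, by omega⟩
  have hmv : ∀ v : Fin n → F, (∃ g : S₁, ap (g : SL) (E i0) = E i0 ∧ ap (g : SL) (E i1) = v) →
      ∃ s : Set.range (fun g : S₁ => img 2 g),
        v ∈ s.1 ∧ ∀ x, x ∈ s.1 → ∃ a b : F, x = a • E i0 + b • v := by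
    rintro v ⟨g, h0, h1⟩
    refine ⟨⟨_, g, rfl⟩, ⟨E i1, E_mem_pre (by simp [i1]), h1⟩, ?_⟩
    rintro _ ⟨x, hx, rfl⟩
    refine ⟨x i0, x i1, ?_⟩
    have e : x = x i0 • E i0 + x i1 • E i1 := by
      funext j
      rcases Nat.lt_or_ge (j : ℕ) 2 with hj | hj
      · rcases Nat.lt_or_eq_of_le (Nat.le_of_lt_succ hj) with h | h
        · rw [show j = i0 from Fin.ext (by simp [i0]; omega)]; simp [i0, i1]
        · rw [show j = i1 from Fin.ext h]; simp [i0, i1]
      · rw [hx j hj]
        simp [show j ≠ i0 from fun e => by subst e; simp [i0] at hj,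
          show j ≠ i1 from fun e => by subst e; simp [i1] at hj]
    show ap (g : SL) x = _
    conv_lhs => rw [e, ap_add, ap_smul, ap_smul, h0, h1]
  have hfix : ∀ (a b : Fin n → F) (h : b ⬝ᵥ a = 0), b i0 = 0 → tr a b h ∈ S₁ := by
    intro a b h hb x hx
    rw [ap_tr, show b ⬝ᵥ x = 0 from Finset.sum_eq_zero fun j _ => by
      by_cases hj : j = i0
      · rw [hj, hb, zero_mul]
      · rw [hx j (Nat.one_le_iff_ne_zero.2 fun e => hj (Fin.ext e)), mul_zero], zero_smul, add_zero]
    exact hx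
  let vec : Option (Option F) → Fin n → F
    | none => E i3
    | some none => E i2
    | some (some t) => E i1 + t • E i2
  have h12 : i1 ≠ i2 := by simp [i1, i2]
  have h13 : i1 ≠ i3 := by simp [i1, i3]
  have h23 : i2 ≠ i3 := by simp [i2, i3]
  have h01 : i0 ≠ i1 := by simp [i0, i1]
  have h02 : i0 ≠ i2 := by simp [i0, i2]
  have h03 : i0 ≠ i3 := by simp [i0, i3]
  have hvec : ∀ o, ∃ g : S₁, ap (g : SL) (E i0) = E i0 ∧ ap (g : SL) (E i1) = vec o := by
    rintro (_ | _ | t)
    · refine ⟨⟨tr (E i3 - E i1) (E i1 + E i3) (by simp [h13, h13.symm, dotProduct_sub, add_dotProduct]),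
        hfix _ _ _ (by simp [h01, h03])⟩, ?_, ?_⟩
      · simp [ap_tr, h01.symm, h03.symm, add_dotProduct]
      · simp [ap_tr, h13.symm, add_dotProduct, vec]
    · refine ⟨⟨tr (E i2 - E i1) (E i1 + E i2) (by simp [h12, h12.symm, dotProduct_sub, add_dotProduct]),
        hfix _ _ _ (by simp [h01, h02])⟩, ?_, ?_⟩
      · simp [ap_tr, h01.symm, h02.symm, add_dotProduct]
      · simp [ap_tr, h12.symm, add_dotProduct, vec]
    · refine ⟨⟨tr (E i2) (t • E i1) (by simp [h12]), hfix _ _ _ (by simp [h01])⟩, ?_, ?_⟩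
      · simp [ap_tr, h01.symm]
      · simp [ap_tr, vec]
  choose s hs using fun o => hmv (vec o) (hvec o)
  have hsinj : Function.Injective s := by
    intro o o' he
    obtain ⟨a, b, hab'⟩ := (hs o).2 _ (he ▸ (hs o').1)
    have e0 := congrFun hab' i0
    have e1 := congrFun hab' i1
    have e2 := congrFun hab' i2
    have e3 := congrFun hab' i3
    rcases o with _ | _ | t <;> rcases o' with _ | _ | t' <;>
      simp [vec, h01, h02, h03, h12, h13, h23, h01.symm, h02.symm, h03.symm, h12.symm, h13.symm,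
        h23.symm] at e0 e1 e2 e3 ⊢
    all_goals first
      | (rw [← e1] at e2; simpa [eq_comm] using e2)
      | (subst_vars; simp_all)
  have hlow : Nat.card F + 2 ≤ Nat.card (Set.range fun g : S₁ => img 2 g) := by
    have := Nat.card_le_card_of_injective s hsinj
    rwa [Finite.card_option, Finite.card_option] at this
  -- few points on the first line
  let χ : Option F → Set (Fin n → F)
    | none => Set.range fun c : F => c • (E i0 : Fin n → F)
    | some t => Set.range fun c : F => c • (t • E i0 + E i1 : Fin n → F)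
  have hsub : (Set.range fun g : S₂ => img 1 g) ⊆ Set.range χ := by
    rintro _ ⟨⟨g, hg⟩, rfl⟩
    set v := ap g (E i0) with hv
    have himg : img 1 g = Set.range fun c : F => c • v := by
      ext x
      constructor
      · rintro ⟨y, hy, rfl⟩
        refine ⟨y i0, ?_⟩
        have e : y = y i0 • E i0 := funext fun j => by
          by_cases hj : j = i0
          · subst hj; simp
          · rw [hy j (Nat.one_le_iff_ne_zero.2 fun e => hj (Fin.ext e))]; simp [hj]
        show y i0 • v = ap g y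
        conv_rhs => rw [e, ap_smul]
      · rintro ⟨c, rfl⟩
        refine ⟨c • E i0, (pre 1).smul_mem c (E_mem_pre (by simp [i0])), ?_⟩
        show ap g (c • E i0) = c • v
        rw [ap_smul]
    have hvp : v ∈ pre 2 := hg _ (E_mem_pre (by simp [i0]))
    have e : v = v i0 • E i0 + v i1 • E i1 := funext fun j => by
      by_cases hj : j = i0
      · subst hj; simp [h01]
      · by_cases hj' : j = i1
        · subst hj'; simp [hj]
        · rw [hvp j (by
            by_contra hlt
            rcases (show (j : ℕ) = 0 ∨ (j : ℕ) = 1 by omega) with h | h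
            · exact hj (Fin.ext h)
            · exact hj' (Fin.ext h))]
          simp [hj, hj']
    show img 1 g ∈ _
    rw [himg]
    by_cases hb : v i1 = 0
    · refine ⟨none, ?_⟩
      have ha : v i0 ≠ 0 := fun ha => ap_E_ne g i0 (by
        rw [← hv, e, ha, hb, zero_smul, zero_smul, add_zero])
      rw [hb, zero_smul, add_zero] at e
      ext x
      constructor
      · rintro ⟨c, rfl⟩; exact ⟨c / v i0, by rw [e]; simp [smul_smul, div_mul_cancel₀ _ ha]⟩
      · rintro ⟨c, rfl⟩; exact ⟨c * v i0, by show (c * v i0) • (E i0 : Fin n → F) = c • v; rw [mul_smul, ← e]⟩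
    · refine ⟨some (v i0 / v i1), ?_⟩
      have e' : v = v i1 • ((v i0 / v i1) • E i0 + E i1) := by
        rw [smul_add, smul_smul, mul_div_cancel₀ _ hb, ← e]
      ext x
      constructor
      · rintro ⟨c, rfl⟩
        refine ⟨c / v i1, ?_⟩
        show (c / v i1) • v = c • ((v i0 / v i1) • E i0 + E i1)
        conv_lhs => arg 2; rw [e']
        rw [smul_smul, div_mul_cancel₀ _ hb]
      · rintro ⟨c, rfl⟩
        refine ⟨c * v i1, ?_⟩
        show (c * v i1) • ((v i0 / v i1) • E i0 + E i1) = c • v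
        conv_rhs => arg 2; rw [e']
        rw [smul_smul]
  have hup : Nat.card (Set.range fun g : S₂ => img 1 g) ≤ Nat.card F + 1 := by
    refine ((Nat.card_mono (Set.finite_range χ) hsub).trans (Finite.card_range_le χ)).trans ?_
    rw [Finite.card_option]
  omega

end CfsgLib.PMinLie36
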