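import Cfsg.Agent.SylowOvergroup.Polar

/-!
The totally singular subspaces left invariant by the unipotent radical of a polar space.
-/

set_option autoImplicit false

namespace CfsgLib.PolarCycle

open Module CfsgLib.LinAlg.Witt

namespace Polar

variable {F V M : Type*} [Field F] {σ : F →+* F} [AddCommGroup V] [Module F V] [AddCommGroup M]
  {m : ℕ} (P : Polar σ V M m)

/-- The two families of maximal totally singular subspaces exist. -/
def Thin : Prop := (∀ a, P.π a = 0 → a = 0) ∧ ∀ x, P.mid x = 0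

/-- The frame signs of the standard chamber. -/
def wLow : Equiv.Perm (Fin m) × (Fin m → Bool) := (1, fun _ => false)

theorem wvec_low : P.wvec wLow = P.e := funext fun j => by simp [wvec, wLow]

theorem wch_low_sub (k : ℕ) : (P.wch wLow).sub k = P.low k := by
  show first (P.wvec wLow) k = first P.e k
  rw [wvec_low]

/-- The second maximal extension of `low (m - 1)` in the frame. -/
def alt : Submodule F V :=
  if h : 1 ≤ m then (P.wch (wmove m ⟨h, le_rfl⟩ wLow)).sub m else ⊥

theorem alt_eq {k : Fin m} (hk : (k : ℕ) + 1 = m) :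
    P.alt = P.low k ⊔ Submodule.span F {P.f k} := by
  classical
  have h1 : 1 ≤ m := by omega
  have hvec : P.wvec (wmove m ⟨h1, le_rfl⟩ wLow) = Function.update P.e k (P.f k) := by
    funext j
    have hk' : (⟨m - 1, by omega⟩ : Fin m) = k := Fin.ext (by simp only; omega)
    simp only [wvec, wmove, lt_self_iff_false, dite_false, wLow, hk']
    by_cases hj : j = k
    · subst hj; simp
    · simp [hj]
  rw [alt, dif_pos h1]
  show first (P.wvec _) m = _
  rw [hvec]
  refine le_antisymm (first_le fun j _ => ?_) (sup_le (first_le fun j hj => ?_) ?_)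
  · by_cases hj : j = k
    · subst hj
      rw [Function.update_self]
      exact Submodule.mem_sup_right (Submodule.mem_span_singleton_self _)
    · rw [Function.update_of_ne hj]
      refine Submodule.mem_sup_left (mem_first ?_)
      have : (j : ℕ) ≠ k := fun h => hj (Fin.ext h)
      have := j.2; omega
  · have hne : j ≠ k := fun h => by subst h; omega
    have := mem_first (F := F) (v := Function.update P.e k (P.f k)) (j := j) j.2
    rwa [Function.update_of_ne hne] at this
  · rw [Submodule.span_singleton_le_iff_mem]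
    have := mem_first (F := F) (v := Function.update P.e k (P.f k)) (j := k) k.2
    rwa [Function.update_self] at this

theorem alt_props (hm : 1 ≤ m) : P.IsTS P.alt ∧ finrank F P.alt = m := by
  rw [alt, dif_pos hm]
  exact ⟨(P.wch _).ts, (P.wch _).dim m le_rfl⟩

theorem last_f_not_mem_low (k : Fin m) (i : ℕ) : P.f k ∉ P.low i := fun h => by
  have := (P.coord_of_mem_low h).1 k
  simp [P.cF_f] at this

theorem alt_ne_low (hm : 1 ≤ m) (i : ℕ) : P.alt ≠ P.low i := fun h => by
  refine P.last_f_not_mem_low ⟨m - 1, by omega⟩ i ?_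
  rw [← h]
  rw [P.alt_eq (k := ⟨m - 1, by omega⟩) (by simp only; omega)]
  exact Submodule.mem_sup_right (Submodule.mem_span_singleton_self _)

/-- Removing the first `k` pairs. -/
theorem exists_rest_proj (k : ℕ) (v : V) : ∃ v' ∈ P.rest k,
    (∀ x ∈ P.rest k, P.B v' x = P.B v x) ∧ ∀ i : Fin m, k ≤ (i : ℕ) →
      P.cE i v' = P.cE i v ∧ P.cF i v' = P.cF i v := by
  classical
  let d : V := ∑ j : Fin m, if (j : ℕ) < k then P.cE j v • P.e j + P.cF j v • P.f j else 0
  have hE : ∀ i : Fin m, P.cE i d = if (i : ℕ) < k then P.cE i v else 0 := by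
    intro i
    simp only [d, map_sum, apply_ite (P.cE i), map_add, map_smul, map_zero, P.cE_e, P.cE_f,
      smul_eq_mul, mul_ite, mul_one, mul_zero, add_zero]
    rw [Finset.sum_eq_single i (fun j _ hj => by simp [Ne.symm hj]) (by simp)]
    simp
  have hF : ∀ i : Fin m, P.cF i d = if (i : ℕ) < k then P.cF i v else 0 := by
    intro i
    simp only [d, map_sum, apply_ite (P.cF i), map_add, map_smul, map_zero, P.cF_e, P.cF_f,
      smul_eq_mul, mul_ite, mul_one, mul_zero, zero_add]
    rw [Finset.sum_eq_single i (fun j _ hj => by simp [Ne.symm hj]) (by simp)]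
    simp
  refine ⟨v - d, P.mem_rest.2 fun j hj => ?_, fun x hx => ?_, fun i hi => ?_⟩
  · simp [map_sub, hE, hF, hj]
  · rw [map_sub, LinearMap.sub_apply, sub_eq_self]
    simp only [d, map_sum, LinearMap.sum_apply]
    refine Finset.sum_eq_zero fun j _ => ?_
    by_cases hj : (j : ℕ) < k
    · obtain ⟨h1, h2⟩ := P.mem_rest.1 hx j hj
      rw [if_pos hj, map_add, LinearMap.add_apply, P.B_smul_left, P.B_smul_left,
        show P.B (P.e j) x = 0 from h2, (P.cE_eq_zero_iff j x).1 h1, mul_zero, mul_zero, add_zero]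
    · simp [hj]
  · simp [map_sub, hE, hF, not_lt.2 hi]

variable [FiniteDimensional F V]

/-- The unipotent element moving `f k` to a given singular vector. -/
theorem exists_uni {k : Fin m} {y : V} (hy : y ∈ P.rest k) (hQ : P.Q y = 0)
    (hey : P.B (P.e k) y = 1) :
    ∃ u : P.isoGrp, u ∈ P.U ∧ u ∈ P.rad (Submodule.span F {P.e k}) ∧
      (u : V ≃ₗ[F] V) (P.f k) = y ∧
      (∀ j : Fin m, (j : ℕ) < k →
        (u : V ≃ₗ[F] V) (P.e j) = P.e j ∧ (u : V ≃ₗ[F] V) (P.f j) = P.f j) ∧
      ∀ x, P.B (P.e k) x = 0 →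
        (u : V ≃ₗ[F] V) x = x + (-P.ε⁻¹ * P.B (y - P.f k) x) • P.e k := by
  obtain ⟨u, hu, huf, hux⟩ := P.exists_rad (i₀ := k) hQ hey
  have hfix : ∀ j : Fin m, (j : ℕ) < k →
      (u : V ≃ₗ[F] V) (P.e j) = P.e j ∧ (u : V ≃ₗ[F] V) (P.f j) = P.f j := by
    intro j hj
    have hne : k ≠ j := fun h => by subst h; omega
    obtain ⟨h1, h2⟩ := P.mem_rest.1 hy j hj
    constructor
    · rw [hux _ (P.ee _ _), map_sub, LinearMap.sub_apply,
        P.comm_zero (show P.B (P.e j) y = 0 from h2), P.fe, if_neg hne]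
      simp
    · rw [hux _ (by rw [P.ef, if_neg hne]), map_sub, LinearMap.sub_apply,
        P.comm_zero ((P.cE_eq_zero_iff j y).1 h1), P.ff]
      simp
  refine ⟨u, P.isUni_of_e (fun i => ?_) (fun x hx => ?_), hu, huf, hfix, hux⟩
  · rcases lt_trichotomy (i : ℕ) k with h | h | h
    · rw [(hfix i h).1, sub_self]; exact Submodule.zero_mem _
    · rw [Fin.ext h, hu.1 _ (Submodule.mem_span_singleton_self _), sub_self]
      exact Submodule.zero_mem _
    · rw [hux _ (P.ee _ _), add_sub_cancel_left]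
      exact Submodule.smul_mem _ _ (mem_first h)
  · rw [hux x (P.mem_perp_low.1 hx k k.2), add_sub_cancel_left]
    exact Submodule.smul_mem _ _ (mem_first k.2)

omit [FiniteDimensional F V] in
/-- Some singular vector of the rest is opposite to `e k` and differs from `f k`. -/
theorem exists_other {k : Fin m} (h : (k : ℕ) + 1 < m ∨ ¬ P.Thin) :
    ∃ y ∈ P.rest k, P.Q y = 0 ∧ P.B (P.e k) y = 1 ∧ y ≠ P.f k := by
  classical
  have hr : ∀ v : V, v ∈ P.rest (k + 1) → ∀ t : F, P.f k + (v + t • P.e k) ∈ P.rest k := by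
    intro v hv t
    refine P.mem_rest.2 fun j hj => ?_
    obtain ⟨h1, h2⟩ := P.mem_rest.1 hv j (by omega)
    have hne : j ≠ k := fun he => by subst he; omega
    simp [P.cE_e, P.cE_f, P.cF_e, P.cF_f, h1, h2, hne]
  have hmk : ∀ v : V, v ∈ P.rest (k + 1) → v ≠ 0 →
      ∃ y ∈ P.rest k, P.Q y = 0 ∧ P.B (P.e k) y = 1 ∧ y ≠ P.f k := by
    intro v hv hv0
    obtain ⟨h1, h2⟩ := P.mem_rest.1 hv k (by omega)
    obtain ⟨t, hQ, hB⟩ := P.exists_singular (i₀ := k) v h2 ((P.cE_eq_zero_iff k v).1 h1)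
    refine ⟨_, hr v hv t, hQ, hB, fun he => hv0 ?_⟩
    have e : v + t • P.e k = 0 := add_left_cancel (he.trans (add_zero _).symm)
    have ht := congrArg (P.cE k) e
    simp [P.cE_e, h1] at ht
    rwa [ht, zero_smul, add_zero] at e
  rcases h with h | h
  · refine hmk (P.e ⟨k + 1, h⟩) (P.mem_rest.2 fun j hj => ⟨?_, P.cF_e _ _⟩)
      (P.e_indep.ne_zero _)
    rw [P.cE_e, if_neg]
    rintro rfl; simp at hj
  · by_cases hπ : ∀ a, P.π a = 0 → a = 0
    · obtain ⟨x, hx⟩ : ∃ x, P.mid x ≠ 0 := by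
        by_contra h'; push Not at h'; exact h ⟨hπ, h'⟩
      exact hmk (P.mid x) (P.mem_rest.2 fun j _ => ⟨P.cE_mid j x, P.cF_mid j x⟩) hx
    · push Not at hπ
      obtain ⟨a, ha, ha0⟩ := hπ
      refine ⟨P.f k + (a / P.ε) • P.e k, ?_, ?_, by simp [P.ef, P.ee], ?_⟩
      · simpa using hr 0 (Submodule.zero_mem _) (a / P.ε)
      · rw [P.hd.add, P.Qf, P.Q_smul (P.Qe _), map_smul, P.fe, if_pos rfl, smul_eq_mul,
          div_mul_cancel₀ _ (P.eps_ne_zero k), ha, add_zero, add_zero]
      · rw [Ne, add_eq_left, smul_eq_zero]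
        exact fun he => he.elim (div_ne_zero ha0 (P.eps_ne_zero k)) (P.e_indep.ne_zero k)

/-- A vector of the rest perpendicular to `e k` is moved along `e k`. -/
theorem exists_shift {k : Fin m} {x : V} (hx : x ∈ P.rest k) (hex : P.B (P.e k) x = 0)
    (hx' : x ∉ Submodule.span F {P.e k}) :
    ∃ u ∈ P.U, ∃ l : F, l ≠ 0 ∧ (u : V ≃ₗ[F] V) x - x = l • P.e k := by
  obtain ⟨w, hwe, hwf, hwx⟩ := P.exists_pair hex hx'
  obtain ⟨w', hw', hB, hc⟩ := P.exists_rest_proj k w
  obtain ⟨hcE, hcF⟩ := hc k le_rfl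
  have hwe' : P.B (P.e k) w' = 0 := hcF.trans hwe
  have hwf' : P.B (P.f k) w' = 0 :=
    (P.cE_eq_zero_iff k w').1 (hcE.trans ((P.cE_eq_zero_iff k w).2 hwf))
  obtain ⟨t, hQ, hey⟩ := P.exists_singular (i₀ := k) w' hwe' hwf'
  have hy : P.f k + (w' + t • P.e k) ∈ P.rest k := P.mem_rest.2 fun j hj => by
    have hne : j ≠ k := fun he => by subst he; omega
    obtain ⟨h1, h2⟩ := P.mem_rest.1 hw' j hj
    simp [P.cE_e, P.cE_f, P.cF_e, P.cF_f, h1, h2, hne]
  obtain ⟨u, hu, -, -, -, hux⟩ := P.exists_uni hy hQ hey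
  refine ⟨u, hu, -P.ε⁻¹ * P.B w x, ?_, ?_⟩
  · simp [P.eps_ne_zero k, hwx]
  · rw [hux x hex, add_sub_cancel_left, add_sub_cancel_left, map_add, LinearMap.add_apply,
      P.B_smul_left, hex, mul_zero, add_zero, hB x hx]

omit [FiniteDimensional F V] in
theorem sub_mem_rest {W : Submodule F V} (hts : P.IsTS W) {k : ℕ} (hlow : P.low k ≤ W) {x : V}
    (hx : x ∈ W) : ∃ y ∈ P.low k, x - y ∈ W ⊓ P.rest k := by
  classical
  let y := ∑ j : Fin m, if (j : ℕ) < k then P.cE j x • P.e j else 0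
  have hy : y ∈ P.low k := Submodule.sum_mem _ fun j _ => by
    by_cases h : (j : ℕ) < k
    · rw [if_pos h]; exact Submodule.smul_mem _ _ (mem_first h)
    · rw [if_neg h]; exact Submodule.zero_mem _
  refine ⟨y, hy, Submodule.sub_mem _ hx (hlow hy), P.mem_rest.2 fun j hj => ⟨?_, ?_⟩⟩
  · simp only [y, map_sub, map_sum, apply_ite (P.cE j), map_smul, map_zero, P.cE_e, smul_eq_mul,
      mul_ite, mul_one, mul_zero]
    rw [Finset.sum_eq_single j (fun i _ hi => by simp [Ne.symm hi]) (by simp)]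
    simp [hj]
  · rw [map_sub, (P.coord_of_mem_low hy).1, sub_zero]
    exact (hts _ (hlow (mem_first hj))).2 x hx

omit [FiniteDimensional F V] in
theorem thin_decomp (ht : P.Thin) {k : Fin m} (hk : (k : ℕ) + 1 = m) {v : V} (hv : v ∈ P.rest k) :
    v = P.cE k v • P.e k + P.cF k v • P.f k := by
  have hne : ∀ j : Fin m, j ≠ k → (j : ℕ) < k := fun j hj => by
    have : (j : ℕ) ≠ k := fun h => hj (Fin.ext h)
    have := j.2; omega
  conv_lhs => rw [P.decomp v, ht.2, add_zero]
  rw [Finset.sum_eq_single k (fun j _ hj => by rw [(P.mem_rest.1 hv j (hne j hj)).1, zero_smul])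
      (by simp),
    Finset.sum_eq_single k (fun j _ hj => by rw [(P.mem_rest.1 hv j (hne j hj)).2, zero_smul])
      (by simp)]

/-- Above `low (m - 1)` a thin polar space has only two totally singular subspaces. -/
theorem thin_cases (ht : P.Thin) {k : Fin m} (hk : (k : ℕ) + 1 = m) {W : Submodule F V}
    (hts : P.IsTS W) (hlow : P.low k ≤ W) : W ≤ P.low m ∨ W = P.alt := by
  classical
  by_cases hall : ∀ v ∈ W ⊓ P.rest k, P.cF k v = 0
  · refine Or.inl fun x hx => ?_
    obtain ⟨y, hy, hd⟩ := P.sub_mem_rest hts hlow hx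
    rw [← add_sub_cancel y x]
    refine Submodule.add_mem _ (first_mono P.e k.2.le hy) ?_
    rw [P.thin_decomp ht hk hd.2, hall _ hd, zero_smul, add_zero]
    exact Submodule.smul_mem _ _ (mem_first k.2)
  · push Not at hall
    obtain ⟨v, hv, hb⟩ := hall
    have hf : P.f k ∈ W := by
      have hd := P.thin_decomp ht hk hv.2
      have hQ := (hts v hv.1).1
      rw [hd, P.hd.add, P.Q_smul (P.Qe _), P.Q_smul (P.Qf _), P.B_smul_left, map_smul, P.ef,
        if_pos rfl, smul_eq_mul, mul_one, zero_add, zero_add] at hQ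
      have ha : P.cE k v = 0 := by
        rcases mul_eq_zero.1 (ht.1 _ hQ) with h | h
        · exact (map_eq_zero σ).1 h
        · exact absurd h hb
      rw [ha, zero_smul, zero_add] at hd
      have hv' : P.cF k v • P.f k ∈ W := hd ▸ hv.1
      exact (W.smul_mem_iff hb).1 hv'
    refine Or.inr (le_antisymm (fun x hx => ?_) ?_)
    · obtain ⟨y, hy, hd⟩ := P.sub_mem_rest hts hlow hx
      rw [P.alt_eq hk, ← add_sub_cancel y x]
      refine Submodule.add_mem _ (Submodule.mem_sup_left hy) ?_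
      have ha : P.cE k (x - y) = 0 := (P.cE_eq_zero_iff k _).2 ((hts _ hf).2 _ hd.1)
      rw [P.thin_decomp ht hk hd.2, ha, zero_smul, zero_add]
      exact Submodule.smul_mem _ _ (Submodule.mem_sup_right (Submodule.mem_span_singleton_self _))
    · rw [P.alt_eq hk]
      exact sup_le hlow ((Submodule.span_singleton_le_iff_mem _ _).2 hf)

theorem thin_top (ht : P.Thin) (hm : 1 ≤ m) {W : Submodule F V} (hts : P.IsTS W)
    (hlow : P.low (m - 1) ≤ W) (hdim : finrank F W = m) : W = P.low m ∨ W = P.alt := by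
  rcases P.thin_cases ht (k := ⟨m - 1, by omega⟩) (by simp only; omega) hts hlow with h | h
  · exact Or.inl (Submodule.eq_of_le_of_finrank_eq h (by rw [hdim, P.finrank_low le_rfl]))
  · exact Or.inr h

/-- The totally singular subspaces invariant under `U`. -/
theorem uniq {W : Submodule F V} (hts : P.IsTS W)
    (hinv : ∀ u ∈ P.U, ∀ w ∈ W, (u : V ≃ₗ[F] V) w ∈ W) :
    (∃ k, k ≤ m ∧ W = P.low k) ∨ (1 ≤ m ∧ P.Thin ∧ W = P.alt) := by
  classical
  suffices h : ∀ k, k ≤ m →
      ((∃ j, j ≤ m ∧ W = P.low j) ∨ (1 ≤ m ∧ P.Thin ∧ W = P.alt)) ∨ P.low k ≤ W by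
    rcases h m le_rfl with h | h
    · exact h
    · refine Or.inl ⟨m, le_rfl, le_antisymm (fun x hx => ?_) h⟩
      exact P.mem_low_of_singular (fun w hw => (hts w (h hw)).2 x hx) (hts x hx).1
  intro k
  induction k with
  | zero => exact fun _ => Or.inr (by rw [low, first_zero]; exact bot_le)
  | succ k ih =>
    intro hk
    rcases ih (by omega) with h | hlow
    · exact Or.inl h
    let kk : Fin m := ⟨k, hk⟩
    by_cases hbot : W ≤ P.low k
    · exact Or.inl (Or.inl ⟨k, by omega, le_antisymm hbot hlow⟩)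
    obtain ⟨x₀, hx₀, hx₀'⟩ := SetLike.not_le_iff_exists.1 hbot
    obtain ⟨y, hy, hd⟩ := P.sub_mem_rest hts hlow hx₀
    set x := x₀ - y with hx
    have hx0 : x ≠ 0 := fun h => hx₀' ((sub_eq_zero.1 h) ▸ hy)
    suffices hek : ((1 ≤ m ∧ P.Thin ∧ W = P.alt)) ∨ P.e kk ∈ W by
      rcases hek with h | h
      · exact Or.inl (Or.inr h)
      · refine Or.inr (first_le fun j hj => ?_)
        rcases Nat.lt_or_eq_of_le (Nat.le_of_lt_succ hj) with h' | h'
        · exact hlow (mem_first h')
        · rwa [show j = kk from Fin.ext h']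
    have main : ∀ v ∈ W ⊓ P.rest k, v ≠ 0 → P.B (P.e kk) v = 0 → P.e kk ∈ W := by
      intro v hv hv0 hev
      by_cases hsp : v ∈ Submodule.span F {P.e kk}
      · obtain ⟨t, rfl⟩ := Submodule.mem_span_singleton.1 hsp
        exact (W.smul_mem_iff (fun h => hv0 (by rw [h, zero_smul]))).1 hv.1
      · obtain ⟨u, hu, l, hl, he⟩ := P.exists_shift (k := kk) hv.2 hev hsp
        exact (W.smul_mem_iff hl).1 (he ▸ W.sub_mem (hinv u hu v hv.1) hv.1)
    by_cases hgen : k + 1 < m ∨ ¬ P.Thin
    · refine Or.inr ?_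
      by_cases hb : P.B (P.e kk) x = 0
      · exact main x hd hx0 hb
      obtain ⟨z, hz, hzQ, hze, hzne⟩ := P.exists_other (k := kk) hgen
      obtain ⟨u, hu, hurad, huf, hfix, -⟩ := P.exists_uni (k := kk) hz hzQ hze
      refine main ((u : V ≃ₗ[F] V) x - x) ⟨W.sub_mem (hinv u hu x hd.1) hd.1,
        P.mem_rest.2 fun j hj => ?_⟩ (fun h => hzne ?_) ?_
      · obtain ⟨h1, h2⟩ := P.mem_rest.1 hd.2 j hj
        have e2 : P.B (P.e j) ((u : V ≃ₗ[F] V) x) = 0 := by
          rw [← (hfix j hj).1, P.isometry_B]; exact h2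
        have e1 : P.B (P.f j) ((u : V ≃ₗ[F] V) x) = 0 := by
          rw [← (hfix j hj).2, P.isometry_B]; exact (P.cE_eq_zero_iff j x).1 h1
        exact ⟨by rw [map_sub, (P.cE_eq_zero_iff j _).2 e1, h1, sub_zero],
          by rw [map_sub, show P.cF j _ = 0 from e2, h2, sub_zero]⟩
      · rw [← huf, P.rad_free hurad hb (t := 1) (by rw [one_smul]; exact sub_eq_zero.1 h)]
        rfl
      · rw [map_sub, sub_eq_zero]
        conv_lhs => rw [← hurad.1 _ (Submodule.mem_span_singleton_self (P.e kk))]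
        exact P.isometry_B u _ _
    · push Not at hgen
      have hk1 : (kk : ℕ) + 1 = m := by simp only [kk]; omega
      rcases P.thin_cases hgen.2 hk1 hts hlow with h | h
      · exact Or.inr (main x hd hx0 ((P.coord_of_mem_low (h hd.1)).1 kk))
      · exact Or.inl ⟨by omega, hgen.2, h⟩

end Polar

end CfsgLib.PolarCycle
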