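import Cfsg.Agent.PMinLie36.Core
import Cfsg.Agent.PMinLie36.Uniq

/-!
Central quotients of groups of isometries of a polar space: the maximal overgroups of a Sylow
subgroup in the defining characteristic, as stabilisers of totally singular subspaces.
-/

set_option autoImplicit false

namespace CfsgLib.PolarCycle

open Module CfsgLib.LinAlg.Witt CfsgLib.SylowOvergroup

namespace Polar

variable {F V M : Type*} [Field F] {σ : F →+* F} [AddCommGroup V] [Module F V] [AddCommGroup M]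
  {m : ℕ} (P : Polar σ V M m)

/-- The stabiliser of a subspace in `N`. -/
def stabN (N : Subgroup P.isoGrp) (W : Submodule F V) : Subgroup N where
  carrier := {g | P.mapSub (g : P.isoGrp) W = W}
  one_mem' := P.mapSub_one W
  mul_mem' := fun {a b} ha hb => by
    show P.mapSub ((a : P.isoGrp) * (b : P.isoGrp)) W = W
    rw [P.mapSub_mul, hb, ha]
  inv_mem' := fun {a} ha => by
    show P.mapSub (a : P.isoGrp)⁻¹ W = W
    conv_lhs => rw [← ha]
    rw [← P.mapSub_mul, inv_mul_cancel, P.mapSub_one]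

theorem mem_stabN {N : Subgroup P.isoGrp} {W : Submodule F V} {g : N} :
    g ∈ P.stabN N W ↔ P.mapSub (g : P.isoGrp) W = W := Iff.rfl

open Classical in
/-- The subspace of each type. -/
noncomputable def wsub (i : Fin m) : Submodule F V :=
  if P.Thin ∧ (i : ℕ) + 2 = m then P.alt else P.low (i + 1)

variable [FiniteDimensional F V]

/-- The image of the unipotent radical. -/
def uImage {H : Type*} [Group H] {N : Subgroup P.isoGrp} (f : N →* H) : Subgroup H :=
  (P.U.subgroupOf N).map f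

theorem U_stab_low {u : P.isoGrp} (hu : u ∈ P.U) (k : ℕ) : P.mapSub u (P.low k) = P.low k :=
  IsUni.map_low P hu k

theorem stab_alt {N : Subgroup P.isoGrp} (hfam : P.FamFixed N) (ht : P.Thin) (hm : 1 ≤ m) {g : N}
    (hg : g ∈ P.stabN N (P.low (m - 1))) :
    g ∈ P.stabN N (P.low m) ∧ g ∈ P.stabN N P.alt := by
  have h1 := hfam ht.1 ht.2 g g.2 hg
  refine ⟨h1, ?_⟩
  obtain ⟨hts, hdim⟩ := P.alt_props hm
  have hlow : P.low (m - 1) ≤ P.alt := by
    rw [P.alt_eq (k := ⟨m - 1, by omega⟩) (by simp only; omega)]; exact le_sup_left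
  have hts' : P.IsTS (P.mapSub (g : P.isoGrp) P.alt) := by
    rintro _ ⟨u, hu, rfl⟩
    refine ⟨(P.isometry_Q _ u).trans (hts u hu).1, ?_⟩
    rintro _ ⟨v, hv, rfl⟩
    exact (P.isometry_B _ u v).trans ((hts u hu).2 v hv)
  rcases P.thin_top ht hm hts' (hg.ge.trans (Submodule.map_mono hlow))
    ((LinearEquiv.finrank_map_eq _ _).trans hdim) with h | h
  · exact absurd (Submodule.map_injective_of_injective
      (f := (((g : P.isoGrp) : V ≃ₗ[F] V) : V →ₗ[F] V)) ((g : P.isoGrp) : V ≃ₗ[F] V).injective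
      (h.trans h1.symm)) (P.alt_ne_low hm m)
  · exact h

theorem U_stab_alt {N : Subgroup P.isoGrp} (hUN : P.U ≤ N) (hfam : P.FamFixed N) (ht : P.Thin)
    (hm : 1 ≤ m) {u : P.isoGrp} (hu : u ∈ P.U) : P.mapSub u P.alt = P.alt :=
  (P.stab_alt hfam ht hm (g := ⟨u, hUN hu⟩) (P.U_stab_low hu _)).2

variable [Finite V] [Finite F] {H : Type*} [Group H] (p : ℕ) [Fact p.Prime] [CharP F p]
  {N : Subgroup P.isoGrp} [N.Normal] (f : N →* H)

theorem uImage_sylow (hUN : P.U ≤ N) (hmid : P.MidTrivial p N) (hfam : P.FamFixed N)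
    (hf : Function.Surjective f) :
    IsPGroup p (P.uImage f) ∧ ¬ p ∣ (P.uImage f).index := by
  haveI : Finite (V ≃ₗ[F] V) := Finite.of_injective _ DFunLike.coe_injective
  have hUNp : IsPGroup p (P.U.subgroupOf N) :=
    (P.U_isPGroup p).of_equiv (Subgroup.subgroupOfEquivOfLe hUN).symm
  obtain ⟨S, hS⟩ := hUNp.exists_le_sylow
  have hSU : P.U.subgroupOf N = (S : Subgroup N) := by
    refine Subgroup.eq_of_le_of_card_ge hS ?_
    rw [Nat.card_congr (Subgroup.subgroupOfEquivOfLe hUN).toEquiv,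
      Nat.card_congr ((S : Subgroup N).equivMapOfInjective N.subtype
      N.subtype_injective).toEquiv]
    exact P.card_le_card_U p hUN hmid hfam (S.2.map _) (by
      rintro _ ⟨x, -, rfl⟩; exact x.2)
  refine ⟨hUNp.map f, fun h => ?_⟩
  have h1 := h.trans (Subgroup.index_map_dvd (P.U.subgroupOf N) hf)
  rw [hSU] at h1
  exact S.not_dvd_index h1

omit [Finite F] in
theorem ker_fix (hUN : P.U ≤ N) (hfam : P.FamFixed N) (hker : f.ker ≤ Subgroup.center N) {z : N}
    (hz : z ∈ f.ker) (c : P.Chamber) : (z : P.isoGrp) • c = c :=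
  P.fix_chamber hUN hfam z.2 (fun n hn => (congrArg Subtype.val
    (Subgroup.mem_center_iff.1 (hker hz) ⟨n, hn⟩)).symm) c

omit [Finite F] in
theorem ker_stab (hUN : P.U ≤ N) (hfam : P.FamFixed N) (hker : f.ker ≤ Subgroup.center N)
    (i : Fin m) : f.ker ≤ P.stabN N (P.wsub i) := by
  intro z hz
  rw [mem_stabN, wsub]
  split_ifs with h
  · have hm : 1 ≤ m := by omega
    rw [alt, dif_pos hm]
    exact congrArg (fun c : P.Chamber => c.sub m) (P.ker_fix f hUN hfam hker hz _)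
  · exact congrArg (fun c : P.Chamber => c.sub ((i : ℕ) + 1)) (P.ker_fix f hUN hfam hker hz P.c₀)

variable [IsSimpleGroup H]

/-- A proper overgroup stabilises a totally singular subspace through the first point. -/
theorem exists_invariant (i₀ : Fin m) (hi₀ : (i₀ : ℕ) = 0)
    (hT : 2 ≤ m ∨ ∃ a, a ≠ 0 ∧ P.π a = 0) (hUN : P.U ≤ N) (hfam : P.FamFixed N)
    (hf : Function.Surjective f) (hker : f.ker ≤ Subgroup.center N)
    {Y : Subgroup H} (hUY : P.uImage f ≤ Y) (hY : Y ≠ ⊤) :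
    ∃ W : Submodule F V, P.IsTS W ∧ P.e i₀ ∈ W ∧ Y.comap f ≤ P.stabN N W := by
  classical
  set e := P.e i₀ with he
  have he0 : e ≠ 0 := P.e_indep.ne_zero i₀
  set R := P.rad (Submodule.span F {e})
  have hRU : R ≤ P.U := P.rad_le_U hi₀
  have hUker : ∀ u : N, (u : P.isoGrp) ∈ P.U → f u = 1 → u = 1 := fun u hu h1 =>
    Subtype.ext (P.U_free hu (P.ker_fix f hUN hfam hker h1 P.o₀))
  obtain ⟨zv, hzQ, hze, hzf⟩ := P.exists_triangle hT i₀
  have hzf0 : zv ≠ P.f i₀ := fun h => hzf (by rw [h, P.ff])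
  obtain ⟨r₁, hr₁, hr₁f, -⟩ := P.exists_rad hzQ hze
  have hr₁ne : r₁ ≠ 1 := fun h => hzf0 (by rw [← hr₁f, h]; rfl)
  have hge : ∀ g : N, ((g : P.isoGrp) : V ≃ₗ[F] V) e ≠ 0 := fun g h =>
    he0 (((g : P.isoGrp) : V ≃ₗ[F] V).map_eq_zero_iff.1 h)
  have hgQ0 : ∀ g : N, P.Q (((g : P.isoGrp) : V ≃ₗ[F] V) e) = 0 := fun g => by
    rw [P.isometry_Q, he, P.Qe]
  have hstR : ∀ g : N, ((g : P.isoGrp) : V ≃ₗ[F] V) e ∈ Submodule.span F {e} →
      ∀ r : N, (r : P.isoGrp) ∈ R → ((g * r * g⁻¹ : N) : P.isoGrp) ∈ R := by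
    intro g hg r hr
    obtain ⟨s, hs⟩ := Submodule.mem_span_singleton.1 hg
    have hs0 : s ≠ 0 := fun h => hge g (by rw [← hs, h, zero_smul])
    refine P.conj_mem_rad ?_ ?_ hr
    · intro w hw
      obtain ⟨t, rfl⟩ := Submodule.mem_span_singleton.1 hw
      rw [map_smul, ← hs]
      exact Submodule.smul_mem _ _ (Submodule.smul_mem _ _ (Submodule.mem_span_singleton_self e))
    · intro w hw
      obtain ⟨t, rfl⟩ := Submodule.mem_span_singleton.1 hw
      have hsymm : ((g : P.isoGrp) : V ≃ₗ[F] V).symm e = s⁻¹ • e := by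
        rw [LinearEquiv.symm_apply_eq, map_smul, ← hs, smul_smul, inv_mul_cancel₀ hs0, one_smul]
      rw [map_smul, hsymm]
      exact Submodule.smul_mem _ _ (Submodule.smul_mem _ _ (Submodule.mem_span_singleton_self e))
  have hnop : ∀ g : N, f g ∈ Y → P.B e (((g : P.isoGrp) : V ≃ₗ[F] V) e) = 0 := by
    intro g₁ hg₁M
    by_contra hg₁
    refine hY ?_
    have hR : ∀ r : N, (r : P.isoGrp) ∈ R → f r ∈ Y := fun r hr => hUY ⟨r, hRU hr, rfl⟩
    have hA : ∀ y, P.Q y = 0 → P.B e y ≠ 0 →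
        ∃ h : N, f h ∈ Y ∧ ∃ t : F, ((h : P.isoGrp) : V ≃ₗ[F] V) e = t • y := by
      intro y hy hb
      obtain ⟨r, hr, t, ht⟩ := P.rad_trans (i₀ := i₀) (hgQ0 g₁) hy hg₁ hb
      refine ⟨(⟨r, hUN (hRU hr)⟩ : N) * g₁, ?_, t, ?_⟩
      · rw [map_mul]
        exact mul_mem (hR _ hr) hg₁M
      · exact ht
    have hall : ∀ g : N, ∃ h : N, f h ∈ Y ∧
        (((h⁻¹ * g : N) : P.isoGrp) : V ≃ₗ[F] V) e ∈ Submodule.span F {e} := by
      intro g
      set v := ((g : P.isoGrp) : V ≃ₗ[F] V) e with hv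
      suffices h : ∃ h : N, f h ∈ Y ∧ ∃ t : F, ((h : P.isoGrp) : V ≃ₗ[F] V) e = t • v by
        obtain ⟨h, hh, t, ht⟩ := h
        refine ⟨h, hh, Submodule.mem_span_singleton.2 ⟨t⁻¹, ?_⟩⟩
        show t⁻¹ • e = ((h : P.isoGrp) : V ≃ₗ[F] V).symm v
        have ht0 : t ≠ 0 := fun h0 => hge h (by rw [ht, h0, zero_smul])
        rw [eq_comm, LinearEquiv.symm_apply_eq, map_smul, ht, smul_smul, inv_mul_cancel₀ ht0,
          one_smul]
      by_cases hb : P.B e v = 0
      · by_cases hve : v ∈ Submodule.span F {e}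
        · obtain ⟨t, ht⟩ := Submodule.mem_span_singleton.1 hve
          refine ⟨1, by rw [map_one]; exact one_mem Y, t⁻¹, ?_⟩
          have ht0 : t ≠ 0 := fun h0 => hge g (by rw [← hv, ← ht, h0, zero_smul])
          rw [← ht, smul_smul, inv_mul_cancel₀ ht0, one_smul]
          rfl
        · obtain ⟨y, hy, hey, hyv⟩ := P.exists_common hb hve
          obtain ⟨h₁, hh₁, t, ht⟩ := hA y hy (by rw [hey]; exact one_ne_zero)
          have hb' : P.B e (((h₁ : P.isoGrp) : V ≃ₗ[F] V).symm v) ≠ 0 := by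
            rw [← P.isometry_B (h₁ : P.isoGrp), LinearEquiv.apply_symm_apply, ht, P.B_smul_left]
            exact mul_ne_zero ((map_ne_zero σ).2 fun h0 => hge h₁ (by rw [ht, h0, zero_smul])) hyv
          obtain ⟨h₂, hh₂, s, hs⟩ := hA _ (by
            rw [← P.isometry_Q (h₁ : P.isoGrp), LinearEquiv.apply_symm_apply]; exact hgQ0 g) hb'
          refine ⟨h₁ * h₂, by rw [map_mul]; exact mul_mem hh₁ hh₂, s, ?_⟩
          show ((h₁ : P.isoGrp) : V ≃ₗ[F] V) (((h₂ : P.isoGrp) : V ≃ₗ[F] V) e) = _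
          rw [hs, map_smul, LinearEquiv.apply_symm_apply]
      · exact hA v (hgQ0 g) hb
    let QH := (R.subgroupOf N).map f
    have hne : Subgroup.normalClosure (QH : Set H) ≠ ⊥ := fun h => hr₁ne (congrArg Subtype.val
      (hUker ⟨r₁, hUN (hRU hr₁)⟩ (hRU hr₁) (Subgroup.mem_bot.1 (h ▸
        Subgroup.subset_normalClosure ⟨_, hr₁, rfl⟩))))
    have hle : Subgroup.normalClosure (QH : Set H) ≤ Y := by
      refine (Subgroup.closure_le _).2 ?_
      intro x hx
      obtain ⟨a, ha, hax⟩ := Group.mem_conjugatesOfSet_iff.1 hx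
      obtain ⟨c, rfl⟩ := isConj_iff.1 hax
      obtain ⟨r, hr, rfl⟩ := ha
      obtain ⟨g, rfl⟩ := hf c
      obtain ⟨h, hh, hs⟩ := hall g
      have : f g * f r * (f g)⁻¹ = f h * f (h⁻¹ * g * r * (h⁻¹ * g)⁻¹) * (f h)⁻¹ := by
        simp only [map_mul, map_inv]; group
      rw [SetLike.mem_coe, this]
      exact mul_mem (mul_mem hh (hR _ (hstR _ hs r hr))) (inv_mem hh)
    rcases Subgroup.Normal.eq_bot_or_eq_top
      (Subgroup.normalClosure_normal (s := (QH : Set H))) with h | h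
    · exact absurd h hne
    · exact top_le_iff.1 (h ▸ hle)
  set W : Submodule F V := Submodule.span F
    {v | ∃ g : N, f g ∈ Y ∧ ((g : P.isoGrp) : V ≃ₗ[F] V) e = v} with hW
  refine ⟨W, P.isTS_span (by rintro _ ⟨g, -, rfl⟩; exact hgQ0 g) ?_,
    Submodule.subset_span ⟨1, by rw [map_one]; exact one_mem Y, rfl⟩, fun g hg => ?_⟩
  · rintro _ ⟨g, hg, rfl⟩ _ ⟨g', hg', rfl⟩
    have h := hnop (g⁻¹ * g') (by rw [map_mul, map_inv]; exact mul_mem (inv_mem hg) hg')
    change P.B e (((g : P.isoGrp) : V ≃ₗ[F] V).symm (((g' : P.isoGrp) : V ≃ₗ[F] V) e)) = 0 at h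
    rw [← P.isometry_B (g : P.isoGrp), LinearEquiv.apply_symm_apply] at h
    exact h
  · refine Submodule.eq_of_le_of_finrank_eq ?_ (LinearEquiv.finrank_map_eq _ _)
    rintro _ ⟨w, hw, rfl⟩
    induction hw using Submodule.span_induction with
    | mem v hv =>
      obtain ⟨k, hk, rfl⟩ := hv
      exact Submodule.subset_span ⟨g * k, by rw [map_mul]; exact mul_mem hg hk, rfl⟩
    | zero => simp
    | add a b _ _ ha hb => rw [map_add]; exact W.add_mem ha hb
    | smul a b _ hb => rw [map_smul]; exact W.smul_mem a hb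

omit [IsSimpleGroup H] [Finite F] in
/-- An element of `N` fixing a chamber and moving a given subspace. -/
theorem exists_move (hUN : P.U ≤ N) (c : P.Chamber) {T : Submodule F V} (hT : P.IsTS T)
    (hne : ∀ k, k ≤ m → c.sub k ≠ T)
    (hthin : P.Thin → finrank F T ≠ m ∨ ¬ c.sub (m - 1) ≤ T) :
    ∃ g : N, (∀ k, P.mapSub (g : P.isoGrp) (c.sub k) = c.sub k) ∧ g ∉ P.stabN N T := by
  haveI := P.isPretransitive
  obtain ⟨G, rfl⟩ := MulAction.exists_smul_eq P.isoGrp P.c₀ c
  set T₀ := P.mapSub G⁻¹ T with hT₀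
  have hback : P.mapSub G T₀ = T := by rw [hT₀, ← P.mapSub_mul, mul_inv_cancel, P.mapSub_one]
  obtain ⟨u, hu, hmove⟩ : ∃ u ∈ P.U, P.mapSub u T₀ ≠ T₀ := by
    by_contra h
    push Not at h
    have hts : P.IsTS T₀ := by
      rintro _ ⟨a, ha, rfl⟩
      refine ⟨(P.isometry_Q _ a).trans (hT a ha).1, ?_⟩
      rintro _ ⟨b, hb, rfl⟩
      exact (P.isometry_B _ a b).trans ((hT a ha).2 b hb)
    rcases P.uniq hts fun u hu w hw => (h u hu).le ⟨w, hw, rfl⟩ with ⟨k, hk, e⟩ | ⟨hm, ht, e⟩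
    · refine hne k hk ?_
      rw [smul_sub, c₀_sub, ← e, hback]
    · rcases hthin ht with h' | h'
      · refine h' ?_
        rw [← hback, e]
        exact (LinearEquiv.finrank_map_eq _ _).trans (P.alt_props hm).2
      · refine h' ?_
        rw [smul_sub, c₀_sub, ← hback, e, P.alt_eq (k := ⟨m - 1, by omega⟩) (by simp only; omega)]
        exact Submodule.map_mono le_sup_left
  refine ⟨⟨G * u * G⁻¹, Subgroup.Normal.conj_mem ‹N.Normal› u (hUN hu) G⟩, fun k => ?_, fun h => ?_⟩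
  · show P.mapSub (G * u * G⁻¹) _ = _
    rw [smul_sub, c₀_sub, ← P.mapSub_mul, inv_mul_cancel_right, P.mapSub_mul, P.U_stab_low hu]
  · refine hmove ?_
    have h' : P.mapSub (G * u * G⁻¹) T = T := h
    calc P.mapSub u T₀ = P.mapSub G⁻¹ (P.mapSub (G * u * G⁻¹) T) := by
          rw [hT₀, ← P.mapSub_mul, ← P.mapSub_mul]
          congr 1
          group
      _ = T₀ := by rw [h', hT₀]

omit [IsSimpleGroup H] [Finite F] in
theorem exists_indep (hm2 : 2 ≤ m) (hUN : P.U ≤ N) (hfam : P.FamFixed N) (i : Fin m) :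
    ∃ g : N, g ∉ P.stabN N (P.wsub i) ∧ ∀ j, j ≠ i → g ∈ P.stabN N (P.wsub j) := by
  classical
  have hm : 1 ≤ m := by have := i.2; omega
  have hi1 : 1 ≤ (i : ℕ) + 1 ∧ (i : ℕ) + 1 ≤ m := ⟨by omega, i.2⟩
  by_cases ht : P.Thin ∧ ((i : ℕ) + 1 = m ∨ (i : ℕ) + 2 = m)
  · obtain ⟨hthin, hcase⟩ := ht
    have hp1 : 1 ≤ m - 1 ∧ m - 1 ≤ m := ⟨by omega, by omega⟩
    rcases hcase with hc | hc
    · -- the target is `low m`
      let c := P.wch (wmove (m - 1) hp1 (wmove m ⟨hm, le_rfl⟩ wLow))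
      have hcm : c.sub m = P.alt := by
        rw [show c.sub m = _ from P.wch_wmove (m - 1) hp1 _ le_rfl (by omega), alt, dif_pos hm]
      have hcj : ∀ j, j ≤ m → j ≠ m - 1 → j ≠ m → c.sub j = P.low j := fun j h1 h2 h3 => by
        rw [show c.sub j = _ from P.wch_wmove (m - 1) hp1 _ h1 h2, P.wch_wmove m _ _ h1 h3,
          P.wch_low_sub]
      have hvec : P.wvec (wmove (m - 1) hp1 (wmove m ⟨hm, le_rfl⟩ wLow)) ⟨m - 2, by omega⟩ =
          P.f ⟨m - 1, by omega⟩ := by
        simp [wvec, wmove, wLow, show m - 1 < m by omega, show m - 1 - 1 = m - 2 by omega]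
      have hfmem : P.f ⟨m - 1, by omega⟩ ∈ c.sub (m - 1) :=
        hvec ▸ mem_first (j := (⟨m - 2, by omega⟩ : Fin m)) (by simp only; omega)
      have hT : P.wsub i = P.low m := by
        rw [wsub, if_neg (by omega)]; congr 1
      have hnk : ∀ k, k ≤ m → c.sub k ≠ P.low m := by
        intro k hk he
        have hkm : k = m := by
          have := congrArg (fun W : Submodule F V => finrank F W) he
          simpa only [c.dim k hk, P.finrank_low le_rfl] using this
        rw [hkm, hcm] at he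
        exact P.alt_ne_low hm m he
      obtain ⟨g, hg, hgT⟩ := P.exists_move hUN c (P.isTS_low m) hnk fun _ => Or.inr
        fun h => P.last_f_not_mem_low _ _ (h hfmem)
      refine ⟨g, hT ▸ hgT, fun j hj => ?_⟩
      rw [mem_stabN, wsub]
      have hji : (j : ℕ) ≠ i := fun h => hj (Fin.ext h)
      split_ifs with hjj
      · exact hcm ▸ hg m
      · have hj2 : (j : ℕ) + 2 ≠ m := fun h => hjj ⟨hthin, h⟩
        have := j.2
        exact hcj (j + 1) (by omega) (by omega) (by omega) ▸ hg (j + 1)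
    · -- the target is `alt`
      let c := P.wch (wmove (m - 1) hp1 wLow)
      have hcj : ∀ j, j ≤ m → j ≠ m - 1 → c.sub j = P.low j := fun j h1 h2 => by
        rw [show c.sub j = _ from P.wch_wmove (m - 1) hp1 _ h1 h2, P.wch_low_sub]
      have hvec : P.wvec (wmove (m - 1) hp1 wLow) ⟨m - 2, by omega⟩ = P.e ⟨m - 1, by omega⟩ := by
        simp [wvec, wmove, wLow, show m - 1 < m by omega, show m - 1 - 1 = m - 2 by omega]
      have hemem : P.e ⟨m - 1, by omega⟩ ∈ c.sub (m - 1) :=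
        hvec ▸ mem_first (j := (⟨m - 2, by omega⟩ : Fin m)) (by simp only; omega)
      have hT : P.wsub i = P.alt := by rw [wsub, if_pos ⟨hthin, hc⟩]
      have hnk : ∀ k, k ≤ m → c.sub k ≠ P.alt := by
        intro k hk he
        have hkm : k = m := by
          have := congrArg (fun W : Submodule F V => finrank F W) he
          simpa only [c.dim k hk, (P.alt_props hm).2] using this
        rw [hkm, hcj m le_rfl (by omega)] at he
        exact P.alt_ne_low hm m he.symm
      have hle : ¬ c.sub (m - 1) ≤ P.alt := by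
        intro h
        have hmem := h hemem
        have hf : P.f ⟨m - 1, by omega⟩ ∈ P.alt := by
          rw [P.alt_eq (k := ⟨m - 1, by omega⟩) (by simp only; omega)]
          exact Submodule.mem_sup_right (Submodule.mem_span_singleton_self _)
        have h2 := ((P.alt_props hm).1 _ hmem).2 _ hf
        rw [P.ef, if_pos rfl] at h2
        exact one_ne_zero h2
      obtain ⟨g, hg, hgT⟩ := P.exists_move hUN c (P.alt_props hm).1 hnk fun _ => Or.inr hle
      refine ⟨g, hT ▸ hgT, fun j hj => ?_⟩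
      rw [mem_stabN, wsub]
      have hji : (j : ℕ) ≠ i := fun h => hj (Fin.ext h)
      rw [if_neg (by omega)]
      exact hcj (j + 1) j.2 (by omega) ▸ hg (j + 1)
  · -- the target is `low (i + 1)` and not exceptional
    let c := P.wch (wmove ((i : ℕ) + 1) hi1 wLow)
    have hcj : ∀ j, j ≤ m → j ≠ (i : ℕ) + 1 → c.sub j = P.low j := fun j h1 h2 => by
      rw [show c.sub j = _ from P.wch_wmove _ hi1 _ h1 h2, P.wch_low_sub]
    have hi2 : ¬ (P.Thin ∧ (i : ℕ) + 2 = m) := fun h => ht ⟨h.1, Or.inr h.2⟩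
    have hne : c.sub ((i : ℕ) + 1) ≠ P.low ((i : ℕ) + 1) := by
      intro he
      rcases Nat.lt_or_eq_of_le hi1.2 with hlt | heq
      · have hvec : P.wvec (wmove ((i : ℕ) + 1) hi1 wLow) i = P.e ⟨i + 1, hlt⟩ := by
          simp [wvec, wmove, wLow, hlt]
        have h1 : P.e ⟨i + 1, hlt⟩ ∈ P.low ((i : ℕ) + 1) := by
          rw [← he, ← hvec]
          exact mem_first (j := i) (Nat.lt_succ_self _)
        have := (P.coord_of_mem_low h1).2.2 ⟨i + 1, hlt⟩ le_rfl
        simp [P.cE_e] at this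
      · have hvec : P.wvec (wmove ((i : ℕ) + 1) hi1 wLow) i = P.f i := by
          simp [wvec, wmove, wLow, show ¬ ((i : ℕ) + 1 < m) by omega]
        refine P.last_f_not_mem_low i ((i : ℕ) + 1) ?_
        rw [← he, ← hvec]
        exact mem_first (j := i) (Nat.lt_succ_self _)
    have hnk : ∀ k, k ≤ m → c.sub k ≠ P.low ((i : ℕ) + 1) := by
      intro k hk he
      have hki : k = (i : ℕ) + 1 := by
        have := congrArg (fun W : Submodule F V => finrank F W) he
        simpa only [c.dim k hk, P.finrank_low hi1.2] using this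
      exact hne (hki ▸ he)
    obtain ⟨g, hg, hgT⟩ := P.exists_move hUN c (P.isTS_low ((i : ℕ) + 1)) hnk fun hthin =>
      Or.inl fun h => ht ⟨hthin, Or.inl (by rwa [P.finrank_low hi1.2] at h)⟩
    refine ⟨g, by rwa [wsub, if_neg hi2], fun j hj => ?_⟩
    rw [mem_stabN, wsub]
    have hji : (j : ℕ) ≠ i := fun h => hj (Fin.ext h)
    split_ifs with hjj
    · refine (P.stab_alt hfam hjj.1 hm (g := g) ?_).2
      rw [mem_stabN, ← hcj (m - 1) (by omega) (by omega)]
      exact hg (m - 1)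
    · exact hcj (j + 1) j.2 (by omega) ▸ hg (j + 1)

end Polar

end CfsgLib.PolarCycle
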