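import Cfsg.Agent.PMinLie36.Polar

/-!
The three outcomes for central quotients of isometry groups of polar spaces: rank one, two maximal
overgroups exchanged by a 2-element, or maximal overgroups of different orders.
-/

set_option autoImplicit false

namespace CfsgLib.PMinLie36

theorem card_eq_mul_of_fibres {Γ α : Type*} [Group Γ] [Finite Γ] (S : Subgroup Γ) (φ : Γ → α)
    (hfib : ∀ g g', φ g = φ g' ↔ g⁻¹ * g' ∈ S) :
    Nat.card Γ = Nat.card (Set.range φ) * Nat.card S := by
  rw [← S.index_mul_card, Subgroup.index]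
  congr 1
  refine Nat.card_congr (Equiv.ofBijective
    (Quotient.lift (fun g => (⟨φ g, g, rfl⟩ : Set.range φ)) fun g g' h =>
      Subtype.ext ((hfib g g').2 (QuotientGroup.leftRel_apply.1 h))) ⟨?_, ?_⟩)
  · rintro ⟨g⟩ ⟨g'⟩ h
    exact QuotientGroup.eq.2 ((hfib g g').1 (congrArg Subtype.val h))
  · rintro ⟨_, g, rfl⟩
    exact ⟨QuotientGroup.mk g, rfl⟩

end CfsgLib.PMinLie36

namespace CfsgLib.PolarCycle

open Module CfsgLib.LinAlg.Witt CfsgLib.PMinLie36

namespace Polar

variable {F V M : Type*} [Field F] {σ : F →+* F} [AddCommGroup V] [Module F V] [AddCommGroup M]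
  {m : ℕ} (P : Polar σ V M m)

theorem low_one (hm : 1 ≤ m) : P.low 1 = Submodule.span F {P.e ⟨0, hm⟩} := by
  refine le_antisymm (first_le fun j hj => ?_)
    ((Submodule.span_singleton_le_iff_mem _ _).2 (mem_first Nat.one_pos))
  rw [show j = ⟨0, hm⟩ from Fin.ext (by simp only; omega)]
  exact Submodule.mem_span_singleton_self _

theorem low_two (hm : 2 ≤ m) :
    P.low 2 = Submodule.span F {P.e ⟨0, by omega⟩, P.e ⟨1, hm⟩} := by
  refine le_antisymm (first_le fun j hj => ?_) (Submodule.span_le.2 ?_)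
  · refine Submodule.subset_span ?_
    rcases Nat.lt_or_eq_of_le (Nat.le_of_lt_succ hj) with h | h
    · exact Or.inl (congrArg P.e (Fin.ext (by simp only; omega)))
    · exact Or.inr (congrArg P.e (Fin.ext h))
  · rintro _ (rfl | rfl) <;> exact mem_first (by simp)

variable [Finite V] [FiniteDimensional F V] [Finite F] {H : Type*} [Group H] [IsSimpleGroup H]
  (p : ℕ) [Fact p.Prime] [CharP F p] {N : Subgroup P.isoGrp} [N.Normal] (f : N →* H)
  (hUN : P.U ≤ N) (hmid : P.MidTrivial p N) (hfam : P.FamFixed N)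
  (hf : Function.Surjective f) (hker : f.ker ≤ Subgroup.center N)

include hUN hfam hf hker in
/-- The maximal overgroups of the unipotent radical. -/
theorem exists_parab (hm : 2 ≤ m) :
    ∃ D : Parab (P.uImage f) (Fin m), ∀ i, D.P i = (P.stabN N (P.wsub i)).map f := by
  classical
  have hcomap : ∀ i, ((P.stabN N (P.wsub i)).map f).comap f = P.stabN N (P.wsub i) := fun i =>
    Subgroup.comap_map_eq_self (P.ker_stab f hUN hfam hker i)
  refine ⟨⟨fun i => (P.stabN N (P.wsub i)).map f, fun i => Subgroup.map_mono fun u hu => ?_,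
    fun Y hUY hY => ?_, fun i => ?_⟩, fun i => rfl⟩
  · rw [mem_stabN, wsub]
    split_ifs with h
    · exact P.U_stab_alt hUN hfam h.1 (by omega) hu
    · exact P.U_stab_low hu _
  · obtain ⟨W, hts, heW, hW⟩ :=
      P.exists_invariant f ⟨0, by omega⟩ rfl (Or.inl hm) hUN hfam hf hker hUY hY
    suffices h : ∃ i, P.stabN N W ≤ P.stabN N (P.wsub i) by
      obtain ⟨i, hi⟩ := h
      refine ⟨i, ?_⟩
      rw [← Subgroup.map_comap_eq_self_of_surjective hf Y]
      exact Subgroup.map_mono (hW.trans hi)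
    have hinv : ∀ u ∈ P.U, ∀ w ∈ W, (u : V ≃ₗ[F] V) w ∈ W := fun u hu w hw =>
      (hW (show (⟨u, hUN hu⟩ : N) ∈ Y.comap f from hUY ⟨⟨u, hUN hu⟩, hu, rfl⟩)).le ⟨w, hw, rfl⟩
    rcases P.uniq hts hinv with ⟨k, hk, rfl⟩ | ⟨-, ht, rfl⟩
    · have hk0 : 1 ≤ k := by
        by_contra h
        obtain rfl : k = 0 := by omega
        rw [low, first_zero, Submodule.mem_bot] at heW
        exact P.e_indep.ne_zero _ heW
      by_cases hc : P.Thin ∧ k + 1 = m
      · refine ⟨⟨k - 1, by omega⟩, fun g hg => ?_⟩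
        rw [mem_stabN, wsub, if_pos ⟨hc.1, by simp only; omega⟩]
        exact (P.stab_alt hfam hc.1 (by omega) (g := g)
          (by rwa [show m - 1 = k by omega])).2
      · refine ⟨⟨k - 1, by omega⟩, le_of_eq ?_⟩
        rw [wsub, if_neg (fun h => hc ⟨h.1, by have := h.2; simp only at this; omega⟩)]
        simp only [show k - 1 + 1 = k by omega]
    · refine ⟨⟨m - 2, by omega⟩, le_of_eq ?_⟩
      rw [wsub, if_pos ⟨ht, by simp only; omega⟩]
  · obtain ⟨g, hg, hgj⟩ := P.exists_indep hm hUN hfam i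
    refine ⟨f g, fun h => hg ?_, fun j hj => ⟨g, hgj j hj, rfl⟩⟩
    rw [← hcomap i]
    exact h

omit [Finite F] [IsSimpleGroup H] in
theorem map_normalizes {g : N} (hg : (g : P.isoGrp) • P.c₀ = P.c₀) :
    f g ∈ Subgroup.normalizer (P.uImage f : Set H) := by
  have h : g ∈ Subgroup.normalizer (P.U.subgroupOf N : Set N) := by
    rw [Subgroup.mem_normalizer_iff]
    refine fun x => ⟨fun hx => P.conj_mem_U hg hx, fun hx => ?_⟩
    have := P.conj_mem_U (g := (g : P.isoGrp)⁻¹) (inv_smul_eq_iff.2 hg.symm) hx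
    rw [Subgroup.mem_subgroupOf]
    simpa [mul_assoc] using this
  exact Subgroup.le_normalizer_map f ⟨g, h, rfl⟩

include hUN hmid hfam hf hker in
theorem rankOne (hm : m = 1) (hT : ∃ a, a ≠ 0 ∧ P.π a = 0) : RankOne p H := by
  haveI : Finite (V ≃ₗ[F] V) := Finite.of_injective _ DFunLike.coe_injective
  haveI : Finite H := Finite.of_surjective f hf
  obtain ⟨h1, h2⟩ := P.uImage_sylow p f hUN hmid hfam hf
  refine RankOne.of_one h1 h2 fun Y hUY hY => ?_
  obtain ⟨W, hts, heW, hW⟩ :=
    P.exists_invariant f ⟨0, by omega⟩ rfl (Or.inr hT) hUN hfam hf hker hUY hY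
  intro y hy
  obtain ⟨g, rfl⟩ := hf y
  refine P.map_normalizes f (Chamber.ext (funext fun k => ?_))
  have hinv : ∀ u ∈ P.U, ∀ w ∈ W, (u : V ≃ₗ[F] V) w ∈ W := fun u hu w hw =>
    (hW (show (⟨u, hUN hu⟩ : N) ∈ Y.comap f from hUY ⟨⟨u, hUN hu⟩, hu, rfl⟩)).le ⟨w, hw, rfl⟩
  have hW1 : W = P.low 1 := by
    rcases P.uniq hts hinv with ⟨k, hk, rfl⟩ | ⟨-, ht, -⟩
    · rcases Nat.eq_zero_or_pos k with rfl | hk0
      · rw [low, first_zero, Submodule.mem_bot] at heW
        exact absurd heW (P.e_indep.ne_zero _)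
      · rw [show k = 1 by omega]
    · obtain ⟨a, ha, hπ⟩ := hT
      exact absurd (ht.1 a hπ) ha
  rw [smul_sub, c₀_sub]
  rcases Nat.eq_zero_or_pos k with rfl | hk
  · rw [low, first_zero]; exact Submodule.map_bot _
  · rw [low, first_stable P.e (show m ≤ k by omega), show first P.e m = W by
      rw [hW1, low, first_stable P.e (show m ≤ 1 by omega)]]
    exact hW hy

include hUN hmid hfam hf hker in
theorem two (hm : m = 2) (hthin : ¬ P.Thin) : Two p H := by
  haveI : Finite (V ≃ₗ[F] V) := Finite.of_injective _ DFunLike.coe_injective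
  haveI : Finite H := Finite.of_surjective f hf
  obtain ⟨h1, h2⟩ := P.uImage_sylow p f hUN hmid hfam hf
  obtain ⟨D, hD⟩ := P.exists_parab f hUN hfam hf hker (by omega)
  have hne : (⟨0, by omega⟩ : Fin m) ≠ ⟨1, by omega⟩ := by simp
  refine D.two_of_inf h1 h2 hne (fun k => ?_) ?_
  · rcases k with ⟨k, hk⟩
    have hk2 : k = 0 ∨ k = 1 := by omega
    rcases hk2 with rfl | rfl
    · exact Or.inl rfl
    · exact Or.inr rfl
  · rintro y ⟨hy0, hy1⟩
    rw [SetLike.mem_coe, hD] at hy0 hy1
    obtain ⟨g, hg0, rfl⟩ := hy0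
    have hg1 : g ∈ P.stabN N (P.wsub ⟨1, by omega⟩) := by
      rw [← Subgroup.comap_map_eq_self (P.ker_stab f hUN hfam hker ⟨1, by omega⟩)]
      exact hy1
    rw [SetLike.mem_coe, mem_stabN, wsub, if_neg (fun h => hthin h.1)] at hg0
    rw [mem_stabN, wsub, if_neg (fun h => hthin h.1)] at hg1
    refine P.map_normalizes f (Chamber.ext (funext fun k => ?_))
    rw [smul_sub, c₀_sub]
    match k with
    | 0 => rw [low, first_zero]; exact Submodule.map_bot _
    | 1 => exact hg0
    | k + 2 =>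
      rw [low, first_stable P.e (show m ≤ k + 2 by omega),
        ← first_stable P.e (show m ≤ 2 by omega)]
      exact hg1

include hUN hmid hfam in
omit [IsSimpleGroup H] in
/-- `N` is transitive on pairs of a singular point and a singular line through it. -/
theorem exists_flag (hm : 2 ≤ m) (hgood : ¬ P.Thin ∨ 3 ≤ m) {x y : V}
    (hxy : LinearIndependent F ![x, y]) (hx : P.Q x = 0) (hy : P.Q y = 0) (hB : P.B x y = 0) :
    ∃ n : N, P.mapSub (n : P.isoGrp) (P.low 1) = Submodule.span F {x} ∧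
      P.mapSub (n : P.isoGrp) (P.low 2) = Submodule.span F {x, y} := by
  classical
  haveI : Finite (V ≃ₗ[F] V) := Finite.of_injective _ DFunLike.coe_injective
  set e₀ := P.e ⟨0, by omega⟩ with he₀
  set e₁ := P.e ⟨1, hm⟩ with he₁
  have hd : ∀ v, P.Q v = 0 → P.B v v = 0 := fun v hv => by
    rw [P.hd.diag v 0 (hv.trans P.hd.map_zero.symm)]; simp
  have hind : LinearIndependent F ![e₀, e₁] := by
    have h := P.e_indep.comp ![(⟨0, by omega⟩ : Fin m), ⟨1, hm⟩] (fun a b hab => by
      fin_cases a <;> fin_cases b <;> simp_all [Fin.ext_iff])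
    convert h using 1
    ext a; fin_cases a <;> rfl
  obtain ⟨G₀, hG, hGe⟩ := P.hd.exists_isometry_family P.hker (a := ![e₀, e₁]) (b := ![x, y]) hind hxy
    (fun i j => by
      fin_cases i <;> fin_cases j <;>
        simp [he₀, he₁, P.ee, hd x hx, hd y hy, hB, P.comm_zero hB])
    (fun i => by fin_cases i <;> simp [he₀, he₁, P.Qe, hx, hy])
  let G : P.isoGrp := ⟨G₀, hG⟩
  let A : Subgroup N := (P.U.map (MulAut.conj G).toMonoidHom).subgroupOf N
  have hAN : P.U.map (MulAut.conj G).toMonoidHom ≤ N := by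
    rintro _ ⟨u, hu, rfl⟩
    exact Subgroup.Normal.conj_mem ‹N.Normal› u (hUN hu) G
  obtain ⟨hUp, hUi⟩ := P.uImage_sylow p (MonoidHom.id N) hUN hmid hfam Function.surjective_id
  rw [uImage, Subgroup.map_id] at hUp hUi
  have hcard : Nat.card A = Nat.card (P.U.subgroupOf N) := by
    rw [Nat.card_congr (Subgroup.subgroupOfEquivOfLe hAN).toEquiv,
      Nat.card_congr (Subgroup.subgroupOfEquivOfLe hUN).toEquiv]
    exact (Nat.card_congr (P.U.equivMapOfInjective _ (MulAut.conj G).injective).toEquiv).symm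
  have hAp : IsPGroup p A := by
    obtain ⟨k, hk⟩ := IsPGroup.iff_card.1 hUp
    exact IsPGroup.of_card (hcard.trans hk)
  have hAi : ¬ p ∣ A.index := by
    have h1 := A.card_mul_index
    rw [hcard, ← (P.U.subgroupOf N).card_mul_index] at h1
    rwa [mul_left_cancel₀ Nat.card_pos.ne' h1]
  obtain ⟨n, hn⟩ := exists_conj_map hUp hUi hAp hAi
  set h : P.isoGrp := (n : P.isoGrp)⁻¹ * G with hh
  have hconj : ∀ u ∈ P.U, h⁻¹ * u * h ∈ P.U := by
    intro u hu
    have hmem : (MulAut.conj n).toMonoidHom ⟨u, hUN hu⟩ ∈ A := hn ▸ ⟨⟨u, hUN hu⟩, hu, rfl⟩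
    obtain ⟨u', hu', he⟩ := hmem
    have he' : G * u' * G⁻¹ = (n : P.isoGrp) * u * (n : P.isoGrp)⁻¹ := he
    rw [show h⁻¹ * u * h = G⁻¹ * ((n : P.isoGrp) * u * (n : P.isoGrp)⁻¹) * G by rw [hh]; group, ← he',
      show G⁻¹ * (G * u' * G⁻¹) * G = u' by group]
    exact hu'
  have hfixh : ∀ k, k ≤ 2 → P.mapSub h (P.low k) = P.low k := by
    intro k hk
    have hts : P.IsTS (P.mapSub h (P.low k)) := by
      rintro _ ⟨a, ha, rfl⟩
      refine ⟨(P.isometry_Q _ a).trans ((P.isTS_low k) a ha).1, ?_⟩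
      rintro _ ⟨b, hb, rfl⟩
      exact (P.isometry_B _ a b).trans (((P.isTS_low k) a ha).2 b hb)
    have hinv : ∀ u ∈ P.U, ∀ w ∈ P.mapSub h (P.low k), (u : V ≃ₗ[F] V) w ∈ P.mapSub h (P.low k) := by
      intro u hu w hw
      have : P.mapSub u (P.mapSub h (P.low k)) = P.mapSub h (P.low k) := by
        rw [← P.mapSub_mul, show u * h = h * (h⁻¹ * u * h) by group, P.mapSub_mul,
          P.U_stab_low (hconj u hu)]
      exact this.le ⟨w, hw, rfl⟩
    have hd' : finrank F (P.mapSub h (P.low k)) = k :=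
      (LinearEquiv.finrank_map_eq _ _).trans (P.finrank_low (by omega))
    rcases P.uniq hts hinv with ⟨j, hj, e⟩ | ⟨hm1, ht, e⟩
    · rw [e, P.finrank_low hj] at hd'
      rw [e, hd']
    · rw [e, (P.alt_props hm1).2] at hd'
      exfalso
      rcases hgood with hg | hg
      · exact hg ht
      · omega
  have hn' : ∀ k, k ≤ 2 → P.mapSub (n : P.isoGrp) (P.low k) = P.mapSub G (P.low k) := fun k hk => by
    conv_rhs => rw [show G = (n : P.isoGrp) * h by rw [hh]; group, P.mapSub_mul, hfixh k hk]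
  have hx' : G₀ e₀ = x := hGe 0
  have hy' : G₀ e₁ = y := hGe 1
  refine ⟨n, ?_, ?_⟩
  · rw [hn' 1 one_le_two, P.low_one (by omega), mapSub, Submodule.map_span, Set.image_singleton]
    exact congrArg (fun v => Submodule.span F {v}) hx'
  · rw [hn' 2 le_rfl, P.low_two hm, mapSub, Submodule.map_span, Set.image_pair]
    show Submodule.span F {G₀ e₀, G₀ e₁} = _
    rw [hx', hy']

include hUN hmid hfam hf hker in
/-- The two first kinds of overgroups differ as soon as their orbit lengths do. -/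
theorem never_of_orbits (hm : 2 ≤ m) (hgood : ¬ P.Thin ∨ 4 ≤ m)
    (h : Nat.card (Set.range fun g : P.stabN N (P.low 1) =>
        P.mapSub ((g : N) : P.isoGrp) (P.low 2)) ≠ Nat.card F + 1) :
    Never p H := by
  classical
  haveI := Fintype.ofFinite F
  haveI : Finite (V ≃ₗ[F] V) := Finite.of_injective _ DFunLike.coe_injective
  haveI : Finite H := Finite.of_surjective f hf
  obtain ⟨h1, h2⟩ := P.uImage_sylow p f hUN hmid hfam hf
  obtain ⟨D, hD⟩ := P.exists_parab f hUN hfam hf hker hm
  refine D.never_of_card h1 h2 (i := ⟨0, by omega⟩) (j := ⟨1, by omega⟩) fun hcard => h ?_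
  have hw0 : P.wsub ⟨0, by omega⟩ = P.low 1 := by
    rw [wsub, if_neg]; intro hh
    rcases hgood with hg | hg
    · exact hg hh.1
    · have := hh.2; simp only at this; omega
  have hw1 : P.wsub ⟨1, by omega⟩ = P.low 2 := by
    rw [wsub, if_neg]; intro hh
    rcases hgood with hg | hg
    · exact hg hh.1
    · have := hh.2; simp only at this; omega
  set S₁ := P.stabN N (P.low 1)
  set S₂ := P.stabN N (P.low 2)
  have hS : Nat.card S₁ = Nat.card S₂ := by
    rw [hD, hD, hw0, hw1] at hcard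
    have e₁ := Subgroup.index_map_eq (H := S₁) (f := f) hf (by
      show f.ker ≤ P.stabN N (P.low 1)
      rw [← hw0]; exact P.ker_stab f hUN hfam hker _)
    have e₂ := Subgroup.index_map_eq (H := S₂) (f := f) hf (by
      show f.ker ≤ P.stabN N (P.low 2)
      rw [← hw1]; exact P.ker_stab f hUN hfam hker _)
    have a₁ := (S₁.map f).card_mul_index
    have a₂ := (S₂.map f).card_mul_index
    rw [hcard, e₁] at a₁
    rw [e₂, ← a₁] at a₂
    have hidx := mul_left_cancel₀ Nat.card_pos.ne' a₂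
    have b₁ := S₁.card_mul_index
    rw [← S₂.card_mul_index, hidx] at b₁
    exact mul_right_cancel₀ Subgroup.index_ne_zero_of_finite b₁
  have hfib : ∀ (W : Submodule F V) (g g' : N),
      P.mapSub (g : P.isoGrp) W = P.mapSub (g' : P.isoGrp) W ↔ g⁻¹ * g' ∈ P.stabN N W := by
    intro W g g'
    rw [mem_stabN, Subgroup.coe_mul, Subgroup.coe_inv, P.mapSub_mul]
    constructor
    · intro h; rw [← h, ← P.mapSub_mul, inv_mul_cancel, P.mapSub_one]
    · intro h; conv_lhs => rw [← h, ← P.mapSub_mul, mul_inv_cancel, P.mapSub_one]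
  have c₁ := card_eq_mul_of_fibres (S₂.subgroupOf S₁)
    (fun g : S₁ => P.mapSub ((g : N) : P.isoGrp) (P.low 2)) fun g g' => hfib _ g.1 g'.1
  have c₂ := card_eq_mul_of_fibres (S₁.subgroupOf S₂)
    (fun g : S₂ => P.mapSub ((g : N) : P.isoGrp) (P.low 1)) fun g g' => hfib _ g.1 g'.1
  have k₁ : Nat.card (S₂.subgroupOf S₁) = Nat.card ↥(S₁ ⊓ S₂) := by
    rw [← Subgroup.inf_subgroupOf_left]
    exact Nat.card_congr (Subgroup.subgroupOfEquivOfLe inf_le_left).toEquiv
  have k₂ : Nat.card (S₁.subgroupOf S₂) = Nat.card ↥(S₁ ⊓ S₂) := by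
    rw [← Subgroup.inf_subgroupOf_right]
    exact Nat.card_congr (Subgroup.subgroupOfEquivOfLe inf_le_right).toEquiv
  rw [k₁, hS] at c₁
  rw [k₂, c₁] at c₂
  rw [mul_right_cancel₀ Nat.card_pos.ne' c₂]
  -- the points of `low 2`
  set e₀ := P.e ⟨0, by omega⟩ with he₀
  set e₁ := P.e ⟨1, hm⟩ with he₁
  let ψ : Option F → Submodule F V
    | none => Submodule.span F {e₀}
    | some t => Submodule.span F {t • e₀ + e₁}
  have hψ : Function.Injective ψ := by
    have key : ∀ t v, Submodule.span F {t • e₀ + e₁} = Submodule.span F {v} →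
        ∃ b : F, v = (b * t) • e₀ + b • e₁ := fun t v he => by
      have hv : v ∈ Submodule.span F {t • e₀ + e₁} := he ▸ Submodule.mem_span_singleton_self v
      obtain ⟨b, rfl⟩ := Submodule.mem_span_singleton.1 hv
      exact ⟨b, by rw [smul_add, smul_smul]⟩
    have c0 : ∀ a b : F, P.cE ⟨1, hm⟩ (a • e₀ + b • e₁) = b ∧
        P.cE ⟨0, by omega⟩ (a • e₀ + b • e₁) = a := fun a b => by
      simp [he₀, he₁, P.cE_e]
    rintro (_ | t) (_ | t') he
    · rfl
    · obtain ⟨b, hb⟩ := key t' e₀ he.symm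
      have e₂ := congrArg (P.cE ⟨1, hm⟩) hb
      rw [(c0 _ _).1, he₀, P.cE_e, if_neg (by simp)] at e₂
      rw [← e₂, zero_mul, zero_smul, zero_smul, add_zero] at hb
      exact absurd hb (P.e_indep.ne_zero _)
    · obtain ⟨b, hb⟩ := key t e₀ he
      have e₂ := congrArg (P.cE ⟨1, hm⟩) hb
      rw [(c0 _ _).1, he₀, P.cE_e, if_neg (by simp)] at e₂
      rw [← e₂, zero_mul, zero_smul, zero_smul, add_zero] at hb
      exact absurd hb (P.e_indep.ne_zero _)
    · obtain ⟨b, hb⟩ := key t _ he
      have e₂ := congrArg (P.cE ⟨1, hm⟩) hb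
      have e₃ := congrArg (P.cE ⟨0, by omega⟩) hb
      rw [← one_smul F e₁, smul_smul, mul_one, (c0 _ _).1, (c0 _ _).1] at e₂
      rw [← one_smul F e₁, smul_smul, mul_one, (c0 _ _).2, (c0 _ _).2, ← e₂, one_mul] at e₃
      rw [e₃]
  have hrange : (Set.range fun g : S₂ => P.mapSub ((g : N) : P.isoGrp) (P.low 1)) = Set.range ψ := by
    ext W
    constructor
    · rintro ⟨g, rfl⟩
      set v := (((g : N) : P.isoGrp) : V ≃ₗ[F] V) e₀ with hv
      have himg : P.mapSub ((g : N) : P.isoGrp) (P.low 1) = Submodule.span F {v} := by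
        rw [P.low_one (by omega), mapSub, Submodule.map_span, Set.image_singleton]; rfl
      have hv2 : v ∈ Submodule.span F {e₀, e₁} :=
        P.low_two hm ▸ g.2.le ⟨e₀, mem_first (by simp), rfl⟩
      obtain ⟨a, b, hab⟩ := Submodule.mem_span_pair.1 hv2
      have hv0 : v ≠ 0 := fun hh =>
        P.e_indep.ne_zero _ ((((g : N) : P.isoGrp) : V ≃ₗ[F] V).map_eq_zero_iff.1 hh)
      dsimp only
      rw [himg, ← hab]
      by_cases hb : b = 0
      · refine ⟨none, ?_⟩
        have ha : a ≠ 0 := fun ha => hv0 (by rw [← hab, ha, hb, zero_smul, zero_smul, add_zero])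
        rw [hb, zero_smul, add_zero]
        exact (Submodule.span_singleton_smul_eq (isUnit_iff_ne_zero.2 ha) e₀).symm
      · refine ⟨some (a / b), ?_⟩
        show Submodule.span F {(a / b) • e₀ + e₁} = _
        rw [← Submodule.span_singleton_smul_eq (isUnit_iff_ne_zero.2 hb) ((a / b) • e₀ + e₁),
          smul_add, smul_smul, mul_div_cancel₀ _ hb]
    · rintro ⟨o, rfl⟩
      cases o with
      | none =>
        refine ⟨1, ?_⟩
        show P.mapSub ((1 : N) : P.isoGrp) (P.low 1) = Submodule.span F {e₀}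
        rw [Subgroup.coe_one, P.mapSub_one, P.low_one (by omega)]
      | some t =>
        have hts := P.isTS_low 2
        have hm0 : e₀ ∈ P.low 2 := mem_first (by simp)
        have hx : t • e₀ + e₁ ∈ P.low 2 :=
          Submodule.add_mem _ (Submodule.smul_mem _ _ hm0) (mem_first (by simp))
        obtain ⟨n, hn1, hn2⟩ := P.exists_flag p hUN hmid hfam hm (hgood.imp_right (by omega))
          (x := t • e₀ + e₁) (y := e₀) (by
            rw [LinearIndependent.pair_iff]
            intro a b hab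
            have ha := congrArg (P.cE ⟨1, hm⟩) hab
            simp [he₀, he₁, P.cE_e] at ha
            rw [ha, zero_smul, zero_add, smul_eq_zero] at hab
            exact ⟨ha, hab.resolve_right (P.e_indep.ne_zero _)⟩)
          (hts _ hx).1 (hts _ hm0).1 ((hts _ hx).2 _ hm0)
        refine ⟨⟨n, ?_⟩, hn1⟩
        show P.mapSub (n : P.isoGrp) (P.low 2) = P.low 2
        rw [hn2, P.low_two hm]
        refine le_antisymm (Submodule.span_le.2 ?_) (Submodule.span_le.2 ?_)
        · rintro _ (rfl | rfl)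
          · exact P.low_two hm ▸ hx
          · exact Submodule.subset_span (Or.inl rfl)
        · rintro _ (rfl | rfl)
          · exact Submodule.subset_span (Or.inr rfl)
          · exact Submodule.mem_span_pair.2 ⟨1, -t, by rw [one_smul, neg_smul]; abel⟩
  rw [hrange, Nat.card_congr (Equiv.ofInjective ψ hψ).symm, Finite.card_option]

include hUN hmid hfam hf hker in
/-- Too many singular lines through a point. -/
theorem never_of_lines (hm : 2 ≤ m) (hgood : ¬ P.Thin ∨ 4 ≤ m) (y : Option (Option F) → V)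
    (hrest : ∀ o, y o ∈ P.rest 1) (hQ : ∀ o, P.Q (y o) = 0) (hne : ∀ o, y o ≠ 0)
    (hcol : ∀ o o', ∀ b : F, y o' = b • y o → o = o') : Never p H := by
  classical
  haveI : Finite (V ≃ₗ[F] V) := Finite.of_injective _ DFunLike.coe_injective
  refine P.never_of_orbits p f hUN hmid hfam hf hker hm hgood fun hcard => ?_
  set e₀ := P.e ⟨0, by omega⟩ with he₀
  have hc : ∀ o, P.cE ⟨0, by omega⟩ (y o) = 0 ∧ P.B e₀ (y o) = 0 := fun o =>
    P.mem_rest.1 (hrest o) ⟨0, by omega⟩ Nat.one_pos
  let ω : Option (Option F) → Set.range fun g : P.stabN N (P.low 1) =>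
      P.mapSub ((g : N) : P.isoGrp) (P.low 2) := fun o => ⟨Submodule.span F {e₀, y o}, by
    obtain ⟨n, hn1, hn2⟩ := P.exists_flag p hUN hmid hfam hm (hgood.imp_right (by omega))
      (x := e₀) (y := y o) (by
        rw [LinearIndependent.pair_iff]
        intro a b hab
        have ha := congrArg (P.cE ⟨0, by omega⟩) hab
        simp [he₀, P.cE_e, (hc o).1] at ha
        rw [ha, zero_smul, zero_add, smul_eq_zero] at hab
        exact ⟨ha, hab.resolve_right (hne o)⟩)
      (P.Qe _) (hQ o) (hc o).2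
    exact ⟨⟨n, by rw [mem_stabN, hn1, P.low_one (by omega)]⟩, hn2⟩⟩
  have hω : Function.Injective ω := by
    intro o o' he
    have h1 : y o' ∈ Submodule.span F {e₀, y o} :=
      (congrArg Subtype.val he).ge (Submodule.subset_span (Or.inr rfl))
    obtain ⟨a, b, hab⟩ := Submodule.mem_span_pair.1 h1
    have ha := congrArg (P.cE ⟨0, by omega⟩) hab
    simp [he₀, P.cE_e, (hc o).1, (hc o').1] at ha
    rw [ha, zero_smul, zero_add] at hab
    exact hcol o o' b hab.symm
  have := Nat.card_le_card_of_injective ω hω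
  rw [hcard, Finite.card_option, Finite.card_option] at this
  omega

include hUN hmid hfam hf hker in
/-- Rank at least three. -/
theorem never_of_three (hm : 3 ≤ m) (hgood : ¬ P.Thin ∨ 4 ≤ m) : Never p H := by
  classical
  let i₁ : Fin m := ⟨1, by omega⟩
  let i₂ : Fin m := ⟨2, by omega⟩
  refine P.never_of_lines p f hUN hmid hfam hf hker (by omega) hgood
    (fun o => match o with | none => P.e i₁ | some none => P.f i₁ | some (some t) => P.e i₂ + t • P.e i₁)
    (fun o => ?_) (fun o => ?_) (fun o => ?_) (fun o o' b hb => ?_)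
  · refine P.mem_rest.2 fun j hj => ?_
    have h1 : j ≠ i₁ := fun h => by subst h; simp [i₁] at hj
    have h2 : j ≠ i₂ := fun h => by subst h; simp [i₂] at hj
    rcases o with _ | _ | t <;> simp [P.cE_e, P.cE_f, P.cF_e, P.cF_f, h1, h2]
  · rcases o with _ | _ | t
    · exact P.Qe _
    · exact P.Qf _
    · exact ((P.isTS_low 3) _ (Submodule.add_mem _ (mem_first (by simp [i₂]))
        (Submodule.smul_mem _ _ (mem_first (by simp [i₁]))))).1
  · rcases o with _ | _ | t
    · exact P.e_indep.ne_zero _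
    · exact P.f_indep.ne_zero _
    · intro h
      have := congrArg (P.cE i₂) h
      simp [P.cE_e, i₁, i₂] at this
  · have hne : i₁ ≠ i₂ := by simp [i₁, i₂]
    have e1 := congrArg (P.cE i₂) hb
    have e2 := congrArg (P.cF i₁) hb
    have e3 := congrArg (P.cE i₁) hb
    rcases o with _ | _ | t <;> rcases o' with _ | _ | t' <;>
      simp [P.cE_e, P.cE_f, P.cF_e, P.cF_f, hne, Ne.symm hne] at e1 e2 e3 ⊢
    all_goals subst_vars; simp_all

include hUN hmid hfam hf hker in
/-- Rank two with a middle part. -/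
theorem never_of_mid (hm : m = 2) (hπ : ∃ a, a ≠ 0 ∧ P.π a = 0) (hz : ∃ z, P.mid z ≠ 0) :
    Never p H := by
  classical
  obtain ⟨a, ha, hπa⟩ := hπ
  obtain ⟨z₀, hz⟩ := hz
  set z := P.mid z₀ with hzdef
  let i₁ : Fin m := ⟨1, by omega⟩
  have hzc : ∀ j, P.cE j z = 0 ∧ P.cF j z = 0 := fun j => ⟨P.cE_mid j z₀, P.cF_mid j z₀⟩
  have hzmid : P.mid z = z := by rw [P.mid_apply]; simp [hzc]
  have hex : ∀ s : F, ∃ t : F, P.Q (P.f i₁ + (s • z + t • P.e i₁)) = 0 ∧
      P.B (P.e i₁) (P.f i₁ + (s • z + t • P.e i₁)) = 1 := fun s =>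
    P.exists_singular (i₀ := i₁) (s • z)
      (by rw [map_smul, show P.B (P.e i₁) z = 0 from (hzc i₁).2, smul_zero])
      (by rw [map_smul, (P.cE_eq_zero_iff i₁ z).1 (hzc i₁).1, smul_zero])
  choose t ht _ using hex
  refine P.never_of_lines p f hUN hmid hfam hf hker (by omega)
    (Or.inl fun h => hz (h.2 z₀))
    (fun o => match o with
      | none => P.e i₁
      | some none => P.f i₁ + (a / P.ε) • P.e i₁
      | some (some s) => if s = 0 then P.f i₁ else P.f i₁ + (s • z + t s • P.e i₁))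
    (fun o => ?_) (fun o => ?_) (fun o => ?_) (fun o o' b hb => ?_)
  · refine P.mem_rest.2 fun j hj => ?_
    have h1 : j ≠ i₁ := fun h => by subst h; simp [i₁] at hj
    rcases o with _ | _ | s
    · simp [P.cE_e, P.cF_e, h1]
    · simp [P.cE_e, P.cE_f, P.cF_e, P.cF_f, h1]
    · by_cases hs : s = 0 <;>
        simp [hs, P.cE_e, P.cE_f, P.cF_e, P.cF_f, h1, hzc j]
  · rcases o with _ | _ | s
    · exact P.Qe _
    · show P.Q (P.f i₁ + (a / P.ε) • P.e i₁) = 0
      rw [P.hd.add, P.Qf, P.Q_smul (P.Qe _), map_smul, P.fe, if_pos rfl, smul_eq_mul,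
        div_mul_cancel₀ _ (P.eps_ne_zero i₁), hπa, add_zero, add_zero]
    · by_cases hs : s = 0
      · simp [hs, P.Qf]
      · simpa [hs] using ht s
  · rcases o with _ | _ | s
    · exact P.e_indep.ne_zero _
    · intro h
      have := congrArg (P.cF i₁) h
      simp [P.cF_e, P.cF_f] at this
    · intro h
      have := congrArg (P.cF i₁) h
      by_cases hs : s = 0 <;> simp [hs, P.cF_e, P.cF_f, hzc i₁] at this
  · have hme : P.mid (P.e i₁) = 0 := (P.coord_of_mem_low (mem_first (v := P.e) i₁.2)).2.1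
    have hmf : P.mid (P.f i₁) = 0 := by simp [P.mid_apply, P.cE_f, P.cF_f]
    have hε := P.eps_ne_zero i₁
    let y : Option F → V := fun o => match o with
      | none => P.f i₁ + (a / P.ε) • P.e i₁
      | some s => if s = 0 then P.f i₁ else P.f i₁ + (s • z + t s • P.e i₁)
    have hy : ∀ o, P.cF i₁ (y o) = 1 := by
      rintro (_ | s)
      · simp [y, P.cF_e, P.cF_f]
      · by_cases hs : s = 0 <;> simp [y, hs, P.cF_e, P.cF_f, (hzc i₁).2]
    have hinj : Function.Injective y := by
      have hmid : ∀ s : F, P.mid (y (some s)) = s • z := fun s => by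
        by_cases hs : s = 0 <;> simp [y, hs, hme, hmf, hzmid]
      have hnone : P.mid (y none) = 0 := by simp [y, hme, hmf]
      have hne : ∀ s : F, y none ≠ y (some s) := fun s h => by
        have h1 := congrArg P.mid h
        rw [hnone, hmid, eq_comm, smul_eq_zero] at h1
        have h2 := congrArg (P.cE i₁) h
        simp [y, h1.resolve_right hz, P.cE_e, P.cE_f, ha, hε] at h2
      rintro (_ | s) (_ | s') h
      · rfl
      · exact absurd h (hne s')
      · exact absurd h.symm (hne s)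
      · have h1 := congrArg P.mid h
        rw [hmid, hmid] at h1
        rw [smul_left_injective F hz h1]
    rcases o with _ | o <;> rcases o' with _ | o'
    · rfl
    · have hb' : y o' = b • P.e i₁ := by cases o' <;> exact hb
      have := congrArg (P.cF i₁) hb'
      rw [hy, map_smul, P.cF_e, smul_zero] at this
      exact absurd this one_ne_zero
    · have hb' : P.e i₁ = b • y o := by cases o <;> exact hb
      have := congrArg (P.cF i₁) hb'
      rw [P.cF_e, map_smul, hy, smul_eq_mul, mul_one] at this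
      rw [← this, zero_smul] at hb'
      exact absurd hb' (P.e_indep.ne_zero _)
    · have hb' : y o' = b • y o := by cases o <;> cases o' <;> exact hb
      have := congrArg (P.cF i₁) hb'
      rw [hy, map_smul, hy, smul_eq_mul, mul_one] at this
      rw [← this, one_smul] at hb'
      rw [hinj hb']

include hUN hmid hfam hf hker in
/-- Rank two without middle part and with few isotropic scalars. -/
theorem never_of_few (hm : m = 2) (hπ : ∃ a, a ≠ 0 ∧ P.π a = 0) (hzero : ∀ x, P.mid x = 0)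
    (hlt : Nat.card {a : F // P.π (σ a) = 0} < Nat.card F) : Never p H := by
  classical
  haveI : Finite (V ≃ₗ[F] V) := Finite.of_injective _ DFunLike.coe_injective
  obtain ⟨a₀, ha₀, hπa⟩ := hπ
  refine P.never_of_orbits p f hUN hmid hfam hf hker (by omega)
    (Or.inl fun h => ha₀ (h.1 a₀ hπa)) fun hcard => ?_
  set e₀ := P.e ⟨0, by omega⟩ with he₀
  set e₁ := P.e ⟨1, by omega⟩ with he₁
  set f₁ := P.f ⟨1, by omega⟩ with hf₁
  let χ : Option {a : F // P.π (σ a) = 0} → Submodule F V
    | none => P.low 2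
    | some a => Submodule.span F {e₀, (a : F) • e₁ + f₁}
  have hsub : (Set.range fun g : P.stabN N (P.low 1) => P.mapSub ((g : N) : P.isoGrp) (P.low 2)) ⊆
      Set.range χ := by
    rintro _ ⟨g, rfl⟩
    set W := P.mapSub ((g : N) : P.isoGrp) (P.low 2) with hW
    have heW : e₀ ∈ W := by
      have : e₀ ∈ P.mapSub ((g : N) : P.isoGrp) (P.low 1) := by
        rw [show P.mapSub ((g : N) : P.isoGrp) (P.low 1) = P.low 1 from g.2]
        exact mem_first (by simp)
      exact Submodule.map_mono (first_mono _ one_le_two) this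
    have hts : P.IsTS W := by
      rintro _ ⟨u, hu, rfl⟩
      refine ⟨(P.isometry_Q _ u).trans ((P.isTS_low 2) u hu).1, ?_⟩
      rintro _ ⟨v, hv, rfl⟩
      exact (P.isometry_B _ u v).trans (((P.isTS_low 2) u hu).2 v hv)
    have hdim : finrank F W = 2 := (LinearEquiv.finrank_map_eq _ _).trans (P.finrank_low (by omega))
    have hlow1 : P.low 1 ≤ W := by
      rw [P.low_one (by omega)]; exact (Submodule.span_singleton_le_iff_mem _ _).2 heW
    by_cases hle : W ≤ P.low 2
    · exact ⟨none, (Submodule.eq_of_le_of_finrank_eq hle (by rw [hdim, P.finrank_low (by omega)])).symm⟩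
    obtain ⟨x, hx, hx'⟩ := SetLike.not_le_iff_exists.1 hle
    obtain ⟨y, hy, hd⟩ := P.sub_mem_rest hts hlow1 hx
    have hdec : x - y = P.cE ⟨1, by omega⟩ (x - y) • e₁ + P.cF ⟨1, by omega⟩ (x - y) • f₁ := by
      conv_lhs => rw [P.decomp (x - y), hzero, add_zero]
      have hr := P.mem_rest.1 hd.2 ⟨0, by omega⟩ Nat.one_pos
      rw [Finset.sum_eq_single (⟨1, by omega⟩ : Fin m) (fun j _ hj => ?_) (by simp),
        Finset.sum_eq_single (⟨1, by omega⟩ : Fin m) (fun j _ hj => ?_) (by simp)]
      all_goals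
        rw [show j = ⟨0, by omega⟩ from Fin.ext (by
          have : (j : ℕ) ≠ 1 := fun h => hj (Fin.ext h)
          have := j.2; simp only; omega)]
      · rw [hr.2, zero_smul]
      · rw [hr.1, zero_smul]
    set a := P.cE ⟨1, by omega⟩ (x - y)
    set b := P.cF ⟨1, by omega⟩ (x - y)
    have hb : b ≠ 0 := fun hb => hx' (by
      rw [← add_sub_cancel y x]
      refine Submodule.add_mem _ (first_mono _ one_le_two hy) ?_
      rw [hdec, hb, zero_smul, add_zero]
      exact Submodule.smul_mem _ _ (mem_first (by simp)))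
    have hvW : (a / b) • e₁ + f₁ ∈ W := by
      have := W.smul_mem b⁻¹ hd.1
      rwa [hdec, smul_add, smul_smul, smul_smul, inv_mul_cancel₀ hb, one_smul, ← div_eq_inv_mul] at this
    have hQ : P.π (σ (a / b)) = 0 := by
      have h1 := (hts _ hvW).1
      rwa [he₁, hf₁, P.hd.add, P.Q_smul (P.Qe _), P.Qf, P.B_smul_left, P.ef, if_pos rfl, mul_one,
        zero_add, zero_add] at h1
    refine ⟨some ⟨a / b, hQ⟩, Submodule.eq_of_le_of_finrank_eq ?_ ?_⟩
    · refine Submodule.span_le.2 ?_
      rintro _ (rfl | rfl)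
      exacts [heW, hvW]
    · rw [hdim]
      have hind : LinearIndependent F ![e₀, (a / b) • e₁ + f₁] := by
        rw [LinearIndependent.pair_iff]
        intro c d hcd
        have hd' := congrArg (P.cF ⟨1, by omega⟩) hcd
        simp [he₀, he₁, hf₁, P.cF_e, P.cF_f] at hd'
        rw [hd', zero_smul, add_zero, smul_eq_zero] at hcd
        exact ⟨hcd.resolve_right (P.e_indep.ne_zero _), hd'⟩
      have := finrank_span_eq_card hind
      rwa [Matrix.range_cons_cons_empty, Fintype.card_fin] at this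
  have h1 := Nat.card_mono (Set.finite_range χ) hsub
  rw [hcard] at h1
  have h2 := Finite.card_range_le χ
  rw [Finite.card_option] at h2
  omega

end Polar

end CfsgLib.PolarCycle
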