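import Cfsg.Agent.PMinLie36.Lie
import Cfsg.Agent.SylowOvergroup.TitsGroup

/-!
The Tits group: its two maximal 2-parabolic subgroups have different orders.
-/

set_option autoImplicit false

namespace CfsgLib.PMinLie36

open Cfsg Cfsg.Lie CfsgLib.Chevalley CfsgLib.BNPair CfsgLib.SylowOvergroup CfsgLib.TwistedLie

variable {G : Type*} [Group G] [Finite G] {P : Cfsg.BNPair G} {d : Split P 2} {D : Subgroup G}
  {a b : P.S}

theorem exists_cell_mem (T : Split.TwoData d D a b) (s : P.S) :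
    ∃ g ∈ D, g ∈ cell P (gen P s) := by
  obtain ⟨c, hc, hcs⟩ := exists_mem_cell_gen_sq P s
  refine ⟨s.1 * c * s.1⁻¹ * c⁻¹, T.comm ?_, ?_⟩
  · have := Subgroup.commutator_mem_commutator (H₁ := (⊤ : Subgroup G)) (H₂ := ⊤)
      (Subgroup.mem_top s.1) (Subgroup.mem_top c)
    rw [commutatorElement_def] at this
    rwa [commutator_def]
  · have h := cell_mul_right P (mul_mem (inv_mem (P.sq_mem _ s.2)) (inv_mem hc)) hcs
    convert h using 1
    group

/-- The maximal overgroups inside the normal subgroup. -/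
noncomputable def twoParab (T : Split.TwoData d D a b) :
    Parab (d.U.subgroupOf D) P.S where
  P s := (maxP s).subgroupOf D
  le _ := Subgroup.comap_mono (d.U_le.trans le_sup_left)
  cover Y hUY hY := by
    set M := Y.map D.subtype
    have hM : d.U ⊓ D ≤ M := fun x hx => ⟨⟨x, hx.2⟩, hUY hx.1, rfl⟩
    obtain ⟨s, hs⟩ : ∃ s : P.S, s ∉ d.met M := by
      by_contra h
      push Not at h
      refine hY (top_le_iff.1 fun x _ => ?_)
      obtain ⟨y, hy, e⟩ := T.le_of_met hM (Subgroup.map_subtype_le Y) h x.2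
      exact Subtype.ext e ▸ hy
    refine ⟨s, fun x hx => parabolic_mono P ?_ (T.mem_parabolic hM ⟨x, hx, rfl⟩)⟩
    rintro _ ⟨t, ht, rfl⟩
    exact ⟨t.2, fun e => hs (Subtype.ext e ▸ ht)⟩
  indep s := by
    obtain ⟨g, hgD, hgs⟩ := exists_cell_mem T s
    refine ⟨⟨g, hgD⟩, fun h => ?_, fun t ht => ?_⟩
    · obtain ⟨u, hu, c, hc, rfl⟩ := d.exists_left (P.subset s.2) hgs
      have h' : u * s.1 * c ∈ maxP s := h
      have hB : P.B ≤ maxP s := le_sup_left
      have hs : s.1 ∈ maxP s := by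
        simpa [mul_assoc] using mul_mem (mul_mem (inv_mem (hB (d.U_le hu))) h') (inv_mem (hB hc))
      exact (mem_of_mem_parabolic P Set.sdiff_subset s.2 hs).2 rfl
    · exact mem_parabolic_of_word (K := P.S \ {t.1}) [s]
        (fun x hx => by
          rw [List.mem_singleton] at hx
          subst hx
          exact ⟨x.2, fun e => ht (Subtype.ext e).symm⟩) d (by simpa [wordProd] using hgs)

theorem card_inf_single (T : Split.TwoData d D a b) (s : P.S) :
    Nat.card ↥(P.parabolic {s.1} ⊓ D) * Nat.card ↥P.B =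
      Nat.card ↥(P.parabolic {s.1}) * Nat.card ↥(P.B ⊓ D) := by
  haveI : Fact (Nat.Prime 2) := ⟨Nat.prime_two⟩
  set Q := P.parabolic {s.1} with hQ
  have hB : P.B ≤ Q := le_sup_left
  let φ : ↥Q → G ⧸ P.B := fun q => ((q : G) : G ⧸ P.B)
  let ψ : ↥(Q ⊓ D) → G ⧸ P.B := fun q => ((q : G) : G ⧸ P.B)
  have c₁ := card_eq_mul_of_fibres (P.B.subgroupOf Q) φ fun g g' => by
    rw [QuotientGroup.eq, Subgroup.mem_subgroupOf, Subgroup.coe_mul, Subgroup.coe_inv]
  have c₂ := card_eq_mul_of_fibres (P.B.subgroupOf (Q ⊓ D)) ψ fun g g' => by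
    rw [QuotientGroup.eq, Subgroup.mem_subgroupOf, Subgroup.coe_mul, Subgroup.coe_inv]
  have k₁ : Nat.card ↥(P.B.subgroupOf Q) = Nat.card ↥P.B :=
    Nat.card_congr (Subgroup.subgroupOfEquivOfLe hB).toEquiv
  have k₂ : Nat.card ↥(P.B.subgroupOf (Q ⊓ D)) = Nat.card ↥(P.B ⊓ D) := by
    rw [← Subgroup.inf_subgroupOf_right]
    refine (Nat.card_congr (Subgroup.subgroupOfEquivOfLe inf_le_right).toEquiv).trans ?_
    congr 2
    rw [← inf_assoc, inf_eq_left.2 hB]
  have hr : Set.range ψ = Set.range φ := by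
    refine Set.Subset.antisymm ?_ ?_
    · rintro _ ⟨q, rfl⟩
      exact ⟨⟨q, q.2.1⟩, rfl⟩
    rintro _ ⟨⟨q, hq⟩, rfl⟩
    rcases mem_single s hq with hqB | hqs
    · exact ⟨⟨1, one_mem _⟩, QuotientGroup.eq.2 (by simpa using hqB)⟩
    obtain ⟨g, hgD, hgs⟩ := exists_cell_mem T s
    obtain ⟨u₀, hu₀, c₀, hc₀, rfl⟩ := d.exists_left (P.subset s.2) hgs
    obtain ⟨u, hu, c, hc, rfl⟩ := d.exists_left (P.subset s.2) hqs
    obtain ⟨z, hz, hzB, hxz⟩ : ∃ z ∈ d.U, s.1⁻¹ * z * s.1 ∈ P.B ∧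
        u * u₀⁻¹ * (u₀ * z * u₀⁻¹) ∈ D := by
      by_cases h : u * u₀⁻¹ ∈ D
      · exact ⟨1, one_mem _, by simp, by simpa using h⟩
      have h' : u₀⁻¹ * u ∉ D := fun h' => h (by
        have := T.normal.conj_mem _ h' u₀
        simpa [mul_assoc] using this)
      obtain ⟨z, hz, hzB, hzD⟩ := T.adj_gen s s.1 (P.subset s.2) rfl _ (mul_mem (inv_mem hu₀) hu) h'
      refine ⟨z, hz, hzB, ?_⟩
      have := T.normal.conj_mem _ hzD u₀
      simpa [mul_assoc] using this
    have huz : u * u₀⁻¹ * (u₀ * z * u₀⁻¹) ∈ Q := hB (d.U_le (mul_mem (mul_mem hu (inv_mem hu₀))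
      (mul_mem (mul_mem hu₀ hz) (inv_mem hu₀))))
    refine ⟨⟨u * u₀⁻¹ * (u₀ * z * u₀⁻¹) * (u₀ * s.1 * c₀),
      mul_mem huz (cell_le_single d s hgs), mul_mem hxz hgD⟩, QuotientGroup.eq.2 ?_⟩
    have := mul_mem (mul_mem (inv_mem hc₀) (inv_mem hzB)) hc
    convert this using 1
    group
  rw [c₁, c₂, k₁, k₂, hr]
  ring

theorem never_of_two (T : Split.TwoData d D a b) (hab : a ≠ b)
    (h : Nat.card ↥(P.parabolic {a.1}) ≠ Nat.card ↥(P.parabolic {b.1})) : Never 2 ↥D := by
  haveI : Fact (Nat.Prime 2) := ⟨Nat.prime_two⟩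
  refine (twoParab T).never_of_card (i := a) (j := b)
    (d.U_p.comap_of_injective D.subtype D.subtype_injective) (Split.index_trace d T.normal) fun e => ?_
  have key : ∀ s : P.S, Nat.card ↥((maxP s).subgroupOf D) = Nat.card ↥(maxP s ⊓ D) := fun s => by
    rw [← Subgroup.inf_subgroupOf_right]
    exact Nat.card_congr (Subgroup.subgroupOfEquivOfLe inf_le_right).toEquiv
  change Nat.card ↥((maxP a).subgroupOf D) = Nat.card ↥((maxP b).subgroupOf D) at e
  rw [key, key, maxP_eq_single hab T.gens, maxP_eq_single hab.symm fun k => (T.gens k).symm] at e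
  have ea := card_inf_single T a
  have eb := card_inf_single T b
  rw [e, ea] at eb
  exact h (mul_right_cancel₀ Nat.card_pos.ne' eb)

theorem tits_never : Never 2 ↥(commutator ↥(Cfsg.Lie.twistedF4 (ZMod 2) 1)) := by
  haveI : Fact (Nat.Prime 2) := ⟨Nat.prime_two⟩
  obtain ⟨d, hdU, T⟩ := tits_data
  have hinj := (F4.tw TitsInvolutions.card_field).sElem_bijective.injective
  refine never_of_two T (hinj.ne (by decide)) ?_
  intro h
  have hX := mul_right_cancel₀ Nat.card_pos.ne'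
    ((tw_card_single (F4.tw TitsInvolutions.card_field) 2 d hdU 1).symm.trans
      (h.trans (tw_card_single (F4.tw TitsInvolutions.card_field) 2 d hdU 0)))
  have h0 := F4.card_X_sq TitsInvolutions.card_field 0
  have h1 := F4.card_X_sq TitsInvolutions.card_field 1
  rw [← add_right_cancel hX, h1] at h0
  have e : ∀ i : Fin 2, (invSet (Sys.wperm sysF4 ((F4.tw TitsInvolutions.card_field).blk i))).card =
      ![4, 2] i := fun i => by
    have := F4.inv_card TitsInvolutions.card_field [i]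
    rw [Tw.wW_single] at this
    rw [this]
    clear this
    revert i
    decide +kernel
  rw [e, e] at h0
  simp at h0

end CfsgLib.PMinLie36
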